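import Cfsg.Agent.Ito.PSLId

/-!
# Ito's theorem
-/

set_option autoImplicit false
set_option linter.unusedSectionVars false

namespace Cfsg.Agent.Ito

open MulAction Cfsg

/-- The main theorem about designs. -/
theorem Des.main {G P Q : Type*} [Group G] [MulAction G P] [MulAction G Q] {I : P → Q → Prop}
    {v k l : ℕ} [Finite P] [Finite Q] [Finite G] [FaithfulSMul G P] (D : Des G P Q I v k l)
    {B0 : Q} {h0 : G} (hh0 : h0 ∈ ker G I B0) (h01 : h0 ≠ 1) :
    ∃ (m : ℕ) (F : Type) (_ : Field F) (_ : Fintype F), 2 ≤ m ∧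
      Nat.card P = (Fintype.card F ^ (m + 1) - 1) / (Fintype.card F - 1) ∧
      ∃ N : Subgroup G, N.Normal ∧
        Nonempty (N ≃* Matrix.ProjectiveSpecialLinearGroup (Fin (m + 1)) F) ∧
        Subgroup.centralizer (N : Set G) = ⊥ := by
  obtain ⟨N, F, hab⟩ := D.exists_comm_fam hh0 h01
  obtain ⟨q, c, E⟩ := D.exists_ela F hab
  exact final D E

theorem ito {G Ω : Type*} [Group G] [Finite G] [MulAction G Ω] [FaithfulSMul G Ω] [Finite Ω]
    (h2 : MulAction.IsMultiplyPretransitive G Ω 2) (H : Subgroup G)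
    (hidx : H.index = Nat.card Ω) (hnt : ¬ MulAction.IsPretransitive H Ω)
    (hfix : ∀ a : Ω, ∃ h : H, h • a ≠ a)
    (hunf : ∃ a : Ω, ∃ h : H, h ≠ 1 ∧ ∀ b ∈ MulAction.orbit H a, h • b = b) :
    ∃ (m : ℕ) (F : Type) (_ : Field F) (_ : Fintype F), 2 ≤ m ∧
      Nat.card Ω = (Fintype.card F ^ (m + 1) - 1) / (Fintype.card F - 1) ∧
      ∃ N : Subgroup G, N.Normal ∧
        Nonempty (N ≃* Matrix.ProjectiveSpecialLinearGroup (Fin (m + 1)) F) ∧
        Subgroup.centralizer (N : Set G) = ⊥ := by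
  classical
  obtain ⟨a, h, h1, hb⟩ := hunf
  rw [is_two_pretransitive_iff] at h2
  have tP : ∀ x y x' y' : Ω, x ≠ y → x' ≠ y' → ∃ g : G, g • x = x' ∧ g • y = y' :=
    fun x y x' y' hxy hxy' => h2 hxy hxy'
  let Δ : Set Ω := orbit H a
  have hΔ : ∀ (h : G), h ∈ H → ∀ x, h • x ∈ Δ ↔ x ∈ Δ := by
    intro h hh x
    constructor
    · rintro ⟨g, hg⟩
      have hg' : (g : G) • a = h • x := hg
      refine ⟨(⟨h, hh⟩ : H)⁻¹ * g, ?_⟩
      change (h⁻¹ * (g : G)) • a = x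
      rw [mul_smul, hg', inv_smul_smul]
    · rintro ⟨g, hg⟩
      have hg' : (g : G) • a = x := hg
      refine ⟨(⟨h, hh⟩ : H) * g, ?_⟩
      change (h * (g : G)) • a = h • x
      rw [mul_smul, hg']
  let I : Ω → G ⧸ H → Prop := fun x B => ∃ g : G, (g : G ⧸ H) = B ∧ g⁻¹ • x ∈ Δ
  have hI : ∀ (x : Ω) (g : G), I x (g : G ⧸ H) ↔ g⁻¹ • x ∈ Δ := by
    intro x g
    constructor
    · rintro ⟨g', hg', hx⟩
      rw [QuotientGroup.eq] at hg'
      have h3 := (hΔ _ hg' (g⁻¹ • x)).mp (by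
        rw [mul_smul, smul_inv_smul]; exact hx)
      exact h3
    · intro hx
      exact ⟨g, rfl, hx⟩
  have inv : ∀ (g : G) x B, I (g • x) (g • B) ↔ I x B := by
    intro g x B
    obtain ⟨g', rfl⟩ := QuotientGroup.mk_surjective B
    have : g • (g' : G ⧸ H) = ((g * g' : G) : G ⧸ H) := rfl
    rw [this, hI, hI, mul_inv_rev, mul_smul, inv_smul_smul]
  have kP : ∀ B : G ⧸ H, Set.ncard {x | I x B} = Δ.ncard := by
    intro B
    obtain ⟨g, rfl⟩ := QuotientGroup.mk_surjective B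
    rw [← Set.ncard_image_of_injective Δ (MulAction.injective g)]
    congr 1
    ext x
    simp only [Set.mem_setOf_eq, Set.mem_image, hI]
    constructor
    · intro hx
      exact ⟨_, hx, smul_inv_smul g x⟩
    · rintro ⟨y, hy, rfl⟩
      rw [inv_smul_smul]; exact hy
  -- size of the block
  obtain ⟨ha, hha⟩ := hfix a
  have k2 : 2 ≤ Δ.ncard := by
    have h3 : 1 < Δ.ncard := (Set.one_lt_ncard (Set.toFinite _)).mpr
      ⟨_, mem_orbit a ha, _, mem_orbit_self a, hha⟩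
    omega
  obtain ⟨b, hbΔ⟩ : ∃ b, b ∉ Δ := by
    by_contra hcon
    push Not at hcon
    apply hnt
    constructor
    intro x y
    obtain ⟨g, rfl⟩ := hcon x
    obtain ⟨g', rfl⟩ := hcon y
    exact ⟨g' * g⁻¹, by simp [mul_smul]⟩
  obtain ⟨hb', hhb⟩ := hfix b
  have kv : Δ.ncard + 2 ≤ Nat.card Ω := by
    have h3 := Set.ncard_add_ncard_compl Δ
    have h4 : 1 < Δᶜ.ncard := (Set.one_lt_ncard (Set.toFinite _)).mpr
      ⟨hb' • b, fun h => hbΔ ((hΔ _ hb'.2 b).mp h), b, hbΔ, hhb⟩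
    omega
  have hab : a ≠ ha • a := hha.symm
  have lP : ∀ x y, x ≠ y → Set.ncard {B | I x B ∧ I y B}
      = Set.ncard {B | I a B ∧ I (ha • a) B} := by
    intro x y hxy
    obtain ⟨g, rfl, rfl⟩ := tP a (ha • a) x y hab hxy
    rw [← Set.ncard_image_of_injective {B | I a B ∧ I (ha • a) B} (MulAction.injective g)]
    congr 1
    ext B
    simp only [Set.mem_setOf_eq, Set.mem_image]
    constructor
    · rintro ⟨h3, h4⟩
      refine ⟨g⁻¹ • B, ⟨?_, ?_⟩, smul_inv_smul g B⟩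
      · rw [← inv g, smul_inv_smul]; exact h3
      · rw [← inv g, smul_inv_smul]; exact h4
    · rintro ⟨C, ⟨h3, h4⟩, rfl⟩
      exact ⟨(inv g _ _).mpr h3, (inv g _ _).mpr h4⟩
  have D : Des G Ω (G ⧸ H) I (Nat.card Ω) Δ.ncard
      (Set.ncard {B | I a B ∧ I (ha • a) B}) :=
    Des.of I _ _ _ inv rfl hidx kP lP tP k2 kv
  refine D.main (B0 := ((1 : G) : G ⧸ H)) (h0 := (h : G)) ?_ ?_
  · intro x hx
    rw [hI, inv_one, one_smul] at hx
    exact hb x hx
  · intro e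
    exact h1 (Subtype.ext e)

end Cfsg.Agent.Ito
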