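import Cfsg.Agent.Ito.AZ

/-!
# Artin-Zorn: finite alternative division rings are fields
-/

set_option autoImplicit false
set_option linter.unusedSectionVars false

namespace Cfsg.Agent.Ito.AZ

open Polynomial

/-- An eigenvector outside a subspace. -/
theorem exists_eigen {K V : Type*} [Field K] [AddCommGroup V] [Module K V] (T : Module.End K V)
    (W : Submodule K V) (t : Finset K) :
    ∀ s : V, s ∉ W → aeval T (∏ c ∈ t, (X - C c)) s = 0 →
      ∃ c ∈ t, ∃ s', s' ∉ W ∧ T s' = c • s' := by
  classical
  induction t using Finset.induction_on with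
  | empty =>
    intro s hs h
    exfalso
    simp only [Finset.prod_empty, map_one, Module.End.one_apply] at h
    exact hs (h ▸ W.zero_mem)
  | insert c t hc ih =>
    intro s hs h
    rw [Finset.prod_insert hc] at h
    have hco : IsCoprime (X - C c) (∏ c ∈ t, (X - C c)) := by
      apply IsCoprime.prod_right
      intro d hd
      apply isCoprime_X_sub_C_of_isUnit_sub
      apply IsUnit.mk0
      rw [sub_ne_zero]
      rintro rfl
      exact hc hd
    have h1 : s ∈ LinearMap.ker (aeval T ((X - C c) * ∏ c ∈ t, (X - C c))) := h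
    rw [← sup_ker_aeval_eq_ker_aeval_mul_of_coprime T hco, Submodule.mem_sup] at h1
    obtain ⟨s1, hs1, s2, hs2, rfl⟩ := h1
    by_cases h3 : s1 ∈ W
    · have h4 : s2 ∉ W := fun h4 => hs (W.add_mem h3 h4)
      obtain ⟨d, hd, s', h5, h6⟩ := ih s2 h4 hs2
      exact ⟨d, Finset.mem_insert_of_mem hd, s', h5, h6⟩
    · refine ⟨c, Finset.mem_insert_self _ _, s1, h3, ?_⟩
      rw [LinearMap.mem_ker] at hs1
      simp only [map_sub, aeval_X, aeval_C, LinearMap.sub_apply, Module.algebraMap_end_apply]
        at hs1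
      exact sub_eq_zero.mp hs1

variable {S : Type*} [NonAssocRing S]

namespace Mf

variable (H : Mf S)
include H

section Ext

variable {M : AddSubgroup S} (hM : Good M) {s : S} (hs : ∀ k ∈ M, ∃ k' ∈ M, s * k = k' * s)

omit H in
/-- `M[s]`. -/
def adj (M : AddSubgroup S) (s : S) : AddSubgroup S :=
  AddSubgroup.closure {x | ∃ k ∈ M, ∃ i, x = k * pw s i}

omit H in
theorem mem_adj {k : S} (hk : k ∈ M) (i : ℕ) : k * pw s i ∈ adj M s :=
  AddSubgroup.subset_closure ⟨k, hk, i, rfl⟩

theorem F1 (k : S) (i j : ℕ) : (k * pw s i) * pw s j = k * pw s (i + j) := by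
  rw [H.mul_pw, H.mul_pw, H.mul_pw, add_comm, Function.iterate_add_apply]

theorem F2 (k : S) (i j : ℕ) : pw s i * (k * pw s j) = (pw s i * k) * pw s j := by
  have h := H.as_swap (pw s i) k (pw s j)
  have h2 : as k (pw s i) (pw s j) = 0 := by
    simp only [as]
    rw [H.F1, H.pw_add, sub_self]
  rw [h2, neg_zero] at h
  exact (sub_eq_zero.mp h).symm

include hs in
theorem sig (i : ℕ) : ∀ k ∈ M, ∃ k' ∈ M, pw s i * k = k' * pw s i := by
  induction i with
  | zero =>
    intro k hk
    exact ⟨k, hk, by simp [pw_zero]⟩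
  | succ i ih =>
    intro k hk
    obtain ⟨k1, hk1, h1⟩ := ih k hk
    obtain ⟨k2, hk2, h2⟩ := hs k1 hk1
    refine ⟨k2, hk2, ?_⟩
    have h3 : as s (pw s i) k = 0 := by
      rw [H.as_swap', H.as_swap, neg_neg]
      simp only [as]
      have := H.F1 (s := s) k 1 i
      rw [pw_one] at this
      rw [this, ← pw_succ, add_comm, sub_self]
    have h4 : (s * pw s i) * k = s * (pw s i * k) := sub_eq_zero.mp h3
    have h5 := H.F2 (s := s) k1 1 i
    rw [pw_one] at h5
    have h6 := H.F1 (s := s) k2 1 i
    rw [pw_one] at h6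
    rw [pw_succ, h4, h1, h5, h2, h6, add_comm, pw_succ]

include hM in
theorem F3 {k : S} (hk : k ∈ M) (i : ℕ) : ∀ y ∈ adj M s, (k * pw s i) * y = k * (pw s i * y) := by
  intro y hy
  induction hy using AddSubgroup.closure_induction with
  | mem y hy =>
    obtain ⟨l, hl, j, rfl⟩ := hy
    have h := H.as_swap' k (pw s i) (l * pw s j)
    have h2 : as k (l * pw s j) (pw s i) = 0 := by
      simp only [as]
      rw [← hM.la k hk l hl, H.F1, H.F1, ← hM.la k hk l hl, sub_self]
    rw [h2, neg_zero] at h
    exact sub_eq_zero.mp h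
  | zero => simp
  | add a b _ _ ha hb => rw [mul_add, mul_add, mul_add, ha, hb]
  | neg a _ ha => rw [mul_neg, mul_neg, mul_neg, ha]

include hM hs in
theorem adj_mul : ∀ x ∈ adj M s, ∀ y ∈ adj M s, x * y ∈ adj M s := by
  intro x hx
  induction hx using AddSubgroup.closure_induction with
  | mem x hx =>
    obtain ⟨k, hk, i, rfl⟩ := hx
    intro y hy
    induction hy using AddSubgroup.closure_induction with
    | mem y hy =>
      obtain ⟨l, hl, j, rfl⟩ := hy
      obtain ⟨l', hl', h1⟩ := H.sig hs i l hl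
      rw [H.F3 hM hk i _ (mem_adj hl j), H.F2, h1, H.F1, ← hM.la k hk l' hl']
      exact mem_adj (hM.mul k hk l' hl') _
    | zero => rw [mul_zero]; exact zero_mem _
    | add a b _ _ ha hb => rw [mul_add]; exact add_mem ha hb
    | neg a _ ha => rw [mul_neg]; exact neg_mem ha
  | zero => intro y _; rw [zero_mul]; exact zero_mem _
  | add a b _ _ ha hb => intro y hy; rw [add_mul]; exact add_mem (ha y hy) (hb y hy)
  | neg a _ ha => intro y hy; rw [neg_mul]; exact neg_mem (ha y hy)

include hM hs in
theorem adj_assoc : ∀ x ∈ adj M s, ∀ y ∈ adj M s, ∀ w ∈ adj M s, (x * y) * w = x * (y * w) := by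
  intro x hx
  induction hx using AddSubgroup.closure_induction with
  | mem x hx =>
    obtain ⟨k, hk, i, rfl⟩ := hx
    intro y hy
    induction hy using AddSubgroup.closure_induction with
    | mem y hy =>
      obtain ⟨l, hl, j, rfl⟩ := hy
      intro w hw
      obtain ⟨l', hl', h1⟩ := H.sig hs i l hl
      have hpj : pw s j ∈ adj M s := by
        have := mem_adj (s := s) hM.one j
        rwa [one_mul] at this
      have hl0 : l ∈ adj M s := by
        have := mem_adj (s := s) hl 0
        rwa [pw_zero, mul_one] at this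
      set u := pw s j * w with hu
      have huM : u ∈ adj M s := H.adj_mul hM hs _ hpj _ hw
      have e1 : (k * pw s i) * (l * pw s j) = (k * l') * pw s (i + j) := by
        rw [H.F3 hM hk i _ (mem_adj hl j), H.F2, h1, H.F1, ← hM.la k hk l' hl']
      have e2 : pw s i * (l * u) = l' * (pw s i * u) := by
        have h2 := H.as_swap (pw s i) l u
        have h3 : as l (pw s i) u = 0 := by
          simp only [as]
          rw [H.F3 hM hl i u huM, sub_self]
        rw [h3, neg_zero] at h2
        rw [← sub_eq_zero.mp h2, h1, H.F3 hM hl' i u huM]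
      rw [e1, H.F3 hM (hM.mul k hk l' hl') _ w hw, H.F3 hM hl j w hw,
        H.F3 hM hk i _ (H.adj_mul hM hs _ hl0 _ huM), e2, ← hM.la k hk l' hl', hu,
        H.pw_mul, H.pw_mul, H.pw_mul, ← Function.iterate_add_apply]
    | zero => intro w _; simp
    | add a b _ _ ha hb =>
      intro w hw
      rw [mul_add, add_mul, add_mul, mul_add, ha w hw, hb w hw]
    | neg a _ ha =>
      intro w hw
      rw [mul_neg, neg_mul, neg_mul, mul_neg, ha w hw]
  | zero => intro y _ w _; simp
  | add a b _ _ ha hb =>
    intro y hy w hw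
    rw [add_mul, add_mul, add_mul, ha y hy w hw, hb y hy w hw]
  | neg a _ ha =>
    intro y hy w hw
    rw [neg_mul, neg_mul, neg_mul, ha y hy w hw]

end Ext

omit H in
/-- A closed associative subgroup is a ring. -/
@[reducible] def toRing (M : AddSubgroup S) (h1 : (1 : S) ∈ M) (hm : ∀ k ∈ M, ∀ l ∈ M, k * l ∈ M)
    (ha : ∀ x ∈ M, ∀ y ∈ M, ∀ w ∈ M, (x * y) * w = x * (y * w)) : Ring M :=
  { (inferInstance : AddCommGroup M) with
    mul := fun a b => ⟨a * b, hm a a.2 b b.2⟩
    one := ⟨1, h1⟩
    mul_assoc := fun a b c => Subtype.ext (ha a a.2 b b.2 c c.2)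
    one_mul := fun a => Subtype.ext (one_mul (a : S))
    mul_one := fun a => Subtype.ext (mul_one (a : S))
    left_distrib := fun a b c => Subtype.ext (mul_add (a : S) b c)
    right_distrib := fun a b c => Subtype.ext (add_mul (a : S) b c)
    zero_mul := fun a => Subtype.ext (zero_mul (a : S))
    mul_zero := fun a => Subtype.ext (mul_zero (a : S)) }

omit H in
/-- In a finite associative closed subgroup all nonzero elements are powers of one element. -/
theorem exists_gen [Finite S] [Nontrivial S] (h0 : ∀ x y : S, x * y = 0 → x = 0 ∨ y = 0)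
    (M : AddSubgroup S) (h1 : (1 : S) ∈ M) (hm : ∀ k ∈ M, ∀ l ∈ M, k * l ∈ M)
    (ha : ∀ x ∈ M, ∀ y ∈ M, ∀ w ∈ M, (x * y) * w = x * (y * w)) :
    ∃ m ∈ M, (∀ x ∈ M, x ≠ 0 → ∃ n, x = pw m n) ∧ pw m (Nat.card M) = m ∧
      ((Nat.card M : ℕ) • (1 : S) = 0) := by
  classical
  letI R : Ring M := toRing M h1 hm ha
  haveI : Nontrivial M := ⟨⟨⟨1, h1⟩, 0, fun e => one_ne_zero (congrArg Subtype.val e : (1 : S) = 0)⟩⟩
  haveI : NoZeroDivisors M := ⟨by
    intro a b hab
    have h2 : (a : S) * b = 0 := congrArg Subtype.val hab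
    rcases h0 _ _ h2 with h | h
    · left; exact Subtype.ext h
    · right; exact Subtype.ext h⟩
  haveI : IsDomain M := NoZeroDivisors.to_isDomain M
  have hF : IsField M := Finite.isDomain_to_isField M
  letI : Field M := hF.toField
  haveI := Fintype.ofFinite M
  obtain ⟨g, hg⟩ := IsCyclic.exists_generator (α := Mˣ)
  have hpow : ∀ (x : M) (n : ℕ), ((x ^ n : M) : S) = pw (x : S) n := by
    intro x n
    induction n with
    | zero => rw [pow_zero]; rfl
    | succ n ih =>
      rw [pow_succ', pw_succ, ← ih]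
      rfl
  refine ⟨((g : M) : S), (g : M).2, ?_, ?_, ?_⟩
  · intro x hx hx0
    have hx1 : (⟨x, hx⟩ : M) ≠ 0 := fun e => hx0 (congrArg Subtype.val e)
    have h2 := hg (Units.mk0 _ hx1)
    rw [← mem_powers_iff_mem_zpowers] at h2
    obtain ⟨n, hn⟩ := h2
    refine ⟨n, ?_⟩
    have h3 := congrArg (fun u : Mˣ => ((u : M) : S)) hn
    simp only [Units.val_pow_eq_pow_val, Units.val_mk0] at h3
    rw [← h3, hpow]
  · rw [← hpow, Nat.card_eq_fintype_card, FiniteField.pow_card]
  · have h2 : ((Nat.card M : ℕ) : M) = 0 := by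
      rw [Nat.card_eq_fintype_card, FiniteField.cast_card_eq_zero]
    have h3 : (Nat.card M : ℕ) • (1 : M) = 0 := by
      rw [nsmul_eq_mul, h2, zero_mul]
    have h4 := congrArg Subtype.val h3
    exact h4

/-- **Artin-Zorn.** -/
theorem main [Finite S] [Nontrivial S] (h0 : ∀ x y : S, x * y = 0 → x = 0 ∨ y = 0) :
    (∀ x y : S, x * y = y * x) ∧ ∀ x y z : S, (x * y) * z = x * (y * z) := by
  classical
  -- a maximal good subgroup
  obtain ⟨M, hMax⟩ : ∃ M : AddSubgroup S, Maximal (fun M => Good M) M := by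
    obtain ⟨M, hM⟩ := Set.Finite.exists_maximal (s := {M : AddSubgroup S | Good M})
      (Set.toFinite _) ⟨_, H.good_closure 1⟩
    exact ⟨M, hM⟩
  have hM : Good M := hMax.1
  suffices hall : ∀ s, s ∈ M by
    exact ⟨fun x y => hM.comm x (hall x) y (hall y),
      fun x y z => hM.la x (hall x) y (hall y) z⟩
  by_contra hcon
  push Not at hcon
  obtain ⟨s0, hs0⟩ := hcon
  have hassM : ∀ x ∈ M, ∀ y ∈ M, ∀ w ∈ M, (x * y) * w = x * (y * w) :=
    fun x hx y hy w _ => hM.la x hx y hy w
  obtain ⟨x, hx, hgen, hxQ, -⟩ := exists_gen h0 M hM.one hM.mul hassM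
  -- the eigenvector
  obtain ⟨s, hsM, c, hc, hsc⟩ : ∃ s, s ∉ M ∧ ∃ c ∈ M, s * x = c * s := by
    letI R : Ring M := toRing M hM.one hM.mul hassM
    haveI : Nontrivial M :=
      ⟨⟨⟨1, hM.one⟩, 0, fun e => one_ne_zero (congrArg Subtype.val e : (1 : S) = 0)⟩⟩
    haveI : NoZeroDivisors M := ⟨by
      intro a b hab
      have h2 : (a : S) * b = 0 := congrArg Subtype.val hab
      rcases h0 _ _ h2 with h | h
      · left; exact Subtype.ext h
      · right; exact Subtype.ext h⟩
    haveI : IsDomain M := NoZeroDivisors.to_isDomain M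
    have hF : IsField M := Finite.isDomain_to_isField M
    letI : Field M := hF.toField
    haveI := Fintype.ofFinite M
    letI : Module M S :=
      { smul := fun k s => (k : S) * s
        one_smul := fun s => one_mul s
        mul_smul := fun a b s => hM.la a a.2 b b.2 s
        smul_zero := fun a => mul_zero _
        smul_add := fun a b c => mul_add _ _ _
        add_smul := fun a b c => add_mul _ _ _
        zero_smul := fun a => zero_mul _ }
    let T : Module.End M S :=
      { toFun := fun s => s * x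
        map_add' := fun a b => add_mul _ _ _
        map_smul' := fun k s => H.good_mid hM k.2 hx s }
    let W : Submodule M S :=
      { carrier := M
        add_mem' := fun ha hb => add_mem ha hb
        zero_mem' := zero_mem M
        smul_mem' := fun k s hs => hM.mul k k.2 s hs }
    have hTn : ∀ (n : ℕ) (s : S), (T ^ n) s = s * pw x n := by
      intro n s
      rw [H.mul_pw, Module.End.pow_apply]
      rfl
    have hprod : ∏ a : M, (X - C a) = (X ^ Fintype.card M - X : M[X]) := by
      have h1 : 1 < Fintype.card M := Fintype.one_lt_card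
      have h2 : (X ^ Fintype.card M - X : M[X]).Monic := by
        apply monic_X_pow_sub
        rw [degree_X]
        exact_mod_cast h1
      have h3 := prod_multiset_X_sub_C_of_monic_of_roots_card_eq h2 (by
        rw [FiniteField.roots_X_pow_card_sub_X, FiniteField.X_pow_card_sub_X_natDegree_eq _ h1]
        rfl)
      rw [FiniteField.roots_X_pow_card_sub_X] at h3
      exact h3
    obtain ⟨c, -, s', h1, h2⟩ := exists_eigen T W Finset.univ s0 hs0 (by
      rw [hprod]
      simp only [map_sub, map_pow, aeval_X, LinearMap.sub_apply]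
      rw [hTn, ← Nat.card_eq_fintype_card, hxQ]
      exact sub_self _)
    exact ⟨s', h1, c, c.2, h2⟩
  -- `s` normalizes `M`
  have hsn : ∀ n, s * pw x n = pw c n * s := by
    intro n
    induction n with
    | zero => simp [pw_zero]
    | succ n ih =>
      have hpx : ∀ y ∈ M, ∀ n, pw y n ∈ M := by
        intro y hy n
        induction n with
        | zero => exact hM.one
        | succ n ih => rw [pw_succ]; exact hM.mul _ hy _ ih
      rw [← H.pw_mul_self, hM.ra _ (hpx x hx n) _ hx, ih, H.good_mid hM (hpx c hc n) hx, hsc,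
        ← hM.la _ (hpx c hc n) _ hc, H.pw_mul_self]
  have hs : ∀ k ∈ M, ∃ k' ∈ M, s * k = k' * s := by
    intro k hk
    by_cases hk0 : k = 0
    · exact ⟨0, zero_mem _, by rw [hk0, mul_zero, zero_mul]⟩
    · obtain ⟨n, rfl⟩ := hgen k hk hk0
      refine ⟨pw c n, ?_, hsn n⟩
      clear hk hk0
      induction n with
      | zero => exact hM.one
      | succ n ih => rw [pw_succ]; exact hM.mul _ hc _ ih
  have hone : (1 : S) ∈ adj M s := by
    have := mem_adj (s := s) hM.one 0
    rwa [pw_zero, mul_one] at this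
  obtain ⟨m, hm, hgen2, -, -⟩ := exists_gen h0 (adj M s) hone (H.adj_mul hM hs)
    (H.adj_assoc hM hs)
  have hle : adj M s ≤ AddSubgroup.closure (Set.range (pw m)) := by
    intro y hy
    by_cases hy0 : y = 0
    · rw [hy0]; exact zero_mem _
    · obtain ⟨n, rfl⟩ := hgen2 y hy hy0
      exact AddSubgroup.subset_closure ⟨n, rfl⟩
  have hMadj : M ≤ adj M s := by
    intro k hk
    have := mem_adj (s := s) hk 0
    rwa [pw_zero, mul_one] at this
  have hsadj : s ∈ adj M s := by
    have := mem_adj (s := s) hM.one 1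
    rwa [pw_one, one_mul] at this
  have h1 := hMax.2 (H.good_closure m) (hMadj.trans hle)
  exact hsM (h1 (hle hsadj))

end Mf

end Cfsg.Agent.Ito.AZ
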