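import Cfsg.Agent.Ito.AZ2

/-!
# From commutator maps to a commutative multiplication
-/

set_option autoImplicit false
set_option linter.unusedSectionVars false

namespace Cfsg.Agent.Ito.AZ

theorem oneside {C : Type*} [AddCommGroup C] [Finite C] (one : C) (L : C →+ AddMonoid.End C)
    (h1 : L one = 1) (h2 : ∀ x, L x one = x) (h3 : ∀ x, x ≠ 0 → Function.Injective (L x))
    (h4 : ∀ x y, x ≠ 0 → y ≠ 0 → ∀ x' y' : AddMonoid.End C, x' * L x = 1 → y' * L y = 1 →
      (x' + y' = 0 ∨ ∃ z, z ≠ 0 ∧ (x' + y') * L z = 1)) (x y w : C) :
    L x (L y (L x w)) = L (L x (L y x)) w := by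
  classical
  by_cases hnt : Nontrivial C
  swap
  · rw [not_nontrivial_iff_subsingleton] at hnt
    exact Subsingleton.elim _ _
  haveI : Nontrivial (AddMonoid.End C) := by
    obtain ⟨a, ha⟩ := exists_ne (0 : C)
    exact ⟨⟨1, 0, fun e => ha (DFunLike.congr_fun e a)⟩⟩
  have hunit : ∀ x, x ≠ 0 → IsUnit (L x) := by
    intro x hx
    have hb : Function.Bijective (L x) := Finite.injective_iff_bijective.mp (h3 x hx)
    let E : C ≃+ C := AddEquiv.ofBijective (L x) hb
    refine ⟨⟨L x, E.symm.toAddMonoidHom, ?_, ?_⟩, rfl⟩
    · ext a
      exact E.apply_symm_apply a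
    · ext a
      exact E.symm_apply_apply a
  have hJ := hua L.range ⟨one, h1⟩ (by
    rintro _ ⟨x, rfl⟩ hx
    apply hunit
    rintro rfl
    exact hx (map_zero L)) (by
    rintro u w ⟨x, hx⟩ ⟨y, hy⟩
    have hx0 : x ≠ 0 := by
      rintro rfl
      rw [map_zero] at hx
      exact u.ne_zero hx.symm
    have hy0 : y ≠ 0 := by
      rintro rfl
      rw [map_zero] at hy
      exact w.ne_zero hy.symm
    rcases h4 x y hx0 hy0 _ _ (show (↑u⁻¹ : AddMonoid.End C) * L x = 1 by rw [hx]; simp)
      (show (↑w⁻¹ : AddMonoid.End C) * L y = 1 by rw [hy]; simp) with h | ⟨z, hz, h⟩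
    · left; exact h
    · right
      obtain ⟨t, ht⟩ := hunit z hz
      refine ⟨t, ⟨z, ht.symm⟩, ?_⟩
      rw [← ht] at h
      exact (Units.inv_eq_of_mul_eq_one_left h).symm)
  obtain ⟨z, hz⟩ := hJ.2 (L x) ⟨x, rfl⟩ (L y) ⟨y, rfl⟩
  have e1 : L x (L y x) = z := by
    have := DFunLike.congr_fun hz one
    rw [h2] at this
    rw [this]
    change _ = L x (L y (L x one))
    rw [h2]
  rw [e1, hz]
  rfl

theorem alt_comm {A B C A' B' : Type*} [AddCommGroup A] [AddCommGroup B] [AddCommGroup C]
    [AddCommGroup A'] [AddCommGroup B'] [Finite A] [Finite B] [Finite C]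
    (β : A →+ B →+ C) (β' : A' →+ C →+ B) (β'' : C →+ B' →+ A)
    (hL : ∀ a, a ≠ 0 → ∃ a', ∀ w, β' a' (β a w) = w)
    (hL' : ∀ a', a' ≠ 0 → ∃ a, ∀ x, β a (β' a' x) = x)
    (hR : ∀ w, w ≠ 0 → ∃ c, ∀ a, β'' (β a w) c = a)
    (hR' : ∀ c, c ≠ 0 → ∃ w, ∀ u, β (β'' u c) w = u)
    (e : A) (he : e ≠ 0) (a₁ a₂ : A) (v w₁ w₂ : B) (h1 : β e w₁ = β a₁ v)
    (h2 : β e w₂ = β a₂ v) : β a₂ w₁ = β a₁ w₂ := by
  classical
  by_cases hnt : Nontrivial B
  swap
  · rw [not_nontrivial_iff_subsingleton] at hnt
    rw [Subsingleton.elim w₁ 0, Subsingleton.elim w₂ 0, map_zero, map_zero]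
  obtain ⟨f, hf⟩ := exists_ne (0 : B)
  have injL : ∀ a, a ≠ 0 → Function.Injective (β a) := by
    intro a ha
    obtain ⟨a', h⟩ := hL a ha
    exact Function.LeftInverse.injective h
  have injR : ∀ w, w ≠ 0 → Function.Injective (fun a => β a w) := by
    intro w hw
    obtain ⟨c, h⟩ := hR w hw
    intro a b hab
    have h3 := h a
    have h4 := h b
    simp only at hab
    rw [hab, h4] at h3
    exact h3.symm
  -- two sided inverses
  have L2 : ∀ a, a ≠ 0 → ∃ a', (∀ w, β' a' (β a w) = w) ∧ ∀ x, β a (β' a' x) = x := by
    intro a ha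
    obtain ⟨a', h⟩ := hL a ha
    have ha' : a' ≠ 0 := by
      rintro rfl
      have := h f
      rw [map_zero, AddMonoidHom.zero_apply] at this
      exact hf this.symm
    obtain ⟨b, hb⟩ := hL' a' ha'
    refine ⟨a', h, fun x => ?_⟩
    have h3 : Function.Injective (β' a') := Function.LeftInverse.injective hb
    apply h3
    rw [h]
  have R2 : ∀ w, w ≠ 0 → ∃ c, (∀ a, β'' (β a w) c = a) ∧ ∀ u, β (β'' u c) w = u := by
    intro w hw
    obtain ⟨c, h⟩ := hR w hw
    have hc : c ≠ 0 := by
      rintro rfl
      have := h e
      rw [map_zero] at this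
      exact he this.symm
    obtain ⟨b, hb⟩ := hR' c hc
    refine ⟨c, h, fun u => ?_⟩
    have h3 : Function.Injective (fun u => β'' u c) := by
      intro a b' hab
      have h5 := hb a
      have h6 := hb b'
      simp only at hab
      rw [hab, h6] at h5
      exact h5.symm
    apply h3
    simp only
    rw [h]
  -- the equivalences
  have bijl : Function.Bijective (β e) := by
    obtain ⟨a', h, h'⟩ := L2 e he
    exact ⟨injL e he, fun x => ⟨_, h' x⟩⟩
  have bijr : Function.Bijective (β.flip f) := by
    obtain ⟨c, h, h'⟩ := R2 f hf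
    exact ⟨injR f hf, fun x => ⟨_, h' x⟩⟩
  let lam : B ≃+ C := AddEquiv.ofBijective (β e) bijl
  let rho : A ≃+ C := AddEquiv.ofBijective (β.flip f) bijr
  have hlam : ∀ w, lam w = β e w := fun w => rfl
  have hrho : ∀ a, rho a = β a f := fun a => rfl
  let one : C := β e f
  have hlam1 : lam.symm one = f := by rw [AddEquiv.symm_apply_eq]; rfl
  have hrho1 : rho.symm one = e := by rw [AddEquiv.symm_apply_eq]; rfl
  haveI : Nontrivial C := ⟨⟨β e f, 0, fun h3 => hf (injL e he (by rw [h3, map_zero]))⟩⟩
  letI R : NonAssocRing C :=
    { (inferInstance : AddCommGroup C) with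
      mul := fun x y => β (rho.symm x) (lam.symm y)
      one := one
      left_distrib := fun x y z => by
        change β (rho.symm x) (lam.symm (y + z)) = β _ _ + β _ _
        rw [map_add, map_add]
      right_distrib := fun x y z => by
        change β (rho.symm (x + y)) (lam.symm z) = β _ _ + β _ _
        rw [map_add, map_add, AddMonoidHom.add_apply]
      zero_mul := fun x => by
        change β (rho.symm 0) (lam.symm x) = 0
        rw [map_zero, map_zero, AddMonoidHom.zero_apply]
      mul_zero := fun x => by
        change β (rho.symm x) (lam.symm 0) = 0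
        rw [map_zero, map_zero]
      one_mul := fun x => by
        change β (rho.symm one) (lam.symm x) = x
        rw [hrho1]
        exact lam.apply_symm_apply x
      mul_one := fun x => by
        change β (rho.symm x) (lam.symm one) = x
        rw [hlam1]
        exact rho.apply_symm_apply x }
  have hmul : ∀ x y : C, x * y = β (rho.symm x) (lam.symm y) := fun x y => rfl
  have h0 : ∀ x y : C, x * y = 0 → x = 0 ∨ y = 0 := by
    intro x y h
    rw [hmul] at h
    by_cases hx : x = 0
    · left; exact hx
    · right
      have h3 : rho.symm x ≠ 0 := fun h4 => hx (by simpa using h4)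
      have h4 := injL _ h3 (h.trans (map_zero _).symm)
      simpa using h4
  have H : Mf C := by
    constructor
    · have := oneside (C := C) one (AddMonoidHom.mul : C →+ C →+ C) (by
        ext x; exact one_mul x) (fun x => mul_one x) (by
        intro x hx y z hyz
        have h3 : x * (y - z) = 0 := by
          rw [mul_sub]; exact sub_eq_zero.mpr hyz
        rcases h0 _ _ h3 with h4 | h4
        · exact absurd h4 hx
        · exact sub_eq_zero.mp h4) (by
        intro x y hx hy x' y' hx' hy'
        obtain ⟨a', ha1, ha2⟩ := L2 (rho.symm x) (fun h4 => hx (by simpa using h4))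
        obtain ⟨b', hb1, hb2⟩ := L2 (rho.symm y) (fun h4 => hy (by simpa using h4))
        have ex : ∀ s, x' s = lam (β' a' s) := by
          intro s
          have h3 := DFunLike.congr_fun hx' (lam (β' a' s))
          have h4 : x * lam (β' a' s) = s := by
            rw [hmul, AddEquiv.symm_apply_apply, ha2]
          change x' (x * lam (β' a' s)) = lam (β' a' s) at h3
          rw [h4] at h3
          exact h3
        have ey : ∀ s, y' s = lam (β' b' s) := by
          intro s
          have h3 := DFunLike.congr_fun hy' (lam (β' b' s))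
          have h4 : y * lam (β' b' s) = s := by
            rw [hmul, AddEquiv.symm_apply_apply, hb2]
          change y' (y * lam (β' b' s)) = lam (β' b' s) at h3
          rw [h4] at h3
          exact h3
        have exy : ∀ s, (x' + y') s = lam (β' (a' + b') s) := by
          intro s
          change x' s + y' s = _
          rw [ex, ey, map_add, AddMonoidHom.add_apply, map_add]
        by_cases hab : a' + b' = 0
        · left
          ext s
          rw [exy, hab, map_zero, AddMonoidHom.zero_apply, map_zero]
          rfl
        · right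
          obtain ⟨d, hd⟩ := hL' _ hab
          have hd0 : d ≠ 0 := by
            rintro rfl
            have := hd one
            rw [map_zero, AddMonoidHom.zero_apply] at this
            exact one_ne_zero (α := C) this.symm
          obtain ⟨d', hd1, hd2⟩ := L2 d hd0
          refine ⟨rho d, fun h4 => hd0 (by simpa using h4), ?_⟩
          ext s
          change (x' + y') (rho d * s) = s
          rw [exy, hmul, AddEquiv.symm_apply_apply]
          have h5 : ∀ w, β' (a' + b') (β d w) = w := by
            intro w
            apply injL d hd0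
            rw [hd]
          rw [h5, AddEquiv.apply_symm_apply])
      exact this
    · have := oneside (C := C) one (AddMonoidHom.mul : C →+ C →+ C).flip (by
        ext x; exact mul_one x) (fun x => one_mul x) (by
        intro x hx y z hyz
        have h3 : (y - z) * x = 0 := by
          rw [sub_mul]; exact sub_eq_zero.mpr hyz
        rcases h0 _ _ h3 with h4 | h4
        · exact sub_eq_zero.mp h4
        · exact absurd h4 hx) (by
        intro x y hx hy x' y' hx' hy'
        obtain ⟨a', ha1, ha2⟩ := R2 (lam.symm x) (fun h4 => hx (by simpa using h4))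
        obtain ⟨b', hb1, hb2⟩ := R2 (lam.symm y) (fun h4 => hy (by simpa using h4))
        have ex : ∀ s, x' s = rho (β'' s a') := by
          intro s
          have h3 := DFunLike.congr_fun hx' (rho (β'' s a'))
          have h4 : rho (β'' s a') * x = s := by
            rw [hmul, AddEquiv.symm_apply_apply, ha2]
          change x' (rho (β'' s a') * x) = rho (β'' s a') at h3
          rw [h4] at h3
          exact h3
        have ey : ∀ s, y' s = rho (β'' s b') := by
          intro s
          have h3 := DFunLike.congr_fun hy' (rho (β'' s b'))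
          have h4 : rho (β'' s b') * y = s := by
            rw [hmul, AddEquiv.symm_apply_apply, hb2]
          change y' (rho (β'' s b') * y) = rho (β'' s b') at h3
          rw [h4] at h3
          exact h3
        have exy : ∀ s, (x' + y') s = rho (β'' s (a' + b')) := by
          intro s
          change x' s + y' s = _
          rw [ex, ey, map_add, map_add]
        by_cases hab : a' + b' = 0
        · left
          ext s
          rw [exy, hab, map_zero, map_zero]
          rfl
        · right
          obtain ⟨d, hd⟩ := hR' _ hab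
          have hd0 : d ≠ 0 := by
            rintro rfl
            have := hd one
            rw [map_zero] at this
            exact one_ne_zero (α := C) this.symm
          refine ⟨lam d, fun h4 => hd0 (by simpa using h4), ?_⟩
          ext s
          change (x' + y') (s * lam d) = s
          rw [exy, hmul, AddEquiv.symm_apply_apply]
          have h5 : ∀ a, β'' (β a d) (a' + b') = a := by
            intro a
            apply injR d hd0
            simp only
            rw [hd]
          rw [h5, AddEquiv.apply_symm_apply])
      intro x y w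
      exact this x y w
  obtain ⟨hc, ha⟩ := H.main h0
  -- conclusion
  have e1 : lam w₁ = rho a₁ * lam v := by
    rw [hmul, AddEquiv.symm_apply_apply, AddEquiv.symm_apply_apply, hlam, h1]
  have e2 : lam w₂ = rho a₂ * lam v := by
    rw [hmul, AddEquiv.symm_apply_apply, AddEquiv.symm_apply_apply, hlam, h2]
  have e3 : β a₂ w₁ = rho a₂ * lam w₁ := by
    rw [hmul, AddEquiv.symm_apply_apply, AddEquiv.symm_apply_apply]
  have e4 : β a₁ w₂ = rho a₁ * lam w₂ := by
    rw [hmul, AddEquiv.symm_apply_apply, AddEquiv.symm_apply_apply]
  rw [e3, e4, e1, e2, ← ha, ← ha, hc (rho a₂) (rho a₁)]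

end Cfsg.Agent.Ito.AZ
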