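import Cfsg.Agent.Ito.Center

/-!
# The parameters are those of a projective space
-/

set_option autoImplicit false
set_option linter.unusedSectionVars false

namespace Cfsg.Agent.Ito

open MulAction Cfsg

/-- All the data about the family. -/
structure Ela {G P Q : Type*} [Group G] [MulAction G P] [MulAction G Q] (I : P → Q → Prop)
    (N : Q → Subgroup G) (v k l q c : ℕ) : Prop where
  fam : Fam I N
  ab : ∀ B, ∀ g ∈ N B, ∀ h ∈ N B, g * h = h * g
  num : Des.Num I N q c
  cardU : ∀ z B, I z B → Nat.card (U I N z B) = q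
  hk : k = l + c
  hv : v = k + q * c
  q2 : 2 ≤ q
  c2 : 2 ≤ c
  cen : ∀ B, ∀ h ∈ N B, h ≠ 1 → ∃ z, I z B ∧ ∀ C : Q, h • C = C ↔ I z C

theorem arith {v k l q b c : ℕ} (hk : l + 2 ≤ k) (hl : 0 < l) (hb : 2 ≤ b) (hc : 2 ≤ c)
    (eA : l * (b * c - 1) = k * (c - 1)) (eB : l * (v - k) = (k - 1) * (k - l))
    (eC : b * c - 1 = k * (q - 1)) (d1 : b * c ∣ v - k) (d2 : c ∣ k - l) (hv : k + 2 ≤ v) :
    q = b ∧ k = l + c ∧ v = k + b * c := by
  obtain ⟨t, ht⟩ := d1
  obtain ⟨s, hs⟩ := d2
  obtain ⟨r, rfl⟩ : ∃ r, q = r + 1 := by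
    refine ⟨q - 1, ?_⟩
    rcases Nat.eq_zero_or_pos q with h | h
    · subst h
      simp only [Nat.zero_sub, mul_zero] at eC
      have : 4 ≤ b * c := Nat.mul_le_mul hb hc
      omega
    · omega
  simp only [Nat.add_sub_cancel] at eC
  obtain ⟨c', rfl⟩ : ∃ c', c = c' + 1 := ⟨c - 1, by omega⟩
  obtain ⟨b', rfl⟩ : ∃ b', b = b' + 1 := ⟨b - 1, by omega⟩
  obtain ⟨k', rfl⟩ : ∃ k', k = k' + 1 := ⟨k - 1, by omega⟩
  simp only [Nat.add_sub_cancel] at eA eB
  -- l r = c'
  have e1 : l * r = c' := by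
    rw [eC] at eA
    have : (k' + 1) * (l * r) = (k' + 1) * c' := by rw [← eA]; ring
    exact Nat.eq_of_mul_eq_mul_left (by omega) this
  have e0 : (b' + 1) * (c' + 1) = (k' + 1) * r + 1 := by
    have : 0 < (b' + 1) * (c' + 1) := by positivity
    omega
  -- s r = b'
  have hks : k' + 1 = l + (c' + 1) * s := by omega
  have e2 : s * r = b' := by
    have h1 : (c' + 1) * (s * r) = (c' + 1) * b' := by
      have h2 : (k' + 1) * r = l * r + (c' + 1) * s * r := by rw [hks]; ring
      rw [h2, e1] at e0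
      nlinarith
    exact Nat.eq_of_mul_eq_mul_left (by omega) h1
  have hrpos : 0 < r := by
    rcases Nat.eq_zero_or_pos r with h | h
    · subst h; omega
    · exact h
  have hspos : 0 < s := by
    rcases Nat.eq_zero_or_pos s with h | h
    · subst h; omega
    · exact h
  -- c' t b = (k-1) b'
  have e3 : c' * t * (b' + 1) = k' * b' := by
    rw [ht, hs] at eB
    have h1 : (c' + 1) * (l * t * (b' + 1)) = (c' + 1) * (k' * s) := by
      rw [← mul_assoc k'] at eB
      nlinarith
    have h2 := Nat.eq_of_mul_eq_mul_left (by omega) h1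
    calc c' * t * (b' + 1) = (l * t * (b' + 1)) * r := by rw [← e1]; ring
      _ = k' * (s * r) := by rw [h2]; ring
      _ = _ := by rw [e2]
  have e4 : (b' + 1) ∣ k' := by
    have h1 : (b' + 1) ∣ k' * b' := ⟨c' * t, by rw [← e3]; ring⟩
    refine Nat.Coprime.dvd_of_dvd_mul_right ?_ h1
    simp
  have e5 : (b' + 1) ∣ r + 1 := by
    have h1 : (b' + 1) ∣ (k' + 1) * r + 1 := ⟨c' + 1, e0.symm⟩
    have h2 : (k' + 1) * r + 1 = k' * r + (r + 1) := by ring
    rw [h2] at h1
    exact (Nat.dvd_add_right (e4.mul_right r)).mp h1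
  have e6 : b' + 1 ≤ r + 1 := Nat.le_of_dvd (by omega) e5
  have e7 : r ≤ b' := by
    rw [← e2]
    exact Nat.le_mul_of_pos_left r hspos
  have e8 : r = b' := by omega
  subst e8
  have e9 : s = 1 := by
    have : s * r = 1 * r := by rw [e2, one_mul]
    exact Nat.eq_of_mul_eq_mul_right hrpos this
  subst e9
  refine ⟨rfl, by omega, ?_⟩
  have hc'pos : 0 < c' := by omega
  have e10 : t = 1 := by
    have h1 : k' * r = (r + 1) * c' := by nlinarith
    rw [h1] at e3
    have h2 : ((r + 1) * c') * t = ((r + 1) * c') * 1 := by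
      rw [mul_one]
      exact (by ring : (r + 1) * c' * t = c' * t * (r + 1)).trans e3
    exact Nat.eq_of_mul_eq_mul_left (by positivity) h2
  subst e10
  rw [mul_one] at ht
  omega

namespace Des

variable {G : Type*} {P Q : Type*} [Group G] [MulAction G P] [MulAction G Q]
  {I : P → Q → Prop} {v k l b c : ℕ} [Finite P] [Finite Q] {N : Q → Subgroup G}

theorem U_conj (D : Des G P Q I v k l) (F : Fam I N) {z z' : P} {B B' : Q} {g h : G}
    (hz : g • z = z') (hB : g • B = B') (hh : h ∈ U I N z B) : g * h * g⁻¹ ∈ U I N z' B' := by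
  refine ⟨fam_conj F hB hh.1, fun C hC => ?_⟩
  have h1 : I z (g⁻¹ • C) := by
    rw [← D.inv g, smul_inv_smul, hz]
    exact hC
  rw [mul_smul, mul_smul, hh.2 _ h1, smul_inv_smul]

theorem U_conj_iff (D : Des G P Q I v k l) (F : Fam I N) {z z' : P} {B B' : Q} {g h : G}
    (hz : g • z = z') (hB : g • B = B') : g * h * g⁻¹ ∈ U I N z' B' ↔ h ∈ U I N z B := by
  constructor
  · intro hh
    have hz' : g⁻¹ • z' = z := by rw [← hz, inv_smul_smul]
    have hB' : g⁻¹ • B' = B := by rw [← hB, inv_smul_smul]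
    have := D.U_conj F hz' hB' hh
    simpa [mul_assoc] using this
  · exact D.U_conj F hz hB

theorem U_card (D : Des G P Q I v k l) (F : Fam I N) {z z' : P} {B B' : Q} (h : I z B)
    (h' : I z' B') : Nat.card (U I N z B) = Nat.card (U I N z' B') := by
  obtain ⟨g, hz, hB⟩ := D.tF z B z' B' h h'
  have hz' : g⁻¹ • z' = z := by rw [← hz, inv_smul_smul]
  have hB' : g⁻¹ • B' = B := by rw [← hB, inv_smul_smul]
  refine Nat.card_congr ⟨fun h => ⟨g * h * g⁻¹, D.U_conj F hz hB h.2⟩,
    fun h => ⟨g⁻¹ * h * g, ?_⟩, ?_, ?_⟩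
  · have := D.U_conj F hz' hB' h.2
    simpa using this
  · intro h
    apply Subtype.ext
    simp [mul_assoc]
  · intro h
    apply Subtype.ext
    simp [mul_assoc]

theorem point_eq (D : Des G P Q I v k l) {z z' : P} (h : ∀ C, I z C → I z' C) : z = z' := by
  by_contra hne
  have h1 := D.lP z z' hne
  have h2 : {B | I z B ∧ I z' B} = {B | I z B} := by
    ext C
    simp only [Set.mem_setOf_eq, and_iff_left_iff_imp]
    exact h C
  rw [h2, D.kQ] at h1
  have := D.l_lt
  omega

theorem semireg_dvd {X : Type*} [Finite X] [Finite G] (H : Subgroup G) [MulAction G X] (S : Set X)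
    (hS : ∀ h ∈ H, ∀ x ∈ S, h • x ∈ S) (hf : ∀ h ∈ H, ∀ x ∈ S, h • x = x → h = 1) :
    Nat.card H ∣ S.ncard := by
  let A : MulAction H S :=
    { smul := fun h x => ⟨(h : G) • (x : X), hS h h.2 x x.2⟩
      one_smul := fun x => Subtype.ext (one_smul G (x : X))
      mul_smul := fun a b x => Subtype.ext (mul_smul (a : G) (b : G) (x : X)) }
  have h1 := Nat.card_congr (MulAction.selfEquivSigmaOrbitsQuotientStabilizer H S)
  have h2 : ∀ x : S, MulAction.stabilizer H x = ⊥ := by
    intro x
    rw [eq_bot_iff]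
    intro h hh
    have h3 : (h : G) • (x : X) = x := congrArg Subtype.val hh
    exact Subtype.ext (hf h h.2 x x.2 h3)
  haveI : Fintype (Quotient (orbitRel H S)) := Fintype.ofFinite _
  rw [Nat.card_sigma] at h1
  have h4 : S.ncard = Nat.card S := rfl
  rw [h4, h1]
  apply Finset.dvd_sum
  intro ω _
  rw [h2]
  have h5 : Nat.card (H ⧸ (⊥ : Subgroup H)) = Nat.card H := by
    rw [← Subgroup.index, Subgroup.index_bot]
  rw [h5]

open Classical in
/-- A commutative family has projective parameters. -/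
theorem exists_ela [Finite G] (D : Des G P Q I v k l) (F : Fam I N)
    (hab : ∀ B, ∀ g ∈ N B, ∀ h ∈ N B, g * h = h * g) : ∃ q c, Ela I N v k l q c := by
  haveI := Fintype.ofFinite P
  haveI := Fintype.ofFinite Q
  haveI := Fintype.ofFinite G
  obtain ⟨b, c, M⟩ := D.exists_num F
  obtain ⟨B⟩ := D.nonempty_block
  obtain ⟨hb, hc⟩ := D.num_two F M B
  have hcen : ∀ B, ∀ h ∈ N B, h ≠ 1 → ∃ z, I z B ∧ ∀ C : Q, h • C = C ↔ I z C :=
    fun B h hh h1 => exists_center D F M hab hh h1
  -- a flag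
  obtain ⟨z0, hz0⟩ : ∃ z, I z B := by
    obtain ⟨h, hh, h1⟩ := F.nt B
    obtain ⟨z, hz, -⟩ := hcen B h hh h1
    exact ⟨z, hz⟩
  set q := Nat.card (U I N z0 B) with hq
  have hU : ∀ z B', I z B' → Nat.card (U I N z B') = q := fun z B' h => D.U_card F h hz0
  -- counting
  have eC : b * c - 1 = k * (q - 1) := by
    have h1 : ∑ z ∈ Finset.univ.filter (fun z => I z B),
        ((Finset.univ.filter (fun h => h ∈ U I N z B)).erase 1).card
          = k * (q - 1) := by
      rw [Finset.sum_congr rfl (g := fun _ => q - 1), Finset.sum_const, smul_eq_mul]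
      · congr 1
        rw [← D.kP B, Set.ncard_eq_toFinset_card']
        congr 1
        ext x
        simp
      · intro z hz
        rw [Finset.card_erase_of_mem, ← hU z B (by simpa using hz), Nat.card_eq_fintype_card,
          Fintype.card_subtype]
        simp [one_mem]
    rw [← h1, ← Finset.card_biUnion]
    · have h2 : (Finset.univ.filter (fun z => I z B)).biUnion
          (fun z => (Finset.univ.filter (fun h => h ∈ U I N z B)).erase 1)
          = (Finset.univ.filter (fun h => h ∈ N B)).erase 1 := by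
        ext h
        simp only [Finset.mem_biUnion, Finset.mem_filter, Finset.mem_univ, true_and,
          Finset.mem_erase]
        constructor
        · rintro ⟨z, hz, h1, h2⟩
          exact ⟨h1, h2.1⟩
        · rintro ⟨h1, h2⟩
          obtain ⟨z, hz, hz2⟩ := hcen B h h2 h1
          exact ⟨z, hz, h1, h2, fun C hC => (hz2 C).mpr hC⟩
      rw [h2, Finset.card_erase_of_mem, ← M.cardN B, Nat.card_eq_fintype_card,
        Fintype.card_subtype]
      simp [one_mem]
    · intro z hz z' hz' hne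
      rw [Function.onFun, Finset.disjoint_left]
      intro h hh hh'
      simp only [Finset.mem_filter, Finset.mem_univ, true_and, Finset.mem_erase] at hh hh'
      obtain ⟨w, -, hw⟩ := hcen B h hh.2.1 hh.1
      have e1 : z = w := D.point_eq (fun C hC => (hw C).mp (hh.2.2 C hC))
      have e2 : z' = w := D.point_eq (fun C hC => (hw C).mp (hh'.2.2 C hC))
      exact hne (e1.trans e2.symm)
  have d1 : b * c ∣ v - k := by
    rw [← M.cardN B, ← D.ncard_compl B]
    apply semireg_dvd
    · intro h hh x hx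
      exact D.not_inc_smul (D.fam_smul F hh) hx
    · intro h hh x hx hf
      exact F.semi B h hh x hx hf
  obtain ⟨C, hC⟩ := D.exists_ne_block B
  have d2 : c ∣ k - l := by
    have h1 := D.ncard_diff hC.symm
    have h2 : Nat.card ((N B ⊓ stabilizer G C : Subgroup G)) = c := by
      rw [← M.cardS B C hC.symm]
      refine Nat.card_congr ⟨fun h => ⟨⟨h, h.2.1⟩, h.2.2⟩, fun h => ⟨h.1, h.1.2, h.2⟩, ?_, ?_⟩
      · intro h; rfl
      · intro h; rfl
    rw [← h1, ← h2]
    apply semireg_dvd
    · intro h hh x hx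
      exact ⟨D.inc_smul hh.2 hx.1, D.not_inc_smul (D.fam_smul F hh.1) hx.2⟩
    · intro h hh x hx hf
      exact F.semi B h hh.1 x hx.2 hf
  obtain ⟨e1, e2, e3⟩ := arith D.l_add_two D.l_pos hb hc (D.eqA F M) D.eqB eC d1 d2 D.kv
  subst e1
  exact ⟨q, c, F, hab, M, hU, e2, e3, hb, hc, hcen⟩

end Des

end Cfsg.Agent.Ito
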