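import Cfsg.Agent.Ito.Design

/-!
# Pointwise stabilizers of blocks
-/

set_option autoImplicit false
set_option linter.unusedSectionVars false

namespace Cfsg.Agent.Ito

open MulAction

/-- Pointwise stabilizer of the block `B`. -/
def ker (G : Type*) {P Q : Type*} [Group G] [MulAction G P] (I : P → Q → Prop) (B : Q) :
    Subgroup G where
  carrier := {g | ∀ x, I x B → g • x = x}
  one_mem' := fun x _ => one_smul G x
  mul_mem' := fun {a b} ha hb x hx => by rw [mul_smul, hb x hx, ha x hx]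
  inv_mem' := fun {a} ha x hx => by rw [inv_smul_eq_iff, ha x hx]

namespace Des

variable {G P Q : Type*} [Group G] [MulAction G P] [MulAction G Q] {I : P → Q → Prop}
  {v k l : ℕ} [Finite P] [Finite Q]

theorem mem_ker {B : Q} {g : G} : g ∈ ker G I B ↔ ∀ x, I x B → g • x = x := Iff.rfl

theorem eq_main (D : Des G P Q I v k l) : k + l * (v - 1) = k * k := by
  classical
  haveI := Fintype.ofFinite P
  haveI := Fintype.ofFinite Q
  have hP : Fintype.card P = v := by rw [← Nat.card_eq_fintype_card, D.cardP]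
  have hv := D.kv
  haveI : Nonempty P := Fintype.card_pos_iff.mp (by omega)
  obtain ⟨x⟩ : Nonempty P := inferInstance
  have h := pair_count I k l D.kP D.kQ D.lP x
  rw [hP] at h
  have hv1 : 1 ≤ v := by omega
  have : ((k + l * (v - 1) : ℕ) : ℚ) = ((k * k : ℕ) : ℚ) := by
    push_cast [Nat.cast_sub hv1]
    linarith
  exact_mod_cast this

theorem l_lt (D : Des G P Q I v k l) : l < k := by
  have h1 := D.eq_main
  have h2 := D.kv
  have h3 := D.k2
  by_contra h
  rw [not_lt] at h
  obtain ⟨w, rfl⟩ : ∃ w, v = k + 2 + w := ⟨v - (k + 2), by omega⟩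
  have : k + 2 + w - 1 = k + 1 + w := by omega
  rw [this] at h1
  nlinarith

theorem l_pos (D : Des G P Q I v k l) : 0 < l := by
  have h1 := D.eq_main
  have h3 := D.k2
  rcases Nat.eq_zero_or_pos l with h | h
  · subst h
    simp only [zero_mul, add_zero] at h1
    nlinarith
  · exact h

theorem l_add_two (D : Des G P Q I v k l) : l + 2 ≤ k := by
  have h1 := D.eq_main
  have h2 := D.kv
  have h3 := D.k2
  have h4 := D.l_lt
  have h5 := D.l_pos
  by_contra h
  have hk : k = l + 1 := by omega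
  subst hk
  obtain ⟨w, rfl⟩ : ∃ w, v = l + 1 + 2 + w := ⟨v - (l + 1 + 2), by omega⟩
  have : l + 1 + 2 + w - 1 = l + 2 + w := by omega
  rw [this] at h1
  nlinarith

theorem block_eq (D : Des G P Q I v k l) {B C : Q} {S : Set P} (hS : ∀ x ∈ S, I x B ∧ I x C)
    (h : l < S.ncard) : B = C := by
  by_contra hBC
  have h1 := Set.ncard_le_ncard (s := S) (t := {x | I x B ∧ I x C}) hS (Set.toFinite _)
  rw [D.lQ B C hBC] at h1
  omega

theorem ncard_diff (D : Des G P Q I v k l) {B C : Q} (h : B ≠ C) :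
    Set.ncard {x | I x C ∧ ¬ I x B} = k - l := by
  have h1 : {x | I x C ∧ ¬ I x B} = {x | I x C} \ {x | I x B ∧ I x C} := by
    ext x
    simp only [Set.mem_setOf_eq, Set.mem_diff]
    tauto
  rw [h1, Set.ncard_diff (fun x hx => hx.2) (Set.toFinite _), D.kP, D.lQ B C h]

theorem ncard_compl (D : Des G P Q I v k l) (B : Q) :
    Set.ncard {x | ¬ I x B} = v - k := by
  have h1 : {x | ¬ I x B} = {x | I x B}ᶜ := rfl
  rw [h1, Set.ncard_compl, D.kP, D.cardP]

theorem smul_eq_of_ker (D : Des G P Q I v k l) {B : Q} {h : G} (hh : h ∈ ker G I B) :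
    h • B = B := by
  refine (D.block_eq (S := {x | I x B}) (fun x hx => ⟨hx, ?_⟩) ?_).symm
  · rw [← hh x hx, D.inv]
    exact hx
  · rw [D.kP]
    exact D.l_lt

theorem conj_mem_ker (D : Des G P Q I v k l) {B : Q} {h : G} (hh : h ∈ ker G I B) (g : G) :
    g * h * g⁻¹ ∈ ker G I (g • B) := by
  intro x hx
  have h1 : I (g⁻¹ • x) B := by
    rw [← D.inv g]
    simpa using hx
  rw [mul_smul, mul_smul, hh _ h1, smul_inv_smul]

theorem not_inc_smul (D : Des G P Q I v k l) {B : Q} {h : G} (hh : h • B = B) {x : P}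
    (hx : ¬ I x B) : ¬ I (h • x) B := by
  intro h1
  apply hx
  rw [← D.inv h, hh]
  exact h1

theorem inc_smul (D : Des G P Q I v k l) {B : Q} {h : G} (hh : h • B = B) {x : P}
    (hx : I x B) : I (h • x) B := by
  rw [← D.inv h, hh] at hx
  exact hx

theorem fix_of_move (D : Des G P Q I v k l) {B C : Q} {h : G} (hh : h ∈ ker G I B) {x : P}
    (hx : ¬ I x B) (hC : I x C) (hC' : I (h • x) C) : h • C = C := by
  have hBC : C ≠ B := fun e => hx (e ▸ hC)
  have hb := D.smul_eq_of_ker hh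
  refine (D.block_eq (S := insert (h • x) {y | I y C ∧ I y B}) ?_ ?_).symm
  · intro y hy
    rcases hy with rfl | ⟨hy1, hy2⟩
    · exact ⟨hC', (D.inv h x C).mpr hC⟩
    · refine ⟨hy1, ?_⟩
      rw [← hh y hy2, D.inv]
      exact hy1
  · rw [Set.ncard_insert_of_notMem, D.lQ C B hBC]
    · omega
    · intro h1
      exact D.not_inc_smul hb hx h1.2

theorem fix_of_fix (D : Des G P Q I v k l) {B C : Q} {h : G} (hh : h ∈ ker G I B) {x : P}
    (hx : ¬ I x B) (hf : h • x = x) (hC : I x C) : h • C = C :=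
  D.fix_of_move hh hx hC (by rw [hf]; exact hC)

/-- The blocks through `a, b` are those through `c, d` if one set contains the other. -/
theorem pair_eq (D : Des G P Q I v k l) {a b c d : P} (hab : a ≠ b) (hcd : c ≠ d)
    (h : ∀ C, I a C → I b C → I c C ∧ I d C) : ∀ C, (I a C ∧ I b C) ↔ (I c C ∧ I d C) := by
  have h1 : {C | I a C ∧ I b C} = {C | I c C ∧ I d C} := by
    apply Set.eq_of_subset_of_ncard_le
    · intro C hC
      exact h C hC.1 hC.2
    · rw [D.lP a b hab, D.lP c d hcd]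
    · exact Set.toFinite _
  intro C
  exact Set.ext_iff.mp h1 C

theorem two_fix [FaithfulSMul G P] (D : Des G P Q I v k l) {B : Q} {h : G} (hh : h ∈ ker G I B)
    {x y : P} (hx : ¬ I x B) (hy : ¬ I y B) (hxy : x ≠ y) (fx : h • x = x) (fy : h • y = y) :
    h = 1 := by
  by_contra h1
  obtain ⟨w, hw⟩ : ∃ w : P, h • w ≠ w := by
    by_contra hc
    push Not at hc
    exact h1 (FaithfulSMul.eq_of_smul_eq_smul fun a : P => by rw [hc a, one_smul])
  have hb := D.smul_eq_of_ker hh
  -- a fixed point `a` off `B` and a moved point `u`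
  have A : ∀ a u : P, ¬ I a B → h • a = a → h • u ≠ u →
      ∀ C, (I a C ∧ I u C) ↔ (I u C ∧ I (h • u) C) := by
    intro a u ha fa fu
    apply D.pair_eq
    · rintro rfl
      exact fu fa
    · exact fu.symm
    · intro C h2 h3
      exact ⟨h3, D.inc_smul (D.fix_of_fix hh ha fa h2) h3⟩
  have A2 : ∀ a b u : P, a ≠ b → ¬ I a B → ¬ I b B → h • a = a → h • b = b → h • u ≠ u →
      ∀ C, (I u C ∧ I (h • u) C) ↔ (I a C ∧ I b C) := by
    intro a b u hab ha hb fa fb fu
    apply D.pair_eq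
    · exact fu.symm
    · exact hab
    · intro C h2 h3
      exact ⟨((A a u ha fa fu C).mpr ⟨h2, h3⟩).1, ((A b u hb fb fu C).mpr ⟨h2, h3⟩).1⟩
  have A3 : ∀ u : P, ¬ I u B → ∀ C, I x C → I y C → I u C := by
    intro u hu C h2 h3
    by_cases fu : h • u = u
    · by_cases hux : u = x
      · rw [hux]; exact h2
      · have h4 := (A2 x y w hxy hx hy fx fy hw C).mpr ⟨h2, h3⟩
        exact ((A2 u x w hux hu hx fu fx hw C).mp h4).1
    · exact ((A2 x y u hxy hx hy fx fy fu C).mpr ⟨h2, h3⟩).1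
  -- a block through `x` and `y`
  obtain ⟨C0, h2, h3⟩ : ∃ C, I x C ∧ I y C := by
    by_contra hc
    push Not at hc
    have h4 := D.lP x y hxy
    have : {B | I x B ∧ I y B} = ∅ := by
      ext C
      simp only [Set.mem_setOf_eq, Set.mem_empty_iff_false, iff_false, not_and]
      exact hc C
    rw [this, Set.ncard_empty] at h4
    have := D.l_pos
    omega
  have hC0 : B ≠ C0 := fun e => hx (e ▸ h2)
  have h4 := D.ncard_diff hC0
  have h5 := D.ncard_compl B
  have h6 : {x | I x C0 ∧ ¬ I x B} = {x | ¬ I x B} := by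
    ext u
    simp only [Set.mem_setOf_eq, and_iff_right_iff_imp]
    intro hu
    exact A3 u hu C0 h2 h3
  rw [h6, h5] at h4
  -- all blocks other than `B` contain `x`
  have h7 : ∀ C, B ≠ C → I x C := by
    intro C hC
    have h8 : {x | I x C ∧ ¬ I x B} = {x | ¬ I x B} := by
      apply Set.eq_of_subset_of_ncard_le
      · intro u hu
        exact hu.2
      · rw [D.ncard_diff hC, h5, h4]
      · exact Set.toFinite _
    have h9 : x ∈ {x | ¬ I x B} := hx
    rw [← h8] at h9
    exact h9.1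
  have h8 := D.kQ x
  have h9 : {B | I x B} = {B}ᶜ := by
    ext C
    simp only [Set.mem_setOf_eq, Set.mem_compl_iff, Set.mem_singleton_iff]
    constructor
    · rintro hC rfl
      exact hx hC
    · intro hC
      exact h7 C (fun e => hC e.symm)
  rw [h9, Set.ncard_compl, Set.ncard_singleton, D.cardQ] at h8
  have := D.kv
  omega

theorem exists_two (D : Des G P Q I v k l) {B C : Q} (h : B ≠ C) :
    ∃ x y, x ≠ y ∧ I x C ∧ I y C ∧ ¬ I x B ∧ ¬ I y B := by
  have h1 := D.ncard_diff h
  have h2 := D.l_add_two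
  have h3 : 1 < Set.ncard {x | I x C ∧ ¬ I x B} := by omega
  obtain ⟨x, hx, y, hy, hxy⟩ := (Set.one_lt_ncard (Set.toFinite _)).mp h3
  exact ⟨x, y, hxy, hx.1, hy.1, hx.2, hy.2⟩

theorem ker_inf [FaithfulSMul G P] (D : Des G P Q I v k l) {B C : Q} (hBC : B ≠ C) {h : G}
    (h1 : h ∈ ker G I B) (h2 : h ∈ ker G I C) : h = 1 := by
  obtain ⟨x, y, hxy, hx, hy, hx', hy'⟩ := D.exists_two hBC
  exact D.two_fix h1 hx' hy' hxy (h2 x hx) (h2 y hy)

theorem ker_comm [FaithfulSMul G P] (D : Des G P Q I v k l) {B C : Q} (hBC : B ≠ C) {h g : G}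
    (h1 : h ∈ ker G I B) (h2 : h • C = C) (g1 : g ∈ ker G I C) (g2 : g • B = B) :
    h * g = g * h := by
  have h3 : h * g * h⁻¹ * g⁻¹ = 1 := by
    apply D.ker_inf hBC
    · have h4 := D.conj_mem_ker (inv_mem h1) g
      rw [g2] at h4
      have := mul_mem h1 h4
      simpa [mul_assoc] using this
    · have h4 := D.conj_mem_ker g1 h
      rw [h2] at h4
      exact mul_mem h4 (inv_mem g1)
  have h4 : h * g * h⁻¹ = g := by
    rw [mul_inv_eq_one] at h3
    exact h3
  exact mul_inv_eq_iff_eq_mul.mp h4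

end Des

end Cfsg.Agent.Ito
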