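import Cfsg.Agent.Ito.PGroup2

/-!
# Centers
-/

set_option autoImplicit false
set_option linter.unusedSectionVars false

namespace Cfsg.Agent.Ito

open MulAction Cfsg

/-- Elements of `N B` fixing all blocks through `z`. -/
def U {G P Q : Type*} [Group G] [MulAction G Q] (I : P → Q → Prop) (N : Q → Subgroup G)
    (z : P) (B : Q) : Subgroup G where
  carrier := {h | h ∈ N B ∧ ∀ C, I z C → h • C = C}
  one_mem' := ⟨one_mem _, fun C _ => one_smul G C⟩
  mul_mem' := fun {a b} ha hb => ⟨mul_mem ha.1 hb.1, fun C hC => by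
    rw [mul_smul, hb.2 C hC, ha.2 C hC]⟩
  inv_mem' := fun {a} ha => ⟨inv_mem ha.1, fun C hC => by rw [inv_smul_eq_iff, ha.2 C hC]⟩

theorem mem_U {G P Q : Type*} [Group G] [MulAction G Q] {I : P → Q → Prop} {N : Q → Subgroup G}
    {z : P} {B : Q} {h : G} : h ∈ U I N z B ↔ h ∈ N B ∧ ∀ C, I z C → h • C = C := Iff.rfl

namespace Des

variable {G : Type*} {P Q : Type*} [Group G] [MulAction G P] [MulAction G Q]
  {I : P → Q → Prop} {v k l b c : ℕ} [Finite P] [Finite Q] {N : Q → Subgroup G}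

theorem v_pos (D : Des G P Q I v k l) : 0 < v := by
  have := D.kv
  omega

theorem nonempty_block (D : Des G P Q I v k l) : Nonempty Q := by
  by_contra h
  rw [not_nonempty_iff] at h
  have h1 := D.cardQ
  rw [Nat.card_of_isEmpty] at h1
  have := D.kv
  omega

/-- `l (v - k) = (k - 1) (k - l)`. -/
theorem eqB (D : Des G P Q I v k l) : l * (v - k) = (k - 1) * (k - l) := by
  have h1 := D.eq_main
  have h2 := D.kv
  have h3 := D.k2
  have h4 := D.l_lt
  obtain ⟨w, rfl⟩ : ∃ w, v = k + w := ⟨v - k, by omega⟩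
  obtain ⟨k', rfl⟩ : ∃ k', k = k' + 1 := ⟨k - 1, by omega⟩
  obtain ⟨m, hm⟩ : ∃ m, k' + 1 = l + m := ⟨k' + 1 - l, by omega⟩
  have e1 : k' + 1 + w - (k' + 1) = w := by omega
  have e2 : k' + 1 + w - 1 = k' + w := by omega
  have e3 : k' + 1 - l = m := by omega
  rw [e1, e3, Nat.add_sub_cancel]
  rw [e2] at h1
  have h5 : l * w + l * k' = k' * (k' + 1) := by nlinarith
  rw [hm] at h5
  nlinarith

/-- `l (n - 1) = k (c - 1)`. -/
theorem eqA [Finite G] (D : Des G P Q I v k l) (F : Fam I N) (M : Num I N b c) :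
    l * (b * c - 1) = k * (c - 1) := by
  have h1 := D.num_eq F M
  have h2 := D.eq_main
  have h3 := D.k2
  have h4 : l * (v - 1) = k * (k - 1) := by
    obtain ⟨k', rfl⟩ : ∃ k', k = k' + 1 := ⟨k - 1, by omega⟩
    simp only [Nat.add_sub_cancel]
    nlinarith
  have h5 : (k - 1) * (l * (b * c - 1)) = (k - 1) * (k * (c - 1)) := by
    calc (k - 1) * (l * (b * c - 1)) = l * ((b * c - 1) * (k - 1)) := by ring
      _ = (l * (v - 1)) * (c - 1) := by rw [h1]; ring
      _ = _ := by rw [h4]; ring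
  exact Nat.eq_of_mul_eq_mul_left (by omega) h5

theorem inter_eq (D : Des G P Q I v k l) {B C B' C' : Q} (h : B ≠ C) (h' : B' ≠ C')
    (hs : ∀ x, I x B → I x C → I x B' ∧ I x C') : ∀ x, (I x B ∧ I x C) ↔ (I x B' ∧ I x C') :=
  D.dual.pair_eq h h' hs

open Classical in
/-- The blocks containing `B ∩ C`. -/
theorem dual_line [Finite G] (D : Des G P Q I v k l) (F : Fam I N) (M : Num I N b c)
    {B C C' : Q} (hC : B ≠ C) (hC' : B ≠ C') (hs : ∀ x, I x B → I x C → I x C') :
    ∃ h ∈ N B, h • C = C' := by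
  haveI := Fintype.ofFinite P
  haveI := Fintype.ofFinite Q
  by_contra hcon
  push Not at hcon
  obtain ⟨hb, hc⟩ := D.num_two F M B
  -- the family of blocks
  let O : Set Q := {E | (∃ h ∈ N B, h • C = E) ∨ (∃ h ∈ N B, h • C' = E)}
  have hO : ∀ E ∈ O, B ≠ E ∧ ∀ x, (I x B ∧ I x E) ↔ (I x B ∧ I x C) := by
    rintro E (⟨h, hh, rfl⟩ | ⟨h, hh, rfl⟩)
    · have hne : B ≠ h • C := by
        intro e
        rw [← D.fam_smul F hh] at e
        exact hC (MulAction.injective h e)
      refine ⟨hne, fun x => (D.inter_eq hC hne ?_ x).symm⟩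
      intro x hx hxC
      refine ⟨hx, ?_⟩
      rw [← F.le B hh x hx, D.inv]
      exact hxC
    · have hne : B ≠ h • C' := by
        intro e
        rw [← D.fam_smul F hh] at e
        exact hC' (MulAction.injective h e)
      refine ⟨hne, fun x => (D.inter_eq hC hne ?_ x).symm⟩
      intro x hx hxC
      refine ⟨hx, ?_⟩
      rw [← F.le B hh x hx, D.inv]
      exact hs x hx hxC
  have hOc : O.ncard = 2 * b := by
    have h1 : O = {E | ∃ h ∈ N B, h • C = E} ∪ {E | ∃ h ∈ N B, h • C' = E} := rfl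
    rw [h1, Set.ncard_union_eq, M.cardO B C hC, M.cardO B C' hC', two_mul]
    · rw [Set.disjoint_left]
      rintro E ⟨h, hh, rfl⟩ ⟨g, hg, he⟩
      apply hcon (g⁻¹ * h) (mul_mem (inv_mem hg) hh)
      rw [mul_smul, ← he, inv_smul_smul]
  have hdisj : ∀ E ∈ O, ∀ E' ∈ O, E ≠ E' →
      Disjoint {x | I x E ∧ ¬ I x B} {x | I x E' ∧ ¬ I x B} := by
    intro E hE E' hE' hne
    rw [Set.disjoint_left]
    rintro x ⟨h1, h2⟩ ⟨h3, -⟩
    have h4 := (D.inter_eq (hO E hE).1 hne (fun y hy hy' => by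
      have h5 := ((hO E hE).2 y).mp ⟨hy, hy'⟩
      exact ⟨hy', (((hO E' hE').2 y).mpr h5).2⟩) x).mpr ⟨h1, h3⟩
    exact h2 h4.1
  have hsum : 2 * b * (k - l) ≤ v - k := by
    have h1 : ∑ E ∈ O.toFinset, (Set.ncard {x | I x E ∧ ¬ I x B}) = 2 * b * (k - l) := by
      rw [Finset.sum_congr rfl (g := fun _ => k - l), Finset.sum_const, smul_eq_mul,
        ← Set.ncard_eq_toFinset_card', hOc]
      intro E hE
      exact D.ncard_diff (hO E (by simpa using hE)).1
    rw [← h1, ← D.ncard_compl B]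
    have h2 : ∑ E ∈ O.toFinset, (Set.ncard {x | I x E ∧ ¬ I x B})
        = (O.toFinset.biUnion (fun E => {x | I x E ∧ ¬ I x B}.toFinset)).card := by
      rw [Finset.card_biUnion]
      · refine Finset.sum_congr rfl fun E _ => ?_
        rw [Set.ncard_eq_toFinset_card']
      · intro E hE E' hE' hne
        have := hdisj E (by simpa using hE) E' (by simpa using hE') hne
        rwa [← Set.disjoint_toFinset] at this
    rw [h2, Set.ncard_eq_toFinset_card']
    apply Finset.card_le_card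
    intro x hx
    simp only [Finset.mem_biUnion, Set.mem_toFinset, Set.mem_setOf_eq] at hx ⊢
    obtain ⟨E, -, -, h3⟩ := hx
    exact h3
  have eB := D.eqB
  have eA := D.eqA F M
  have h1 := D.l_pos
  have h2 := D.l_add_two
  have h3 : 2 * b * l ≤ k - 1 := by
    have h4 : (2 * b * l) * (k - l) ≤ (k - 1) * (k - l) := by
      rw [← eB]
      calc 2 * b * l * (k - l) = l * (2 * b * (k - l)) := by ring
        _ ≤ _ := Nat.mul_le_mul_left _ hsum
    exact Nat.le_of_mul_le_mul_right h4 (by omega)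
  have h4 : 2 * b * l * (c - 1) ≤ (k - 1) * (c - 1) := Nat.mul_le_mul_right _ h3
  have h5 : (k - 1) * (c - 1) < k * (c - 1) :=
    Nat.mul_lt_mul_of_pos_right (by omega) (by omega)
  rw [← eA] at h5
  have h6 : l * (2 * b * (c - 1)) < l * (b * c - 1) := by
    calc l * (2 * b * (c - 1)) = 2 * b * l * (c - 1) := by ring
      _ < _ := lt_of_le_of_lt h4 h5
  have h7 := Nat.lt_of_mul_lt_mul_left h6
  obtain ⟨c', rfl⟩ : ∃ c', c = c' + 2 := ⟨c - 2, by omega⟩
  have e : c' + 2 - 1 = c' + 1 := by omega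
  rw [e] at h7
  have : b * (c' + 2) - 1 < b * (c' + 2) := by
    have : 0 < b * (c' + 2) := by positivity
    omega
  nlinarith

section Cen

variable (D : Des G P Q I v k l) (F : Fam I N) (M : Num I N b c)
  (hab : ∀ B, ∀ g ∈ N B, ∀ h ∈ N B, g * h = h * g)

include D F M hab

theorem fix_dual [Finite G] {B B1 C : Q} {h : G} (hh : h ∈ N B) (h1 : h • B1 = B1)
    (hB1 : B ≠ B1) (hs : ∀ x, I x B → I x B1 → I x C) : h • C = C := by
  by_cases hBC : B = C
  · rw [← hBC]; exact D.fam_smul F hh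
  · obtain ⟨n, hn, rfl⟩ := D.dual_line F M hB1 hBC hs
    rw [smul_smul, hab B h hh n hn, mul_smul, h1]

theorem fix_conj [Finite G] {B B1 C : Q} {h g : G} (hh : h ∈ N B) (h1 : h • B1 = B1)
    (hg : g ∈ N B1) (hC : h • C = C) : h • g⁻¹ • C = g⁻¹ • C := by
  by_cases hB1 : B = B1
  · subst hB1
    rw [smul_smul, hab B h hh _ (inv_mem hg), mul_smul, hC]
  have hgp : ∀ x, I x B1 → g⁻¹ • x = x := fun x hx => F.le B1 (inv_mem hg) x hx
  have hgp' : ∀ x, I x B1 → g • x = x := fun x hx => F.le B1 hg x hx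
  by_cases hx : ∃ x, I x C ∧ I x B1 ∧ ¬ I x B
  · obtain ⟨x, hxC, hxB1, hxB⟩ := hx
    have hhx : I (h • x) C := D.inc_smul hC hxC
    have hhx1 : I (h • x) B1 := D.inc_smul h1 hxB1
    have h2 : g * h * g⁻¹ ∈ ker G I (g • B) := D.conj_mem_ker (F.le B hh) g
    have h3 : (g * h * g⁻¹) • x = h • x := by
      rw [mul_smul, mul_smul, hgp x hxB1, hgp' _ hhx1]
    have h4 : ¬ I x (g • B) := by
      intro h5
      rw [← D.inv g⁻¹, inv_smul_smul, hgp x hxB1] at h5
      exact hxB h5
    have h5 := D.fix_of_move h2 h4 hxC (by rw [h3]; exact hhx)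
    rw [mul_smul, mul_smul] at h5
    rw [eq_inv_smul_iff]
    exact h5
  · push Not at hx
    have hCB1 : B1 ≠ C := by
      rintro rfl
      obtain ⟨x, y, -, hx1, -, hx2, -⟩ := D.exists_two hB1
      exact hx2 (hx x hx1 hx1)
    have h2 := D.inter_eq (B := B1) (C := C) (B' := B) (C' := B1) hCB1 hB1
      (fun x h3 h4 => ⟨hx x h4 h3, h3⟩)
    apply fix_dual D F M hab hh h1 hB1
    intro x hxB hxB1
    have h3 := ((h2 x).mpr ⟨hxB, hxB1⟩).2
    rw [← hgp x hxB1, D.inv]
    exact h3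

theorem fix_conj' [Finite G] {B B1 C : Q} {h g : G} (hh : h ∈ N B) (h1 : h • B1 = B1)
    (hg : g ∈ N B1) : h • C = C ↔ h • g • C = g • C := by
  constructor
  · intro hC
    have := fix_conj D F M hab hh h1 (inv_mem hg) hC
    rwa [inv_inv] at this
  · intro hC
    have := fix_conj D F M hab hh h1 hg hC
    rwa [inv_smul_smul] at this

theorem exists_trans [Finite G] {B B1 : Q} {h : G} (hh : h ∈ N B) (h1 : h • B1 = B1) :
    ∃ g : G, g • B = B1 ∧ ∀ C : Q, h • C = C ↔ h • g • C = g • C := by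
  by_cases hB1 : B = B1
  · exact ⟨1, by rw [one_smul, hB1], fun C => by rw [one_smul]⟩
  obtain ⟨hb, hc⟩ := D.num_two F M B
  -- a third block on the dual line
  obtain ⟨B2, ⟨n, hn, rfl⟩, hB2⟩ : ∃ B2, (∃ n ∈ N B, n • B1 = B2) ∧ B2 ≠ B1 := by
    have h2 := M.cardO B B1 hB1
    have h3 : 1 < Set.ncard {C' | ∃ h ∈ N B, h • B1 = C'} := by omega
    obtain ⟨E, hE, E', hE', hne⟩ := (Set.one_lt_ncard (Set.toFinite _)).mp h3
    by_cases h4 : E = B1
    · exact ⟨E', hE', fun e => hne (by rw [h4, e])⟩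
    · exact ⟨E, hE, h4⟩
  have hB2B : n • B1 ≠ B := by
    intro e
    rw [← D.fam_smul F hn] at e
    exact hB1 (MulAction.injective n e).symm
  have h2 : h • (n • B1) = n • B1 := by
    rw [smul_smul, hab B h hh n hn, mul_smul, h1]
  have hsub : ∀ x, I x (n • B1) → I x B → I x B1 := by
    have h3 := D.inter_eq (B := B) (C := B1) (B' := n • B1) (C' := B) hB1 hB2B (by
      intro x hx hx1
      refine ⟨?_, hx⟩
      rw [← F.le B hn x hx, D.inv]
      exact hx1)
    intro x h4 h5
    exact ((h3 x).mpr ⟨h4, h5⟩).2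
  obtain ⟨g, hg, hgB⟩ := D.dual_line F M hB2B hB2 hsub
  exact ⟨g, hgB, fun C => fix_conj' D F M hab hh h2 hg⟩

open Classical in
/-- Every nonidentity element of `N B` has a center. -/
theorem exists_center [Finite G] {B : Q} {h : G} (hh : h ∈ N B) (h1 : h ≠ 1) :
    ∃ z, I z B ∧ ∀ C, h • C = C ↔ I z C := by
  haveI := Fintype.ofFinite P
  haveI := Fintype.ofFinite Q
  have hfc := D.fixedBy_fam F hh h1
  let φ : P → ℕ := fun x => Set.ncard {C | h • C = C ∧ I x C}
  have hoff : ∀ x, ¬ I x B → φ x = l := by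
    intro x hx
    have hne : h • x ≠ x := fun e => h1 (F.semi B h hh x hx e)
    have e : {C | h • C = C ∧ I x C} = {C | I x C ∧ I (h • x) C} := by
      ext C
      simp only [Set.mem_setOf_eq]
      constructor
      · rintro ⟨h2, h3⟩
        exact ⟨h3, D.inc_smul h2 h3⟩
      · rintro ⟨h2, h3⟩
        exact ⟨D.fix_of_move (F.le B hh) hx h2 h3, h2⟩
    simp only [φ]
    rw [e, D.lP x _ hne.symm]
  have hsum : ∑ x, φ x = k * k := by
    have e1 : ∀ x, φ x = ∑ C : Q, if (h • C = C ∧ I x C) then 1 else 0 := by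
      intro x
      simp only [φ]
      rw [Set.ncard_eq_toFinset_card', ← Finset.card_filter]
      congr 1
      ext C
      simp
    simp only [e1]
    rw [Finset.sum_comm]
    have e2 : ∀ C : Q, ∑ x : P, (if (h • C = C ∧ I x C) then 1 else 0)
        = if h • C = C then k else 0 := by
      intro C
      split_ifs with hC
      · rw [← D.kP C, Set.ncard_eq_toFinset_card', ← Finset.card_filter]
        congr 1
        ext x
        simp [hC]
      · apply Finset.sum_eq_zero
        intro x _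
        simp [hC]
    simp only [e2]
    rw [← Finset.sum_filter, Finset.sum_const, smul_eq_mul]
    congr 1
    rw [← hfc, Set.ncard_eq_toFinset_card']
    congr 1
    ext C
    simp [mem_fixedBy]
  obtain ⟨z, hz⟩ : ∃ z, φ z ≠ l := by
    by_contra hcon
    push Not at hcon
    rw [Finset.sum_congr rfl (fun x _ => hcon x), Finset.sum_const, Finset.card_univ,
      ← Nat.card_eq_fintype_card, D.cardP, smul_eq_mul] at hsum
    have h2 := D.eq_main
    have h3 := D.l_lt
    have h4 := D.v_pos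
    obtain ⟨w, rfl⟩ : ∃ w, v = w + 1 := ⟨v - 1, by omega⟩
    simp only [Nat.add_sub_cancel] at h2
    nlinarith
  have hzin : ∀ C, h • C = C → I z C := by
    intro C hC
    obtain ⟨g, hgB, hg⟩ := exists_trans D F M hab hh hC
    have h2 : φ (g⁻¹ • z) = φ z := by
      simp only [φ]
      have e : {C | h • C = C ∧ I z C} = (fun C => g • C) '' {C | h • C = C ∧ I (g⁻¹ • z) C} := by
        ext E
        simp only [Set.mem_setOf_eq, Set.mem_image]
        constructor
        · rintro ⟨h2, h3⟩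
          refine ⟨g⁻¹ • E, ⟨?_, ?_⟩, by simp⟩
          · rw [hg, smul_inv_smul]; exact h2
          · rw [D.inv]; exact h3
        · rintro ⟨E', ⟨h2, h3⟩, rfl⟩
          refine ⟨(hg E').mp h2, ?_⟩
          rw [← D.inv g, smul_inv_smul] at h3
          exact h3
      rw [e, Set.ncard_image_of_injective _ (MulAction.injective g)]
    have h3 : I (g⁻¹ • z) B := by
      by_contra h4
      exact hz (h2 ▸ hoff _ h4)
    rw [← D.inv g, smul_inv_smul, hgB] at h3
    exact h3
  refine ⟨z, hzin B (D.fam_smul F hh), fun C => ⟨hzin C, fun hC => ?_⟩⟩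
  have h2 : {C | h • C = C} = {C | I z C} := by
    apply Set.eq_of_subset_of_ncard_le
    · exact hzin
    · rw [D.kQ z, ← hfc]
      rfl
    · exact Set.toFinite _
  have h3 : C ∈ {C | I z C} := hC
  rw [← h2] at h3
  exact h3

end Cen

end Des

end Cfsg.Agent.Ito
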