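import Mathlib

/-!
# Geometric spreads and their kernels
-/

set_option autoImplicit false
set_option linter.unusedSectionVars false

namespace Cfsg.Agent.Ito

/-- A geometric spread. -/
structure Spread {ι V : Type*} [AddCommGroup V] (W : ι → AddSubgroup V) (q : ℕ) : Prop where
  card : ∀ i, Nat.card (W i) = q
  q2 : 2 ≤ q
  cover : ∀ v, ∃ i, v ∈ W i
  disj : ∀ i j v, i ≠ j → v ∈ W i → v ∈ W j → v = 0
  geo : ∀ i j v, i ≠ j → v ∈ W i ⊔ W j → v ≠ 0 → ∀ t, v ∈ W t → W t ≤ W i ⊔ W j

/-- `Φ` is a kernel homomorphism on `X`. -/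
def Kr {ι V : Type*} [AddCommGroup V] (W : ι → AddSubgroup V) (X : AddSubgroup V)
    (Φ : V → V) : Prop :=
  (∀ v ∈ X, ∀ w ∈ X, Φ (v + w) = Φ v + Φ w) ∧ ∀ v ∈ X, ∀ t, v ∈ W t → Φ v ∈ W t

namespace Spread

variable {ι V : Type*} [AddCommGroup V] {W : ι → AddSubgroup V} {q : ℕ} [Finite V]

theorem Kr.mono {X Y : AddSubgroup V} {Φ : V → V} (h : Kr W X Φ) (hXY : Y ≤ X) : Kr W Y Φ :=
  ⟨fun v hv w hw => h.1 v (hXY hv) w (hXY hw), fun v hv t ht => h.2 v (hXY hv) t ht⟩

theorem Kr.zero {X : AddSubgroup V} {Φ : V → V} (h : Kr W X Φ) : Φ 0 = 0 := by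
  have := h.1 0 (zero_mem _) 0 (zero_mem _)
  rw [add_zero] at this
  exact left_eq_add.mp this

theorem exists_ne_zero (S : Spread W q) (i : ι) : ∃ v ∈ W i, v ≠ 0 := by
  have h1 := S.card i
  have h2 := S.q2
  by_contra h
  push Not at h
  have h3 : W i = ⊥ := by
    rw [eq_bot_iff]
    exact h
  rw [h3] at h1
  have : Nat.card (⊥ : AddSubgroup V) = 1 := AddSubgroup.card_bot
  omega

theorem card_sup (S : Spread W q) {i j : ι} (h : i ≠ j) :
    Nat.card (W i ⊔ W j : AddSubgroup V) = q * q := by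
  have h1 : Nat.card (W i × W j) = q * q := by
    rw [Nat.card_prod, S.card, S.card]
  rw [← h1]
  symm
  refine Nat.card_congr (Equiv.ofBijective (fun p => (⟨p.1 + p.2,
    add_mem (AddSubgroup.mem_sup_left p.1.2) (AddSubgroup.mem_sup_right p.2.2)⟩ :
      (W i ⊔ W j : AddSubgroup V))) ⟨?_, ?_⟩)
  · rintro ⟨a, b⟩ ⟨a', b'⟩ he
    have h2 : (a : V) + b = a' + b' := congrArg Subtype.val he
    have h3 : (a : V) - a' = b' - b := by
      rw [sub_eq_sub_iff_add_eq_add, h2, add_comm]
    have h4 : (a : V) - a' = 0 := by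
      apply S.disj i j _ h (sub_mem a.2 a'.2)
      rw [h3]
      exact sub_mem b'.2 b.2
    rw [h4] at h3
    exact Prod.ext (Subtype.ext (sub_eq_zero.mp h4)) (Subtype.ext (sub_eq_zero.mp h3.symm).symm)
  · rintro ⟨x, hx⟩
    obtain ⟨a, ha, b, hb, rfl⟩ := AddSubgroup.mem_sup.mp hx
    exact ⟨(⟨a, ha⟩, ⟨b, hb⟩), rfl⟩

theorem sup_eq (S : Spread W q) {i j i' j' : ι} (h : i ≠ j) (h' : i' ≠ j')
    (hi : W i ≤ W i' ⊔ W j') (hj : W j ≤ W i' ⊔ W j') : W i ⊔ W j = W i' ⊔ W j' := by
  apply AddSubgroup.eq_of_le_of_card_ge (sup_le hi hj)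
  rw [S.card_sup h, S.card_sup h']

theorem uniq (S : Spread W q) {X : AddSubgroup V} {Φ Ψ : V → V} (hΦ : Kr W X Φ)
    (hΨ : Kr W X Ψ) {u : V} (hu : u ∈ X) (hu0 : u ≠ 0) (he : Φ u = Ψ u)
    (h2 : ∃ i j, i ≠ j ∧ W i ≤ X ∧ W j ≤ X) : ∀ v ∈ X, Φ v = Ψ v := by
  have hadd : ∀ v ∈ X, ∀ w ∈ X, Φ (v + w) - Ψ (v + w) = (Φ v - Ψ v) + (Φ w - Ψ w) := by
    intro v hv w hw
    rw [hΦ.1 v hv w hw, hΨ.1 v hv w hw]; abel
  have hin : ∀ v ∈ X, ∀ t, v ∈ W t → Φ v - Ψ v ∈ W t := fun v hv t ht =>
    sub_mem (hΦ.2 v hv t ht) (hΨ.2 v hv t ht)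
  obtain ⟨i, hi⟩ := S.cover u
  have key : ∀ w ∈ X, w ∉ W i → Φ w - Ψ w = 0 := by
    intro w hw hwi
    obtain ⟨j, hj⟩ := S.cover w
    have hij : i ≠ j := by
      rintro rfl
      exact hwi hj
    obtain ⟨t, ht⟩ := S.cover (u + w)
    have htj : t ≠ j := by
      rintro rfl
      apply hu0
      apply S.disj i t u hij hi
      have := sub_mem ht hj
      rwa [add_sub_cancel_right] at this
    have h3 := hin _ (add_mem hu hw) t ht
    rw [hadd u hu w hw, he, sub_self, zero_add] at h3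
    exact S.disj t j _ htj h3 (hin w hw j hj)
  intro v hv
  rw [← sub_eq_zero]
  by_cases hvi : v ∈ W i
  · obtain ⟨w, hw, hwi⟩ : ∃ w ∈ X, w ∉ W i := by
      obtain ⟨a, b, hab, ha, hb⟩ := h2
      by_cases hai : a = i
      · obtain ⟨w, hw, hw0⟩ := S.exists_ne_zero b
        refine ⟨w, hb hw, fun h => hw0 (S.disj i b w ?_ h hw)⟩
        rw [← hai]; exact hab
      · obtain ⟨w, hw, hw0⟩ := S.exists_ne_zero a
        exact ⟨w, ha hw, fun h => hw0 (S.disj i a w (Ne.symm hai) h hw)⟩
    have h3 : v + w ∉ W i := by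
      intro h
      apply hwi
      have := sub_mem h hvi
      rwa [add_sub_cancel_left] at this
    have h4 := key _ (add_mem hv hw) h3
    rw [hadd v hv w hw, key w hw hwi, add_zero] at h4
    exact h4
  · exact key v hv hvi

open Classical in
theorem global (S : Spread W q) {i j0 : ι} (hj0 : j0 ≠ i) {u u' : V} (hu : u ∈ W i)
    (hu0 : u ≠ 0)
    (h3 : ∀ j, j ≠ i → ∃ Φ, Kr W (W i ⊔ W j) Φ ∧ Φ u = u')
    (h4 : ∀ j j', j ≠ i → j' ≠ i → ¬ W j' ≤ W i ⊔ W j → ∃ α : V ≃+ V, (∀ v ∈ W i, α v = v) ∧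
      (∀ t, ∃ t', ∀ v, v ∈ W t → α v ∈ W t') ∧ (∀ v ∈ W j, α v ∈ W j')) :
    ∃ Φ : V →+ V, (∀ t, ∀ v ∈ W t, Φ v ∈ W t) ∧ Φ u = u' := by
  choose! Ph hPh hPu using h3
  have uW : ∀ j, u ∈ W i ⊔ W j := fun j => AddSubgroup.mem_sup_left hu
  -- independence of the plane
  have s4 : ∀ j j', j ≠ i → j' ≠ i → ∀ v ∈ W i, Ph j v = Ph j' v := by
    intro j j' hj hj' v hv
    by_cases hle : W j' ≤ W i ⊔ W j
    · have h5 : W i ⊔ W j' ≤ W i ⊔ W j := sup_le le_sup_left hle
      exact S.uniq (Kr.mono (hPh j hj) h5) (hPh j' hj') (uW j') hu0 (by rw [hPu j hj, hPu j' hj'])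
        ⟨i, j', hj'.symm, le_sup_left, le_sup_right⟩ v (AddSubgroup.mem_sup_left hv)
    · obtain ⟨α, hα1, hα2, hα3⟩ := h4 j j' hj hj' hle
      have hαj : ∀ v ∈ W j', α.symm v ∈ W j := by
        -- by cardinality
        have h5 : (W j).map α.toAddMonoidHom = W j' := by
          apply AddSubgroup.eq_of_le_of_card_ge
          · rintro _ ⟨v, hv, rfl⟩
            exact hα3 v hv
          · rw [S.card]
            have := Nat.card_congr ((W j).equivMapOfInjective α.toAddMonoidHom
              α.injective).toEquiv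
            rw [← this, S.card]
        intro v hv
        rw [← h5] at hv
        obtain ⟨w, hw, rfl⟩ := hv
        have : α.symm (α.toAddMonoidHom w) = w := α.symm_apply_apply w
        rw [this]; exact hw
      have hαi : ∀ v ∈ W i, α.symm v = v := by
        intro v hv
        rw [AddEquiv.symm_apply_eq, hα1 v hv]
      have hαX : ∀ v ∈ W i ⊔ W j', α.symm v ∈ W i ⊔ W j := by
        intro v hv
        obtain ⟨a, ha, b, hb, rfl⟩ := AddSubgroup.mem_sup.mp hv
        rw [map_add, hαi a ha]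
        exact add_mem (AddSubgroup.mem_sup_left ha) (AddSubgroup.mem_sup_right (hαj b hb))
      have hK : Kr W (W i ⊔ W j') (fun v => α (Ph j (α.symm v))) := by
        constructor
        · intro v hv w hw
          simp only
          rw [map_add, (hPh j hj).1 _ (hαX v hv) _ (hαX w hw), map_add]
        · intro v hv t ht
          simp only
          by_cases hv0 : v = 0
          · rw [hv0, map_zero, Kr.zero (hPh j hj), map_zero]
            exact zero_mem _
          · obtain ⟨r, hr⟩ := S.cover (α.symm v)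
            obtain ⟨r', hr'⟩ := hα2 r
            have h5 := hr' _ hr
            rw [AddEquiv.apply_symm_apply] at h5
            have h6 : r' = t := by
              by_contra hne
              exact hv0 (S.disj r' t v hne h5 ht)
            rw [← h6]
            exact hr' _ ((hPh j hj).2 _ (hαX v hv) r hr)
      have h5 := S.uniq hK (hPh j' hj') (uW j') hu0 (by
        rw [hαi u hu, hPu j hj, hPu j' hj', hα1]
        have := (hPh j hj).2 u (uW j) i hu
        rwa [hPu j hj] at this) ⟨i, j', hj'.symm, le_sup_left, le_sup_right⟩ v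
        (AddSubgroup.mem_sup_left hv)
      rw [hαi v hv, hα1 _ ((hPh j hj).2 v (AddSubgroup.mem_sup_left hv) i hv)] at h5
      exact h5
  choose cen hcen using S.cover
  have hcu : ∀ v t, v ≠ 0 → v ∈ W t → cen v = t := by
    intro v t hv ht
    by_contra hne
    exact hv (S.disj _ _ v hne (hcen v) ht)
  let F : V → V := fun v => if v ∈ W i then Ph j0 v else Ph (cen v) v
  have C1 : ∀ j, j ≠ i → ∀ v ∈ W i ⊔ W j, F v = Ph j v := by
    intro j hj v hv
    by_cases hvi : v ∈ W i
    · simp only [F, if_pos hvi]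
      exact s4 j0 j hj0 hj v hvi
    · simp only [F, if_neg hvi]
      have hci : cen v ≠ i := fun e => hvi (e ▸ hcen v)
      have hv0 : v ≠ 0 := by
        rintro rfl
        exact hvi (zero_mem _)
      have h5 := S.geo i j v hj.symm hv hv0 (cen v) (hcen v)
      have h6 : W i ⊔ W (cen v) ≤ W i ⊔ W j := sup_le le_sup_left h5
      exact S.uniq (hPh _ hci) (Kr.mono (hPh j hj) h6) (uW _) hu0 (by rw [hPu j hj, hPu _ hci])
        ⟨i, cen v, hci.symm, le_sup_left, le_sup_right⟩ v (AddSubgroup.mem_sup_right (hcen v))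
  have C2 : ∀ v t, v ∈ W t → F v ∈ W t := by
    intro v t ht
    by_cases hvi : v ∈ W i
    · simp only [F, if_pos hvi]
      exact (hPh j0 hj0).2 v (AddSubgroup.mem_sup_left hvi) t ht
    · simp only [F, if_neg hvi]
      have hci : cen v ≠ i := fun e => hvi (e ▸ hcen v)
      exact (hPh _ hci).2 v (AddSubgroup.mem_sup_right (hcen v)) t ht
  have C3a : ∀ j, j ≠ i → ∀ v ∈ W i ⊔ W j, ∀ w ∈ W i ⊔ W j, F (v + w) = F v + F w := by
    intro j hj v hv w hw
    rw [C1 j hj _ (add_mem hv hw), C1 j hj v hv, C1 j hj w hw]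
    exact (hPh j hj).1 v hv w hw
  have C3 : ∀ v w, F (v + w) = F v + F w := by
    intro v w
    by_cases hvi : v ∈ W i
    · obtain ⟨j, hj⟩ := S.cover w
      by_cases hji : j = i
      · exact C3a j0 hj0 v (AddSubgroup.mem_sup_left hvi) w
          (AddSubgroup.mem_sup_left (hji ▸ hj))
      · exact C3a j hji v (AddSubgroup.mem_sup_left hvi) w (AddSubgroup.mem_sup_right hj)
    obtain ⟨j, hj⟩ := S.cover v
    have hji : j ≠ i := by
      rintro rfl; exact hvi hj
    by_cases hwij : w ∈ W i ⊔ W j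
    · exact C3a j hji v (AddSubgroup.mem_sup_right hj) w hwij
    obtain ⟨k, hk⟩ := S.cover w
    have hki : k ≠ i := by
      rintro rfl
      exact hwij (AddSubgroup.mem_sup_left hk)
    have hkj : k ≠ j := by
      rintro rfl
      exact hwij (AddSubgroup.mem_sup_right hk)
    have hv0 : v ≠ 0 := by
      rintro rfl; exact hvi (zero_mem _)
    -- the third dimension
    have huij : u + v ∈ W i ⊔ W j :=
      add_mem (AddSubgroup.mem_sup_left hu) (AddSubgroup.mem_sup_right hj)
    have huik : u + w ∈ W i ⊔ W k :=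
      add_mem (AddSubgroup.mem_sup_left hu) (AddSubgroup.mem_sup_right hk)
    set s := u + v + w with hs
    set t := cen s with ht
    have hst : s ∈ W t := hcen s
    have hs0 : s ≠ 0 := by
      intro h
      apply hwij
      have : w = -(u + v) := by
        rw [hs] at h
        exact eq_neg_of_add_eq_zero_right h
      rw [this]
      exact neg_mem huij
    set p := cen (u + v) with hp
    have huv0 : u + v ≠ 0 := by
      intro h
      apply hvi
      rw [eq_neg_of_add_eq_zero_right h]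
      exact neg_mem hu
    have huw0 : u + w ≠ 0 := by
      intro h
      apply hwij
      rw [eq_neg_of_add_eq_zero_right h]
      exact neg_mem (AddSubgroup.mem_sup_left hu)
    have hpW : W p ≤ W i ⊔ W j := S.geo i j _ hji.symm huij huv0 p (hcen _)
    have hpk : p ≠ k := by
      intro e
      exact hwij (hpW (e ▸ hk))
    have hsX1 : s ∈ W p ⊔ W k :=
      add_mem (AddSubgroup.mem_sup_left (hcen _)) (AddSubgroup.mem_sup_right hk)
    have htX1 : W t ≤ W p ⊔ W k := S.geo p k s hpk hsX1 hs0 t hst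
    set r := cen (u + w) with hr
    have hrj : r ≠ j := by
      intro e
      apply hwij
      have h5 : u + w ∈ W j := e ▸ hcen (u + w)
      have h6 : w = (u + w) - u := by abel
      rw [h6]
      exact sub_mem (AddSubgroup.mem_sup_right h5) (AddSubgroup.mem_sup_left hu)
    have hs' : s = (u + w) + v := by rw [hs]; abel
    have hsX2 : s ∈ W r ⊔ W j := by
      rw [hs']
      exact add_mem (AddSubgroup.mem_sup_left (hcen _)) (AddSubgroup.mem_sup_right hj)
    have htX2 : W t ≤ W r ⊔ W j := S.geo r j s hrj hsX2 hs0 t hst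
    have e1 : F (u + v) = F u + F v := C3a j hji u (uW j) v (AddSubgroup.mem_sup_right hj)
    have e2 : F (u + w) = F u + F w := C3a k hki u (uW k) w (AddSubgroup.mem_sup_right hk)
    set Ψ := F u + F v + F w with hΨ
    have hΨ1 : Ψ ∈ W p ⊔ W k := by
      rw [hΨ, ← e1]
      exact add_mem (AddSubgroup.mem_sup_left (C2 _ _ (hcen _)))
        (AddSubgroup.mem_sup_right (C2 _ _ hk))
    have hΨ2 : Ψ ∈ W r ⊔ W j := by
      have : Ψ = (F u + F w) + F v := by rw [hΨ]; abel
      rw [this, ← e2]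
      exact add_mem (AddSubgroup.mem_sup_left (C2 _ _ (hcen _)))
        (AddSubgroup.mem_sup_right (C2 _ _ hj))
    have hΨt : Ψ ∈ W t := by
      by_contra hcon
      have hΨ0 : Ψ ≠ 0 := fun h => hcon (h ▸ zero_mem _)
      set e := cen Ψ with he
      have het : t ≠ e := fun h => hcon (h ▸ hcen Ψ)
      have heX1 := S.geo p k Ψ hpk hΨ1 hΨ0 e (hcen _)
      have heX2 := S.geo r j Ψ hrj hΨ2 hΨ0 e (hcen _)
      have h5 := S.sup_eq het hpk htX1 heX1
      have h6 := S.sup_eq het hrj htX2 heX2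
      have h7 : W p ⊔ W k = W r ⊔ W j := by rw [← h5, h6]
      have hvX : v ∈ W p ⊔ W k := by
        rw [h7]; exact AddSubgroup.mem_sup_right hj
      have huX : u ∈ W p ⊔ W k := by
        have h8 : u + v ∈ W p ⊔ W k := AddSubgroup.mem_sup_left (hcen _)
        have := sub_mem h8 hvX
        rwa [add_sub_cancel_right] at this
      have h8 := S.sup_eq hji.symm hpk (S.geo p k u hpk huX hu0 i hu)
        (S.geo p k v hpk hvX hv0 j hj)
      apply hwij
      rw [h8]
      exact AddSubgroup.mem_sup_right hk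
    -- conclusion
    set d := v + w with hd
    have hdjk : d ∈ W j ⊔ W k := add_mem (AddSubgroup.mem_sup_left hj)
      (AddSubgroup.mem_sup_right hk)
    have hdi : d ∉ W i := by
      intro h
      apply hwij
      have : w = d - v := by rw [hd]; abel
      rw [this]
      exact sub_mem (AddSubgroup.mem_sup_left h) (AddSubgroup.mem_sup_right hj)
    have hd0 : d ≠ 0 := by
      intro h
      apply hdi
      rw [h]
      exact zero_mem _
    have hci : cen d ≠ i := fun e => hdi (e ▸ hcen d)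
    have e3 : F (u + d) = F u + F d :=
      C3a (cen d) hci u (uW _) d (AddSubgroup.mem_sup_right (hcen d))
    have hsd : s = u + d := by rw [hs, hd]; abel
    have hFs : F s ∈ W t := C2 _ _ hst
    have hδ : F s - Ψ = F d - F v - F w := by
      rw [hsd, e3, hΨ]; abel
    have hδt : F s - Ψ ∈ W t := sub_mem hFs hΨt
    have hδjk : F s - Ψ ∈ W j ⊔ W k := by
      rw [hδ]
      have h5 := S.geo j k d hkj.symm hdjk hd0 (cen d) (hcen d)
      exact sub_mem (sub_mem (h5 (C2 _ _ (hcen d))) (AddSubgroup.mem_sup_left (C2 _ _ hj)))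
        (AddSubgroup.mem_sup_right (C2 _ _ hk))
    have hδ0 : F s - Ψ = 0 := by
      by_contra hne
      have h5 := S.geo j k _ hkj.symm hδjk hne t hδt
      have h6 : u ∈ W j ⊔ W k := by
        have : u = s - d := by rw [hsd]; abel
        rw [this]
        exact sub_mem (h5 hst) hdjk
      have h7 := S.sup_eq hji.symm hkj.symm (S.geo j k u hkj.symm h6 hu0 i hu) le_sup_left
      apply hwij
      rw [h7]
      exact AddSubgroup.mem_sup_right hk
    rw [hδ0] at hδ
    have h5 : F d - F v - F w = 0 := hδ.symm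
    rw [sub_sub, sub_eq_zero] at h5
    exact h5
  refine ⟨⟨⟨F, ?_⟩, C3⟩, fun t v hv => C2 v t hv, ?_⟩
  · have := C3 0 0
    rw [add_zero] at this
    exact left_eq_add.mp this
  · change F u = u'
    simp only [F, if_pos hu]
    exact hPu j0 hj0

end Spread

end Cfsg.Agent.Ito
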