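import Cfsg.Agent.Ito.Elat
import Cfsg.Agent.Ito.AZ3
import Cfsg.Agent.Ito.Spread

/-!
# The kernel of the spread of centers
-/

set_option autoImplicit false
set_option linter.unusedSectionVars false

namespace Cfsg.Agent.Ito

open MulAction Cfsg
open scoped commutatorElement

/-- The family is abelian. -/
class AbFam {G Q : Type*} [Group G] (N : Q → Subgroup G) : Prop where
  ab : ∀ B, ∀ g ∈ N B, ∀ h ∈ N B, g * h = h * g

section Inst

variable {G P Q : Type*} [Group G] [MulAction G P] [MulAction G Q] {I : P → Q → Prop}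
  {N : Q → Subgroup G} [AbFam N]

instance instN (B : Q) : CommGroup (N B) :=
  { Subgroup.toGroup (N B) with
    mul_comm := fun a b => Subtype.ext
      (show (a : G) * (b : G) = (b : G) * (a : G) from AbFam.ab B _ a.2 _ b.2) }

instance instU (z : P) (B : Q) : CommGroup (U I N z B) :=
  { Subgroup.toGroup (U I N z B) with
    mul_comm := fun a b => Subtype.ext
      (show (a : G) * (b : G) = (b : G) * (a : G) from AbFam.ab B _ a.2.1 _ b.2.1) }

end Inst

section

variable {G P Q : Type*} [Group G] [MulAction G P] [MulAction G Q] {I : P → Q → Prop}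
  {v k l q c : ℕ} [Finite P] [Finite Q] {N : Q → Subgroup G} [AbFam N]
  [Finite G] [FaithfulSMul G P]

/-- The components. -/
def Wz (I : P → Q → Prop) (N : Q → Subgroup G) [AbFam N] (B : Q) (z : {z : P // I z B}) :
    AddSubgroup (Additive (N B)) :=
  Subgroup.toAddSubgroup ((U I N z.1 B).subgroupOf (N B))

theorem mem_Wz {B : Q} {z : {z : P // I z B}} {x : Additive (N B)} :
    x ∈ Wz I N B z ↔ ((Additive.toMul x : N B) : G) ∈ U I N z.1 B := Iff.rfl

/-- Make an element. -/
def mkN (N : Q → Subgroup G) {B : Q} (h : G) (hh : h ∈ N B) : Additive (N B) :=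
  Additive.ofMul ⟨h, hh⟩

theorem mk_add {B : Q} {g h : G} (hg : g ∈ N B) (hh : h ∈ N B) :
    mkN N g hg + mkN N h hh = mkN N (g * h) (mul_mem hg hh) := rfl

theorem mk_mem {B : Q} {z : {z : P // I z B}} {h : G} (hh : h ∈ N B) :
    mkN N h hh ∈ Wz I N B z ↔ h ∈ U I N z.1 B := Iff.rfl

theorem exists_mk {B : Q} (x : Additive (N B)) : ∃ h, ∃ hh : h ∈ N B, x = mkN N h hh :=
  ⟨(Additive.toMul x : N B), (Additive.toMul x : N B).2, rfl⟩

theorem mk_eq_zero {B : Q} {h : G} (hh : h ∈ N B) : mkN N h hh = 0 ↔ h = 1 := by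
  constructor
  · intro e
    exact congrArg (fun x : Additive (N B) => ((Additive.toMul x : N B) : G)) e
  · intro e
    subst e
    rfl

namespace Des

/-- The commutator pairing. -/
noncomputable def cm (D : Des G P Q I v k l) (E : Ela I N v k l q c) {z y : P} {B C : Q}
    (hzB : I z B) (hyB : I y B) (hzC : I z C) (hyC : ¬ I y C) :
    Additive (U I N z C) →+ Additive (U I N y B) →+ Additive (U I N z B) :=
  AddMonoidHom.mk' (fun a => AddMonoidHom.mk' (fun b => Additive.ofMul
      ⟨⁅((Additive.toMul a : U I N z C) : G), ((Additive.toMul b : U I N y B) : G)⁆,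
        D.comm_mem' E hzB (Additive.toMul a).2 (Additive.toMul b).2.1⟩) (by
      intro b b'
      apply congrArg Additive.ofMul
      apply Subtype.ext
      change ⁅((Additive.toMul a : U I N z C) : G),
        ((Additive.toMul b : U I N y B) : G) * ((Additive.toMul b' : U I N y B) : G)⁆
        = ⁅((Additive.toMul a : U I N z C) : G), ((Additive.toMul b : U I N y B) : G)⁆
          * ⁅((Additive.toMul a : U I N z C) : G), ((Additive.toMul b' : U I N y B) : G)⁆
      generalize hg : ((Additive.toMul a : U I N z C) : G) = g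
      generalize hn : ((Additive.toMul b : U I N y B) : G) = n
      generalize hn' : ((Additive.toMul b' : U I N y B) : G) = n'
      have h1 : g ∈ U I N z C := hg ▸ (Additive.toMul a).2
      have h2 : n ∈ U I N y B := hn ▸ (Additive.toMul b).2
      have h3 : n' ∈ U I N y B := hn' ▸ (Additive.toMul b').2
      have h4 := D.comm_mem' E hzB h1 h3.1
      have h5 : n * ⁅g, n'⁆ = ⁅g, n'⁆ * n := E.ab B _ h2.1 _ h4.1
      calc ⁅g, n * n'⁆ = ⁅g, n⁆ * (n * ⁅g, n'⁆) * n⁻¹ := by
            simp only [commutatorElement_def]; group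
        _ = ⁅g, n⁆ * (⁅g, n'⁆ * n) * n⁻¹ := by rw [h5]
        _ = _ := by group)) (by
    intro a a'
    ext b
    change ⁅((Additive.toMul a : U I N z C) : G) * ((Additive.toMul a' : U I N z C) : G),
        ((Additive.toMul b : U I N y B) : G)⁆
      = ⁅((Additive.toMul a : U I N z C) : G), ((Additive.toMul b : U I N y B) : G)⁆
        * ⁅((Additive.toMul a' : U I N z C) : G), ((Additive.toMul b : U I N y B) : G)⁆
    generalize hg : ((Additive.toMul a : U I N z C) : G) = g
    generalize hg' : ((Additive.toMul a' : U I N z C) : G) = g'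
    generalize hn : ((Additive.toMul b : U I N y B) : G) = n
    have h1 : g ∈ U I N z C := hg ▸ (Additive.toMul a).2
    have h1' : g' ∈ U I N z C := hg' ▸ (Additive.toMul a').2
    have h2 : n ∈ U I N y B := hn ▸ (Additive.toMul b).2
    have h4 := D.comm_mem' E hzB h1' h2.1
    have h4' := D.comm_mem' E hzB h1 h2.1
    have hBC : B ≠ C := fun e => hyC (e ▸ hyB)
    have h5 : g * ⁅g', n⁆ = ⁅g', n⁆ * g := D.U_commute E hBC hzB hzC h1 h4
    have h6 : ⁅g', n⁆ * ⁅g, n⁆ = ⁅g, n⁆ * ⁅g', n⁆ := E.ab B _ h4.1 _ h4'.1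
    calc ⁅g * g', n⁆ = g * ⁅g', n⁆ * g⁻¹ * ⁅g, n⁆ := by
          simp only [commutatorElement_def]; group
      _ = ⁅g', n⁆ * ⁅g, n⁆ := by rw [h5]; group
      _ = _ := h6)

theorem cm_apply (D : Des G P Q I v k l) (E : Ela I N v k l q c) {z y : P} {B C : Q}
    (hzB : I z B) (hyB : I y B) (hzC : I z C) (hyC : ¬ I y C) (a : U I N z C) (b : U I N y B) :
    ((Additive.toMul (D.cm E hzB hyB hzC hyC (Additive.ofMul a) (Additive.ofMul b)) :
      U I N z B) : G) = ⁅(a : G), (b : G)⁆ := rfl

/-- The components form a geometric spread. -/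
theorem spread (D : Des G P Q I v k l) (E : Ela I N v k l q c) (B : Q) :
    Spread (Wz I N B) q where
  card := by
    intro z
    rw [← E.cardU z.1 B z.2]
    exact Nat.card_congr ⟨fun x => ⟨((Additive.toMul x.1 : N B) : G), x.2⟩,
      fun h => ⟨mkN N h.1 h.2.1, h.2⟩, fun x => rfl, fun h => rfl⟩
  q2 := E.q2
  cover := by
    intro x
    obtain ⟨h, hh, rfl⟩ := exists_mk x
    by_cases h1 : h = 1
    · subst h1
      obtain ⟨g, hg, hg1⟩ := E.fam.nt B
      obtain ⟨z, hz, -⟩ := exists_cen E hg hg1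
      exact ⟨⟨z, hz⟩, (U I N z B).one_mem⟩
    · obtain ⟨z, hz, hz2⟩ := exists_cen E hh h1
      exact ⟨⟨z, hz⟩, hz2⟩
  disj := by
    intro i j x hij h1 h2
    obtain ⟨h, hh, rfl⟩ := exists_mk x
    rw [mk_eq_zero]
    exact D.U_inf E (fun e => hij (Subtype.ext e)) h1 h2
  geo := by
    intro i j x hij hx hx0 t ht
    have hij' : i.1 ≠ j.1 := fun e => hij (Subtype.ext e)
    have htL : t.1 ∈ Ln I i.1 j.1 := by
      intro C h1 h2
      obtain ⟨a, ha, b, hb, rfl⟩ := AddSubgroup.mem_sup.mp hx
      obtain ⟨a, ha', rfl⟩ := exists_mk a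
      obtain ⟨b, hb', rfl⟩ := exists_mk b
      rw [mk_mem] at ha hb
      rw [mk_add, mk_mem] at ht
      by_contra hcon
      apply hx0
      rw [mk_add, mk_eq_zero]
      apply D.U_eq_one E ht _ hcon
      rw [mul_smul, hb.2 C h2, ha.2 C h1]
    intro y hy
    obtain ⟨h, hh, rfl⟩ := exists_mk y
    obtain ⟨a, ha, b, hb, rfl⟩ := (D.line_main E hij').2.2 B i.2 j.2 t.1 htL h hy
    rw [AddSubgroup.mem_sup]
    exact ⟨mkN N a ha.1, ha, mkN N b hb.1, hb, rfl⟩

/-- Existence of kernel elements on planes. -/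
theorem plane_ker (D : Des G P Q I v k l) (E : Ela I N v k l q c) {B : Q}
    (z y : {z : P // I z B}) (hzy : y ≠ z) {u u' : Additive (N B)} (hu : u ∈ Wz I N B z)
    (hu0 : u ≠ 0) (hu' : u' ∈ Wz I N B z) :
    ∃ Φ, Kr (Wz I N B) (Wz I N B z ⊔ Wz I N B y) Φ ∧ Φ u = u' := by
  classical
  obtain ⟨z, hzB⟩ := z
  obtain ⟨y, hyB⟩ := y
  have hzy' : z ≠ y := fun e => hzy (Subtype.ext e.symm)
  by_cases hu'0 : u' = 0
  · refine ⟨fun _ => 0, ⟨fun _ _ _ _ => (add_zero _).symm, fun _ _ _ _ => zero_mem _⟩, hu'0.symm⟩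
  obtain ⟨C, hzC, hyC⟩ := D.exists_sep hzy'
  obtain ⟨C', hyC', hzC'⟩ := D.exists_sep hzy'.symm
  have hBC : B ≠ C := fun e => hyC (e ▸ hyB)
  obtain ⟨w, -, -, hwC, -, hwB, -⟩ := D.exists_two hBC
  let β := D.cm E hzB hyB hzC hyC
  let β' := D.cm E hyB hzB hyC' hzC'
  let β'' := D.cm E hzC hwC hzB hwB
  have aeq : ∀ {z : P} {B : Q} {x y : Additive (U I N z B)},
      ((Additive.toMul x : U I N z B) : G) = ((Additive.toMul y : U I N z B) : G) → x = y := by
    intro z B x y h
    exact congrArg Additive.ofMul (Subtype.ext h)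
  have hne : ∀ {z : P} {B : Q} {x : Additive (U I N z B)}, x ≠ 0 →
      ((Additive.toMul x : U I N z B) : G) ≠ 1 := by
    intro z B x hx h
    exact hx (aeq h)
  have hL : ∀ a, a ≠ 0 → ∃ a', ∀ w, β' a' (β a w) = w := by
    intro a ha
    obtain ⟨g', hg', h⟩ := D.inv_left E hzB hyB hzC hyC hyC' hzC' (Additive.toMul a).2 (hne ha)
    exact ⟨Additive.ofMul ⟨g', hg'⟩, fun x => aeq (h _ (Additive.toMul x).2)⟩
  have hL' : ∀ a', a' ≠ 0 → ∃ a, ∀ x, β a (β' a' x) = x := by
    intro a ha
    obtain ⟨g', hg', h⟩ := D.inv_left E hyB hzB hyC' hzC' hzC hyC (Additive.toMul a).2 (hne ha)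
    exact ⟨Additive.ofMul ⟨g', hg'⟩, fun x => aeq (h _ (Additive.toMul x).2)⟩
  have hR : ∀ w, w ≠ 0 → ∃ c, ∀ a, β'' (β a w) c = a := by
    intro a ha
    obtain ⟨g', hg', h⟩ := D.inv_right E hzB hyB hzC hyC hwC hwB (Additive.toMul a).2 (hne ha)
    exact ⟨Additive.ofMul ⟨g', hg'⟩, fun x => aeq (h _ (Additive.toMul x).2)⟩
  have hR' : ∀ c, c ≠ 0 → ∃ w, ∀ u, β (β'' u c) w = u := by
    intro a ha
    obtain ⟨g', hg', h⟩ := D.inv_right E hzC hwC hzB hwB hyB hyC (Additive.toMul a).2 (hne ha)
    exact ⟨Additive.ofMul ⟨g', hg'⟩, fun x => aeq (h _ (Additive.toMul x).2)⟩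
  -- a nonzero element
  have cA : Nat.card (Additive (U I N z C)) = q := E.cardU z C hzC
  have cB : Nat.card (Additive (U I N y B)) = q := E.cardU y B hyB
  have cC : Nat.card (Additive (U I N z B)) = q := E.cardU z B hzB
  have hq := E.q2
  obtain ⟨e, he⟩ : ∃ e : Additive (U I N z C), e ≠ 0 := by
    haveI : Nontrivial (Additive (U I N z C)) := by
      rw [← Finite.one_lt_card_iff_nontrivial, cA]; omega
    exact exists_ne 0
  have hcomm := AZ.alt_comm β β' β'' hL hL' hR hR' e he
  have injl : Function.Injective (β e) := by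
    obtain ⟨a', h⟩ := hL e he
    exact Function.LeftInverse.injective h
  have bijl : Function.Bijective (β e) :=
    (Nat.bijective_iff_injective_and_card _).mpr ⟨injl, by rw [cB, cC]⟩
  let lam : Additive (U I N y B) ≃+ Additive (U I N z B) := AddEquiv.ofBijective (β e) bijl
  have hlam : ∀ x, β e (lam.symm x) = x := fun x => lam.apply_symm_apply x
  -- the elements
  obtain ⟨ug, hug, rfl⟩ := exists_mk u
  obtain ⟨ug', hug', rfl⟩ := exists_mk u'
  rw [mk_mem] at hu hu'
  rw [Ne, mk_eq_zero] at hu0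
  let u1 : Additive (U I N z B) := Additive.ofMul ⟨ug, hu⟩
  let u1' : Additive (U I N z B) := Additive.ofMul ⟨ug', hu'⟩
  have hv0 : lam.symm u1 ≠ 0 := by
    intro h
    rw [AddEquiv.map_eq_zero_iff] at h
    exact hu0 (congrArg (fun x : Additive (U I N z B) => ((Additive.toMul x : U I N z B) : G)) h)
  obtain ⟨a, ha⟩ : ∃ a, β a (lam.symm u1) = u1' := by
    have hinj : Function.Injective (fun a => β a (lam.symm u1)) := by
      obtain ⟨c', hc'⟩ := hR _ hv0
      intro x y hxy
      have h1 := hc' x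
      have h2 := hc' y
      simp only at hxy
      rw [hxy, h2] at h1
      exact h1.symm
    have := ((Nat.bijective_iff_injective_and_card _).mpr ⟨hinj, by rw [cA, cC]⟩).2 u1'
    exact this
  let f : Additive (U I N z B) → Additive (U I N z B) := fun x => β a (lam.symm x)
  let g : Additive (U I N y B) → Additive (U I N y B) := fun x => lam.symm (β a x)
  have hf : ∀ x x', f (x + x') = f x + f x' := fun x x' => by simp only [f, map_add]
  have hg : ∀ x x', g (x + x') = g x + g x' := fun x x' => by simp only [g, map_add]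
  -- embeddings
  let iz : Additive (U I N z B) →+ Additive (N B) :=
    AddMonoidHom.mk' (fun x => mkN N ((Additive.toMul x : U I N z B) : G) (Additive.toMul x).2.1)
      (fun _ _ => rfl)
  let iy : Additive (U I N y B) →+ Additive (N B) :=
    AddMonoidHom.mk' (fun x => mkN N ((Additive.toMul x : U I N y B) : G) (Additive.toMul x).2.1)
      (fun _ _ => rfl)
  have hiz : ∀ x, iz x ∈ Wz I N B ⟨z, hzB⟩ := fun x => (Additive.toMul x).2
  have hiy : ∀ x, iy x ∈ Wz I N B ⟨y, hyB⟩ := fun x => (Additive.toMul x).2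
  have hdec : ∀ x ∈ Wz I N B ⟨z, hzB⟩ ⊔ Wz I N B ⟨y, hyB⟩, ∃ p : Additive (U I N z B) ×
      Additive (U I N y B), x = iz p.1 + iy p.2 := by
    intro x hx
    obtain ⟨a, ha, b, hb, rfl⟩ := AddSubgroup.mem_sup.mp hx
    obtain ⟨a, ha', rfl⟩ := exists_mk a
    obtain ⟨b, hb', rfl⟩ := exists_mk b
    exact ⟨(Additive.ofMul ⟨a, ha⟩, Additive.ofMul ⟨b, hb⟩), rfl⟩
  have huniq : ∀ (p p' : Additive (U I N z B) × Additive (U I N y B)),
      iz p.1 + iy p.2 = iz p'.1 + iy p'.2 → p = p' := by
    rintro ⟨a, b⟩ ⟨a', b'⟩ h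
    simp only at h
    have h1 : iz (a - a') = iy (b' - b) := by
      rw [map_sub, map_sub, sub_eq_sub_iff_add_eq_add, h, add_comm]
    have h2 : iz (a - a') = 0 :=
      (D.spread E B).disj _ _ _ (Ne.symm hzy) (hiz _) (by rw [h1]; exact hiy _)
    have h3 : a - a' = 0 := by
      apply aeq
      exact congrArg (fun x : Additive (N B) => ((Additive.toMul x : N B) : G)) h2
    rw [h2] at h1
    have h4 : b' - b = 0 := by
      apply aeq
      exact congrArg (fun x : Additive (N B) => ((Additive.toMul x : N B) : G)) h1.symm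
    rw [sub_eq_zero.mp h3, sub_eq_zero.mp h4]
  choose! dec hdec2 using hdec
  have hdp : ∀ p : Additive (U I N z B) × Additive (U I N y B), dec (iz p.1 + iy p.2) = p := by
    intro p
    apply huniq
    exact (hdec2 _ (add_mem (AddSubgroup.mem_sup_left (hiz _))
      (AddSubgroup.mem_sup_right (hiy _)))).symm
  refine ⟨fun x => iz (f (dec x).1) + iy (g (dec x).2), ⟨?_, ?_⟩, ?_⟩
  · intro x hx x' hx'
    have h1 : dec (x + x') = dec x + dec x' := by
      have h2 : x + x' = iz (dec x + dec x').1 + iy (dec x + dec x').2 := by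
        conv_lhs => rw [hdec2 x hx, hdec2 x' hx']
        rw [Prod.fst_add, Prod.snd_add, map_add, map_add]
        abel
      conv_lhs => rw [h2]
      exact hdp _
    simp only
    rw [h1, Prod.fst_add, Prod.snd_add, hf, hg, map_add, map_add]
    abel
  · rintro x hx ⟨t, htB⟩ ht
    simp only
    by_cases htz : t = z
    · subst htz
      obtain ⟨h, hh, rfl⟩ := exists_mk x
      have h1 : dec (mkN N h hh) = (Additive.ofMul ⟨h, ht⟩, 0) := by
        have h2 : mkN N h hh = iz (Additive.ofMul ⟨h, ht⟩) + iy 0 := by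
          rw [map_zero, add_zero]; rfl
        rw [h2]
        exact hdp (Additive.ofMul ⟨h, ht⟩, 0)
      rw [h1]
      have h3 : g 0 = 0 := by simp only [g, map_zero]
      simp only
      rw [h3, map_zero, add_zero]
      exact hiz _
    · by_cases hx0 : x = 0
      · have h1 : dec x = 0 := by
          rw [hx0]
          have := hdp 0
          simpa using this
        rw [h1]
        have h3 : g 0 = 0 := by simp only [g, map_zero]
        have h4 : f 0 = 0 := by simp only [f, map_zero]
        simp only [Prod.fst_zero, Prod.snd_zero, h3, h4, map_zero, add_zero]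
        exact zero_mem _
      -- `t` is on the line
      have htL : t ∈ Ln I z y := by
        intro C0 h1 h2
        obtain ⟨a0, ha0, b0, hb0, rfl⟩ := AddSubgroup.mem_sup.mp hx
        obtain ⟨a0, ha0', rfl⟩ := exists_mk a0
        obtain ⟨b0, hb0', rfl⟩ := exists_mk b0
        rw [mk_mem] at ha0 hb0
        rw [mk_add, mk_mem] at ht
        by_contra hcon
        apply hx0
        rw [mk_add, mk_eq_zero]
        apply D.U_eq_one E ht _ hcon
        rw [mul_smul, hb0.2 C0 h2, ha0.2 C0 h1]
      obtain ⟨g', hg', hg'y⟩ := D.U_line E hzC hyC htL htz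
      have hg'B : g' • B = B := hg'.2 B hzB
      obtain ⟨h, hh, rfl⟩ := exists_mk x
      have ht' : h ∈ U I N t B := ht
      have hgy' : g'⁻¹ • t = y := by rw [← hg'y, inv_smul_smul]
      have hgB' : g'⁻¹ • B = B := by rw [inv_smul_eq_iff, hg'B]
      have hb := D.U_conj E.fam hgy' hgB' ht'
      let b : Additive (U I N y B) := Additive.ofMul ⟨_, hb⟩
      let a2 : Additive (U I N z C) := Additive.ofMul ⟨g', hg'⟩
      have hbG : ((Additive.toMul b : U I N y B) : G) = g'⁻¹ * h * g'⁻¹⁻¹ := rfl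
      have h1 : mkN N h hh = iz (β a2 b) + iy b := by
        have h2 : h = ⁅g', g'⁻¹ * h * g'⁻¹⁻¹⁆ * (g'⁻¹ * h * g'⁻¹⁻¹) := by
          simp only [commutatorElement_def]; group
        apply congrArg Additive.ofMul
        exact Subtype.ext h2
      have h2 : dec (mkN N h hh) = (β a2 b, b) := by
        rw [h1]
        exact hdp (β a2 b, b)
      rw [h2]
      simp only
      -- the commutation
      have h3 : β a2 (lam.symm (β a b)) = β a (lam.symm (β a2 b)) :=
        hcomm a a2 b _ _ (hlam _) (hlam _)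
      have h4 : f (β a2 b) = β a2 (g b) := h3.symm
      rw [h4]
      -- conjugate
      have h5 : (iz (β a2 (g b)) + iy (g b)) = mkN N (g' * ((Additive.toMul (g b) :
          U I N y B) : G) * g'⁻¹) (fam_conj E.fam hg'B (Additive.toMul (g b)).2.1) := by
        apply congrArg Additive.ofMul
        apply Subtype.ext
        change ⁅g', ((Additive.toMul (g b) : U I N y B) : G)⁆ *
          ((Additive.toMul (g b) : U I N y B) : G) = _
        simp only [commutatorElement_def]; group
      rw [h5, mk_mem]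
      exact D.U_conj E.fam hg'y hg'B (Additive.toMul (g b)).2
  · simp only
    have h1 : dec (mkN N ug hug) = (u1, 0) := by
      have h2 : mkN N ug hug = iz u1 + iy 0 := by
        rw [map_zero, add_zero]; rfl
      rw [h2]
      exact hdp (u1, 0)
    rw [h1]
    have h3 : g 0 = 0 := by simp only [g, map_zero]
    simp only
    rw [h3, map_zero, add_zero]
    change iz (β a (lam.symm u1)) = _
    rw [ha]
    rfl

/-- The kernel of the spread is transitive on each component. -/
theorem ker_trans (D : Des G P Q I v k l) (E : Ela I N v k l q c) {B : Q}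
    (z : {z : P // I z B}) {u u' : Additive (N B)} (hu : u ∈ Wz I N B z) (hu0 : u ≠ 0)
    (hu' : u' ∈ Wz I N B z) :
    ∃ Φ : Additive (N B) →+ Additive (N B), (∀ t, ∀ x ∈ Wz I N B t, Φ x ∈ Wz I N B t) ∧
      Φ u = u' := by
  have S := D.spread E B
  -- a second point of `B`
  obtain ⟨y, hy, hyz⟩ : ∃ y, I y B ∧ y ≠ z.1 := by
    have h1 := D.kP B
    have h2 := D.k2
    have h3 : 1 < Set.ncard {x | I x B} := by omega
    obtain ⟨a, ha, b, hb, hab⟩ := (Set.one_lt_ncard (Set.toFinite _)).mp h3
    by_cases h : a = z.1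
    · exact ⟨b, hb, fun e => hab (h.trans e.symm)⟩
    · exact ⟨a, ha, h⟩
  refine S.global (i := z) (j0 := ⟨y, hy⟩) (fun e => hyz (congrArg Subtype.val e)) hu hu0 ?_ ?_
  · intro j hj
    exact D.plane_ker E z j hj hu hu0 hu'
  · intro j j' hj hj' hle
    have hjj' : j.1 ≠ j'.1 := by
      intro e
      apply hle
      rw [← Subtype.ext e]
      exact le_sup_right
    have hzj : z.1 ≠ j.1 := fun e => hj (Subtype.ext e.symm)
    have hL : j'.1 ∉ Ln I z.1 j.1 := by
      intro hL
      apply hle
      intro x hx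
      obtain ⟨h, hh, rfl⟩ := exists_mk x
      obtain ⟨a, ha, b, hb, rfl⟩ := (D.line_main E hzj).2.2 B z.2 j.2 j'.1 hL h hx
      rw [AddSubgroup.mem_sup]
      exact ⟨mkN N a ha.1, ha, mkN N b hb.1, hb, rfl⟩
    obtain ⟨g, hgB, hgj, hgz⟩ := D.exists_mono E z.2 j.2 j'.2 hjj' hL hzj
    have hgB' : g⁻¹ • B = B := by rw [inv_smul_eq_iff, hgB]
    let α : Additive (N B) ≃+ Additive (N B) :=
      { toFun := fun x => mkN N (g * ((Additive.toMul x : N B) : G) * g⁻¹)
          (fam_conj E.fam hgB (Additive.toMul x).2)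
        invFun := fun x => mkN N (g⁻¹ * ((Additive.toMul x : N B) : G) * g⁻¹⁻¹)
          (fam_conj E.fam hgB' (Additive.toMul x).2)
        left_inv := by
          intro x
          apply congrArg Additive.ofMul
          apply Subtype.ext
          change g⁻¹ * (g * ((Additive.toMul x : N B) : G) * g⁻¹) * g⁻¹⁻¹ =
            ((Additive.toMul x : N B) : G)
          group
        right_inv := by
          intro x
          apply congrArg Additive.ofMul
          apply Subtype.ext
          change g * (g⁻¹ * ((Additive.toMul x : N B) : G) * g⁻¹⁻¹) * g⁻¹ =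
            ((Additive.toMul x : N B) : G)
          group
        map_add' := by
          intro x y
          apply congrArg Additive.ofMul
          apply Subtype.ext
          change g * (((Additive.toMul x : N B) : G) * ((Additive.toMul y : N B) : G)) * g⁻¹ =
            (g * ((Additive.toMul x : N B) : G) * g⁻¹) *
              (g * ((Additive.toMul y : N B) : G) * g⁻¹)
          group }
    have hα : ∀ x, α x = mkN N (g * ((Additive.toMul x : N B) : G) * g⁻¹)
          (fam_conj E.fam hgB (Additive.toMul x).2) := fun x => rfl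
    refine ⟨α, ?_, ?_, ?_⟩
    · intro x hx
      rw [hα]
      apply congrArg Additive.ofMul
      exact Subtype.ext (hgz _ hx)
    · intro t
      refine ⟨⟨g • t.1, D.inc_smul hgB t.2⟩, fun x hx => ?_⟩
      rw [hα, mk_mem]
      exact D.U_conj E.fam rfl hgB hx
    · intro x hx
      rw [hα, mk_mem]
      exact D.U_conj E.fam hgj hgB hx

end Des

end

end Cfsg.Agent.Ito
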