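import Mathlib

/-!
# Symmetric designs with a group 2-transitive on points

`Des` records a symmetric design (points `P`, blocks `Q`) and a group that is 2-transitive on
points and blocks, transitive on flags and antiflags.  It is self dual.
-/

set_option autoImplicit false
set_option linter.unusedSectionVars false

namespace Cfsg.Agent.Ito

open MulAction

/-- A symmetric `(v,k,l)`-design with a group, 2-transitive on points and on blocks. -/
structure Des (G P Q : Type*) [Group G] [MulAction G P] [MulAction G Q] (I : P → Q → Prop)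
    (v k l : ℕ) : Prop where
  inv : ∀ (g : G) x B, I (g • x) (g • B) ↔ I x B
  cardP : Nat.card P = v
  cardQ : Nat.card Q = v
  kP : ∀ B, Set.ncard {x | I x B} = k
  kQ : ∀ x, Set.ncard {B | I x B} = k
  lP : ∀ x y, x ≠ y → Set.ncard {B | I x B ∧ I y B} = l
  lQ : ∀ B C, B ≠ C → Set.ncard {x | I x B ∧ I x C} = l
  fix : ∀ g : G, Set.ncard (fixedBy P g) = Set.ncard (fixedBy Q g)
  tP : ∀ x y x' y' : P, x ≠ y → x' ≠ y' → ∃ g : G, g • x = x' ∧ g • y = y'
  tQ : ∀ x y x' y' : Q, x ≠ y → x' ≠ y' → ∃ g : G, g • x = x' ∧ g • y = y'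
  tF : ∀ x B x' B', I x B → I x' B' → ∃ g : G, g • x = x' ∧ g • B = B'
  tA : ∀ x B x' B', ¬ I x B → ¬ I x' B' → ∃ g : G, g • x = x' ∧ g • B = B'
  k2 : 2 ≤ k
  kv : k + 2 ≤ v

namespace Des

variable {G P Q : Type*} [Group G] [MulAction G P] [MulAction G Q] {I : P → Q → Prop}
  {v k l : ℕ}

/-- The dual design. -/
theorem dual (D : Des G P Q I v k l) : Des G Q P (fun B x => I x B) v k l where
  inv := fun g B x => D.inv g x B
  cardP := D.cardQ
  cardQ := D.cardP
  kP := D.kQ
  kQ := D.kP
  lP := D.lQ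
  lQ := D.lP
  fix := fun g => (D.fix g).symm
  tP := D.tQ
  tQ := D.tP
  tF := fun B x B' x' h h' => by
    obtain ⟨g, h1, h2⟩ := D.tF x B x' B' h h'
    exact ⟨g, h2, h1⟩
  tA := fun B x B' x' h h' => by
    obtain ⟨g, h1, h2⟩ := D.tA x B x' B' h h'
    exact ⟨g, h2, h1⟩
  k2 := D.k2
  kv := D.kv

end Des

section Count

variable {P Q : Type*} [Fintype P] [Fintype Q] [DecidableEq P] [DecidableEq Q]

open Classical in
/-- Incidence matrix. -/
noncomputable def inc (I : P → Q → Prop) : Matrix P Q ℚ := fun x B => if I x B then 1 else 0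

open Classical in
theorem sum_inc_row (I : P → Q → Prop) (x : P) :
    ∑ B, inc I x B = (Set.ncard {B | I x B} : ℚ) := by
  rw [Set.ncard_eq_toFinset_card']
  simp [inc, Finset.sum_boole]

open Classical in
theorem sum_inc_col (I : P → Q → Prop) (B : Q) :
    ∑ x, inc I x B = (Set.ncard {x | I x B} : ℚ) := by
  rw [Set.ncard_eq_toFinset_card']
  simp [inc, Finset.sum_boole]

open Classical in
theorem sum_inc_mul (I : P → Q → Prop) (x y : P) :
    ∑ B, inc I x B * inc I y B = (Set.ncard {B | I x B ∧ I y B} : ℚ) := by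
  rw [Set.ncard_eq_toFinset_card']
  have : ∀ B, inc I x B * inc I y B = if I x B ∧ I y B then 1 else 0 := by
    intro B
    by_cases h1 : I x B <;> by_cases h2 : I y B <;> simp [inc, h1, h2]
  simp only [this]
  simp [Finset.sum_boole]

open Classical in
theorem sum_inc_mul' (I : P → Q → Prop) (B C : Q) :
    ∑ x, inc I x B * inc I x C = (Set.ncard {x | I x B ∧ I x C} : ℚ) :=
  sum_inc_mul (fun B x => I x B) B C

/-- Point counting in a design: every point is in the same number of blocks. -/
theorem flag_count (I : P → Q → Prop) (k : ℕ) (kP : ∀ B, Set.ncard {x | I x B} = k) :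
    ∑ x : P, Set.ncard {B | I x B} = Fintype.card Q * k := by
  have h : (∑ x : P, (Set.ncard {B | I x B} : ℚ)) = (Fintype.card Q * k : ℕ) := by
    calc (∑ x : P, (Set.ncard {B | I x B} : ℚ)) = ∑ x, ∑ B, inc I x B := by
          simp only [sum_inc_row]
      _ = ∑ B, ∑ x, inc I x B := Finset.sum_comm
      _ = ∑ B : Q, (k : ℚ) := by
          refine Finset.sum_congr rfl fun B _ => ?_
          rw [sum_inc_col, kP]
      _ = (Fintype.card Q * k : ℕ) := by simp
  exact_mod_cast h

/-- `l (v - 1) = k (k - 1)`. -/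
theorem pair_count (I : P → Q → Prop) (k l : ℕ) (kP : ∀ B, Set.ncard {x | I x B} = k)
    (kQ : ∀ x, Set.ncard {B | I x B} = k)
    (lP : ∀ x y, x ≠ y → Set.ncard {B | I x B ∧ I y B} = l) (x : P) :
    (k : ℚ) + l * (Fintype.card P - 1) = k * k := by
  have h1 : ∑ y : P, (Set.ncard {B | I x B ∧ I y B} : ℚ) = k + l * (Fintype.card P - 1) := by
    rw [← Finset.add_sum_erase _ _ (Finset.mem_univ x)]
    have : (Set.ncard {B | I x B ∧ I x B} : ℚ) = k := by simp [kQ]
    rw [this]
    congr 1
    rw [Finset.sum_congr rfl (g := fun _ => (l : ℚ))]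
    · rw [Finset.sum_const, Finset.card_erase_of_mem (Finset.mem_univ _), Finset.card_univ,
        nsmul_eq_mul]
      have : 1 ≤ Fintype.card P := Fintype.card_pos_iff.mpr ⟨x⟩
      push_cast [Nat.cast_sub this]
      ring
    · intro y hy
      rw [lP x y (Finset.ne_of_mem_erase hy).symm]
  rw [← h1]
  simp only [← sum_inc_mul]
  rw [Finset.sum_comm]
  have : ∀ B, ∑ y, inc I x B * inc I y B = inc I x B * k := by
    intro B
    rw [← Finset.mul_sum, sum_inc_col, kP]
  simp only [this]
  rw [← Finset.sum_mul, sum_inc_row, kQ]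

/-- The inverse of the incidence matrix. -/
noncomputable def invInc (I : P → Q → Prop) (k l : ℕ) : Matrix Q P ℚ :=
  fun B x => (1 / ((k : ℚ) - l)) * (inc I x B - l / k)

theorem inc_mul_inv (I : P → Q → Prop) (k l : ℕ) (hk : 0 < k) (hl : l < k)
    (kQ : ∀ x, Set.ncard {B | I x B} = k)
    (lP : ∀ x y, x ≠ y → Set.ncard {B | I x B ∧ I y B} = l) :
    inc I * invInc I k l = 1 := by
  have hk' : (k : ℚ) ≠ 0 := by positivity
  have hl' : (k : ℚ) - l ≠ 0 := by
    have : (l : ℚ) < k := by exact_mod_cast hl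
    linarith
  ext x y
  rw [Matrix.mul_apply]
  have : ∀ B, inc I x B * invInc I k l B y
      = (1 / ((k : ℚ) - l)) * (inc I x B * inc I y B) - (1 / ((k : ℚ) - l)) * (l / k) * inc I x B
      := by
    intro B
    simp only [invInc]
    ring
  simp only [this]
  rw [Finset.sum_sub_distrib, ← Finset.mul_sum, ← Finset.mul_sum, sum_inc_mul, sum_inc_row, kQ]
  by_cases h : x = y
  · subst h
    simp only [and_self, kQ, Matrix.one_apply_eq]
    field_simp
  · rw [lP x y h, Matrix.one_apply_ne h]
    field_simp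
    ring

theorem inv_mul_inc (I : P → Q → Prop) (k l : ℕ) (hk : 0 < k) (hl : l < k)
    (hc : Fintype.card P = Fintype.card Q)
    (kQ : ∀ x, Set.ncard {B | I x B} = k)
    (lP : ∀ x y, x ≠ y → Set.ncard {B | I x B ∧ I y B} = l) :
    invInc I k l * inc I = 1 :=
  (Matrix.mul_eq_one_comm_of_card_eq P Q ℚ hc).mp (inc_mul_inv I k l hk hl kQ lP)

/-- Two blocks meet in `l` points. -/
theorem dual_lambda (I : P → Q → Prop) (k l : ℕ) (hk : 0 < k) (hl : l < k)
    (hc : Fintype.card P = Fintype.card Q) (kP : ∀ B, Set.ncard {x | I x B} = k)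
    (kQ : ∀ x, Set.ncard {B | I x B} = k)
    (lP : ∀ x y, x ≠ y → Set.ncard {B | I x B ∧ I y B} = l) (B C : Q) (h : B ≠ C) :
    Set.ncard {x | I x B ∧ I x C} = l := by
  have h1 := congrFun (congrFun (inv_mul_inc I k l hk hl hc kQ lP) B) C
  rw [Matrix.mul_apply, Matrix.one_apply_ne h] at h1
  have hk' : (k : ℚ) ≠ 0 := by positivity
  have hl' : (k : ℚ) - l ≠ 0 := by
    have : (l : ℚ) < k := by exact_mod_cast hl
    linarith
  have : ∀ x, invInc I k l B x * inc I x C
      = (1 / ((k : ℚ) - l)) * (inc I x B * inc I x C) - (1 / ((k : ℚ) - l)) * (l / k) * inc I x C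
      := by
    intro x
    simp only [invInc]
    ring
  simp only [this] at h1
  rw [Finset.sum_sub_distrib, ← Finset.mul_sum, ← Finset.mul_sum, sum_inc_mul', sum_inc_col, kP]
    at h1
  field_simp at h1
  have h2 : (Set.ncard {x | I x B ∧ I x C} : ℚ) = l := by linarith
  exact_mod_cast h2

open Classical in
/-- Every automorphism fixes as many points as blocks. -/
theorem fix_eq (I : P → Q → Prop) (k l : ℕ) (hk : 0 < k) (hl : l < k)
    (hc : Fintype.card P = Fintype.card Q)
    (kQ : ∀ x, Set.ncard {B | I x B} = k)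
    (lP : ∀ x y, x ≠ y → Set.ncard {B | I x B ∧ I y B} = l)
    (σ : Equiv.Perm P) (τ : Equiv.Perm Q) (hI : ∀ x B, I (σ x) (τ B) ↔ I x B) :
    Set.ncard {x | σ x = x} = Set.ncard {B | τ B = B} := by
  have h1 := inc_mul_inv I k l hk hl kQ lP
  have h2 := inv_mul_inc I k l hk hl hc kQ lP
  have e1 : (Set.ncard {x | σ x = x} : ℚ) = ∑ x, (1 : Matrix P P ℚ) (σ x) x := by
    rw [Set.ncard_eq_toFinset_card']
    simp [Matrix.one_apply, Finset.sum_boole]
  have e2 : (Set.ncard {B | τ B = B} : ℚ) = ∑ B, (1 : Matrix Q Q ℚ) (τ B) B := by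
    rw [Set.ncard_eq_toFinset_card']
    simp [Matrix.one_apply, Finset.sum_boole]
  have e3 : (Set.ncard {x | σ x = x} : ℚ) = (Set.ncard {B | τ B = B} : ℚ) := by
    rw [e1, e2, ← h1, ← h2]
    simp only [Matrix.mul_apply]
    calc ∑ x, ∑ B, inc I (σ x) B * invInc I k l B x
        = ∑ x, ∑ B, inc I (σ x) (τ B) * invInc I k l (τ B) x := by
          refine Finset.sum_congr rfl fun x _ => ?_
          exact (Equiv.sum_comp τ (fun B => inc I (σ x) B * invInc I k l B x)).symm
      _ = ∑ x, ∑ B, invInc I k l (τ B) x * inc I x B := by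
          refine Finset.sum_congr rfl fun x _ => Finset.sum_congr rfl fun B _ => ?_
          have : inc I (σ x) (τ B) = inc I x B := by
            simp only [inc, hI]
          rw [this, mul_comm]
      _ = ∑ B, ∑ x, invInc I k l (τ B) x * inc I x B := Finset.sum_comm
  exact_mod_cast e3

end Count

section Orbits

/-- The number of orbits on a product as a fixed point sum. -/
theorem orbits_prod (G X Y : Type*) [Group G] [Finite G] [MulAction G X] [MulAction G Y]
    [Finite X] [Finite Y] [Fintype G] :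
    ∑ g : G, Set.ncard (fixedBy X g) * Set.ncard (fixedBy Y g)
      = Nat.card (Quotient (orbitRel G (X × Y))) * Nat.card G := by
  classical
  haveI := Fintype.ofFinite X
  haveI := Fintype.ofFinite Y
  haveI : Fintype (Quotient (orbitRel G (X × Y))) := Fintype.ofFinite _
  have h := sum_card_fixedBy_eq_card_orbits_mul_card_group (G := G) (X := X × Y)
  rw [Nat.card_eq_fintype_card, Nat.card_eq_fintype_card, ← h]
  refine Finset.sum_congr rfl fun g _ => ?_
  rw [← Set.ncard_prod, Set.ncard_eq_toFinset_card', Set.toFinset_card]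
  refine Fintype.card_congr (Equiv.setCongr ?_)
  ext ⟨x, y⟩
  simp [mem_fixedBy, Prod.ext_iff]

/-- A partition of `X × Y` into two orbits. -/
theorem orbits_two {G X Y : Type*} [Group G] [MulAction G X] [MulAction G Y]
    [Finite X] [Finite Y] (R : X → Y → Prop) (inv : ∀ (g : G) x y, R (g • x) (g • y) ↔ R x y)
    (h1 : ∀ x y x' y', R x y → R x' y' → ∃ g : G, g • x = x' ∧ g • y = y')
    (h2 : ∀ x y x' y', ¬ R x y → ¬ R x' y' → ∃ g : G, g • x = x' ∧ g • y = y')
    (x y x' y') (hxy : R x y) (hxy' : ¬ R x' y') :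
    Nat.card (Quotient (orbitRel G (X × Y))) = 2 := by
  classical
  have key : ∀ p q : X × Y, (Quotient.mk (orbitRel G (X × Y)) p = Quotient.mk _ q) ↔
      (R p.1 p.2 ↔ R q.1 q.2) := by
    rintro ⟨a, b⟩ ⟨c, d⟩
    rw [Quotient.eq]
    constructor
    · rintro ⟨g, hg⟩
      simp only [Prod.smul_mk, Prod.mk.injEq] at hg
      obtain ⟨rfl, rfl⟩ := hg
      exact inv g c d
    · intro h
      by_cases hR : R a b
      · obtain ⟨g, h3, h4⟩ := h1 c d a b (h.mp hR) hR
        exact ⟨g, Prod.ext h3 h4⟩
      · obtain ⟨g, h3, h4⟩ := h2 c d a b (fun hc => hR (h.mpr hc)) hR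
        exact ⟨g, Prod.ext h3 h4⟩
  let f : Quotient (orbitRel G (X × Y)) → Prop :=
    Quotient.lift (fun p => R p.1 p.2) (by
      intro p q hpq
      exact propext ((key p q).mp (Quotient.sound hpq)))
  have hf : Function.Bijective f := by
    constructor
    · intro p q
      induction p using Quotient.inductionOn
      induction q using Quotient.inductionOn
      intro h
      exact (key _ _).mpr (by simpa [f] using h)
    · intro b
      by_cases hb : b
      · exact ⟨Quotient.mk _ (x, y), by simp [f, hxy, hb]⟩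
      · exact ⟨Quotient.mk _ (x', y'), by simp [f, hxy', hb]⟩
  rw [Nat.card_congr (Equiv.ofBijective f hf)]
  simp

/-- If there are two orbits on `X × Y` then every invariant relation separates them. -/
theorem two_orbits {G X Y : Type*} [Group G] [MulAction G X] [MulAction G Y]
    [Finite X] [Finite Y] (R : X → Y → Prop) (inv : ∀ (g : G) x y, R (g • x) (g • y) ↔ R x y)
    (hc : Nat.card (Quotient (orbitRel G (X × Y))) = 2)
    (x y x' y') (hxy : R x y) (hxy' : ¬ R x' y') (a b c d) (h : R a b ↔ R c d) :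
    ∃ g : G, g • a = c ∧ g • b = d := by
  classical
  haveI : Fintype (Quotient (orbitRel G (X × Y))) := Fintype.ofFinite _
  have hne : ∀ p q : X × Y, Quotient.mk (orbitRel G (X × Y)) p = Quotient.mk _ q →
      (R p.1 p.2 ↔ R q.1 q.2) := by
    rintro ⟨a, b⟩ ⟨c, d⟩ h
    rw [Quotient.eq] at h
    obtain ⟨g, hg⟩ := h
    simp only [Prod.smul_mk, Prod.mk.injEq] at hg
    obtain ⟨rfl, rfl⟩ := hg
    exact inv g c d
  have key : Quotient.mk (orbitRel G (X × Y)) (c, d) = Quotient.mk _ (a, b) := by
    by_contra hcd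
    rw [Nat.card_eq_fintype_card] at hc
    have h3 : ({Quotient.mk (orbitRel G (X × Y)) (a, b), Quotient.mk _ (c, d),
        (if R a b then Quotient.mk _ (x', y') else Quotient.mk _ (x, y))} :
        Finset (Quotient (orbitRel G (X × Y)))).card = 3 := by
      rw [Finset.card_eq_three]
      refine ⟨_, _, _, fun h => hcd h.symm, ?_, ?_, rfl⟩
      · split_ifs with hR
        · intro h5
          exact hxy' ((hne _ _ h5).mp hR)
        · intro h5
          exact hR ((hne _ _ h5).mpr hxy)
      · split_ifs with hR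
        · intro h5
          exact hxy' ((hne _ _ h5).mp (h.mp hR))
        · intro h5
          exact hR (h.mpr ((hne _ _ h5).mpr hxy))
    have := Finset.card_le_univ ({Quotient.mk (orbitRel G (X × Y)) (a, b), Quotient.mk _ (c, d),
        (if R a b then Quotient.mk _ (x', y') else Quotient.mk _ (x, y))} :
        Finset (Quotient (orbitRel G (X × Y))))
    omega
  rw [Quotient.eq] at key
  obtain ⟨g, hg⟩ := key
  simp only [Prod.smul_mk, Prod.mk.injEq] at hg
  exact ⟨g, hg⟩

end Orbits

/-- Construction of `Des` from a group 2-transitive on points of a symmetric design. -/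
theorem Des.of {G P Q : Type*} [Group G] [Finite G] [MulAction G P] [MulAction G Q] [Finite P]
    [Finite Q] (I : P → Q → Prop) (v k l : ℕ)
    (inv : ∀ (g : G) x B, I (g • x) (g • B) ↔ I x B) (cardP : Nat.card P = v)
    (cardQ : Nat.card Q = v) (kP : ∀ B, Set.ncard {x | I x B} = k)
    (lP : ∀ x y, x ≠ y → Set.ncard {B | I x B ∧ I y B} = l)
    (tP : ∀ x y x' y' : P, x ≠ y → x' ≠ y' → ∃ g : G, g • x = x' ∧ g • y = y')
    (k2 : 2 ≤ k) (kv : k + 2 ≤ v) : Des G P Q I v k l := by
  classical
  haveI := Fintype.ofFinite P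
  haveI := Fintype.ofFinite Q
  haveI := Fintype.ofFinite G
  have hP : Fintype.card P = v := by rw [← Nat.card_eq_fintype_card, cardP]
  have hQ : Fintype.card Q = v := by rw [← Nat.card_eq_fintype_card, cardQ]
  have hc : Fintype.card P = Fintype.card Q := by rw [hP, hQ]
  haveI : Nontrivial P := Fintype.one_lt_card_iff_nontrivial.mp (by omega)
  haveI : Nontrivial Q := Fintype.one_lt_card_iff_nontrivial.mp (by omega)
  -- transitivity
  have t1 : ∀ x x' : P, ∃ g : G, g • x = x' := by
    intro x x'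
    obtain ⟨y, hy⟩ := exists_ne x
    obtain ⟨y', hy'⟩ := exists_ne x'
    obtain ⟨g, h1, -⟩ := tP x y x' y' hy.symm hy'.symm
    exact ⟨g, h1⟩
  have hr : ∀ x x' : P, Set.ncard {B | I x B} = Set.ncard {B | I x' B} := by
    intro x x'
    obtain ⟨g, rfl⟩ := t1 x x'
    rw [← Set.ncard_image_of_injective {B | I x B} (MulAction.injective g)]
    congr 1
    ext B
    simp only [Set.mem_image, Set.mem_setOf_eq]
    constructor
    · rintro ⟨C, hC, rfl⟩
      exact (inv g x C).mpr hC
    · intro hB
      refine ⟨g⁻¹ • B, ?_, by simp⟩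
      rw [← inv g]
      simpa using hB
  have kQ : ∀ x, Set.ncard {B | I x B} = k := by
    intro x
    have h1 := flag_count I k kP
    rw [Finset.sum_congr rfl (g := fun _ => Set.ncard {B | I x B}) (fun y _ => hr y x),
      Finset.sum_const, Finset.card_univ, smul_eq_mul, hc] at h1
    exact Nat.eq_of_mul_eq_mul_left (by omega) h1
  obtain ⟨x0⟩ : Nonempty P := inferInstance
  have hpc := pair_count I k l kP kQ lP x0
  have hlk : l < k := by
    by_contra hlk
    rw [not_lt] at hlk
    have h1 : (k : ℚ) ≤ l := by exact_mod_cast hlk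
    have h2 : (k : ℚ) + 2 ≤ Fintype.card P := by rw [hP]; exact_mod_cast kv
    have h3 : (2 : ℚ) ≤ k := by exact_mod_cast k2
    nlinarith
  have hk0 : 0 < k := by omega
  have hfix : ∀ g : G, Set.ncard (fixedBy P g) = Set.ncard (fixedBy Q g) := by
    intro g
    exact fix_eq I k l hk0 hlk hc kQ lP (MulAction.toPerm g) (MulAction.toPerm g)
      (fun x B => inv g x B)
  -- flags and antiflags
  obtain ⟨B0⟩ : Nonempty Q := inferInstance
  obtain ⟨x1, hx1⟩ : ∃ x, I x B0 := by
    by_contra h
    push Not at h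
    have : {x | I x B0} = ∅ := by ext x; simp [h x]
    have h2 := kP B0
    rw [this, Set.ncard_empty] at h2
    omega
  obtain ⟨x2, hx2⟩ : ∃ x, ¬ I x B0 := by
    by_contra h
    push Not at h
    have : {x | I x B0} = Set.univ := by ext x; simp [h x]
    have h2 := kP B0
    rw [this, Set.ncard_univ, cardP] at h2
    omega
  -- orbit numbers
  have o1 : Nat.card (Quotient (orbitRel G (P × P))) = 2 := by
    obtain ⟨a, b, hab⟩ := exists_pair_ne P
    refine orbits_two (fun x y => x = y) (fun g x y => by simp) ?_ ?_ a a a b rfl hab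
    · rintro x y x' y' rfl rfl
      obtain ⟨g, hg⟩ := t1 x x'
      exact ⟨g, hg, hg⟩
    · intro x y x' y' h h'
      exact tP x y x' y' h h'
  have e1 := orbits_prod G P P
  have e2 := orbits_prod G P Q
  have e3 := orbits_prod G Q Q
  simp only [hfix] at e1 e2 e3
  have hG : 0 < Nat.card G := Nat.card_pos
  have o2 : Nat.card (Quotient (orbitRel G (P × Q))) = 2 := by
    rw [o1] at e1
    rw [e1] at e2
    exact (Nat.eq_of_mul_eq_mul_right hG e2).symm
  have o3 : Nat.card (Quotient (orbitRel G (Q × Q))) = 2 := by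
    rw [o1] at e1
    rw [e1] at e3
    exact (Nat.eq_of_mul_eq_mul_right hG e3).symm
  refine ⟨inv, cardP, cardQ, kP, kQ, lP, dual_lambda I k l hk0 hlk hc kP kQ lP, hfix, tP, ?_, ?_,
    ?_, k2, kv⟩
  · intro x y x' y' h h'
    obtain ⟨a, b, hab⟩ := exists_pair_ne Q
    exact two_orbits (fun x y => x = y) (fun g x y => by simp) o3 a a a b rfl hab x y x' y'
      (by simp [h, h'])
  · intro x B x' B' h h'
    exact two_orbits I inv o2 x1 B0 x2 B0 hx1 hx2 x B x' B' (by simp [h, h'])
  · intro x B x' B' h h'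
    exact two_orbits I inv o2 x1 B0 x2 B0 hx1 hx2 x B x' B' (by simp [h, h'])

end Cfsg.Agent.Ito
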