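import Cfsg.Agent.Ito.Lines

/-!
# Commutator relations of elations
-/

set_option autoImplicit false
set_option linter.unusedSectionVars false

namespace Cfsg.Agent.Ito

open MulAction Cfsg
open scoped commutatorElement

namespace Des

variable {G : Type*} {P Q : Type*} [Group G] [MulAction G P] [MulAction G Q]
  {I : P → Q → Prop} {v k l q c : ℕ} [Finite P] [Finite Q] {N : Q → Subgroup G}
  [Finite G] [FaithfulSMul G P]

theorem comm_mem' (D : Des G P Q I v k l) (E : Ela I N v k l q c) {z : P} {B C : Q} {g n : G}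
    (hB : I z B) (hg : g ∈ U I N z C) (hn : n ∈ N B) : ⁅g, n⁆ ∈ U I N z B :=
  D.comm_mem E hB hg hn

/-- The inverse maps of left multiplications come from the opposite group. -/
theorem inv_left (D : Des G P Q I v k l) (E : Ela I N v k l q c) {z y : P} {B C C' : Q}
    (hzB : I z B) (hyB : I y B) (hzC : I z C) (hyC : ¬ I y C) (hyC' : I y C')
    (hzC' : ¬ I z C') {g : G} (hg : g ∈ U I N z C) (hg1 : g ≠ 1) :
    ∃ g' ∈ U I N y C', ∀ w ∈ U I N y B, ⁅g', ⁅g, w⁆⁆ = w := by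
  have hzy : z ≠ y := fun e => hyC (e ▸ hzC)
  have hgB : g • B = B := hg.2 B hzB
  set x := g • y with hx
  have hxL : x ∈ Ln I z y := by
    intro C1 h2 h3
    exact D.inc_smul (hg.2 C1 h2) h3
  have hxy : x ≠ y := fun e => hg1 (E.fam.semi C g hg.1 y hyC e)
  have hxz : x ≠ z := by
    intro h3
    rw [hx, ← smul_U E hzC hg] at h3
    exact hzy (MulAction.injective g h3).symm
  obtain ⟨g', hg', hg'z⟩ := D.U_line E hyC' hzC' (Ln_comm (I := I) z y ▸ hxL) hxy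
  have hg'B : g' • B = B := hg'.2 B hyB
  refine ⟨g', hg', fun w hw => ?_⟩
  have h1 : g * w * g⁻¹ ∈ U I N x B := D.U_conj E.fam hx.symm hgB hw
  have hz' : g'⁻¹ • x = z := by rw [← hg'z, inv_smul_smul]
  have hB' : g'⁻¹ • B = B := by rw [inv_smul_eq_iff, hg'B]
  have h2 := D.U_conj E.fam hz' hB' h1
  set w0 := g'⁻¹ * (g * w * g⁻¹) * g'⁻¹⁻¹ with hw0
  have h3 : ⁅g', w0⁆ ∈ U I N y B := D.comm_mem E hyB hg' h2.1
  have h4 : ⁅g, w⁆ ∈ U I N z B := D.comm_mem E hzB hg hw.1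
  have h5 : ⁅g, w⁆ * w = ⁅g', w0⁆ * w0 := by
    rw [commutatorElement_def, commutatorElement_def, hw0]
    group
  have h6 : ⁅g, w⁆ * w0⁻¹ = ⁅g', w0⁆ * w⁻¹ := by
    rw [mul_inv_eq_iff_eq_mul, mul_assoc, E.ab B _ (inv_mem hw.1) _ h2.1, ← mul_assoc, ← h5,
      mul_inv_cancel_right]
  have h7 : ⁅g, w⁆ * w0⁻¹ = 1 := by
    apply D.U_inf E hzy (mul_mem h4 (inv_mem h2))
    rw [h6]
    exact mul_mem h3 (inv_mem hw)
  rw [h7] at h6
  have h8 := mul_inv_eq_one.mp h7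
  have h9 := mul_inv_eq_one.mp h6.symm
  rw [h8, h9]

/-- The inverse maps of right multiplications come from the opposite group. -/
theorem inv_right (D : Des G P Q I v k l) (E : Ela I N v k l q c) {z y w : P} {B C : Q}
    (hzB : I z B) (hyB : I y B) (hzC : I z C) (hyC : ¬ I y C) (hwC : I w C) (hwB : ¬ I w B)
    {b : G} (hb : b ∈ U I N y B) (hb1 : b ≠ 1) :
    ∃ c' ∈ U I N w C, ∀ g ∈ U I N z C, ⁅⁅g, b⁆, c'⁆ = g := by
  have hBC : B ≠ C := fun e => hyC (e ▸ hyB)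
  have hbz : b • z = z := E.fam.le B hb.1 z hzB
  set C1 := b⁻¹ • C with hC1
  have hzC1 : I z C1 := by
    rw [hC1, ← D.inv b, hbz, smul_inv_smul]
    exact hzC
  have hne : C1 ≠ C := by
    intro e
    rw [hC1] at e
    exact hb1 (inv_eq_one.mp (D.U_eq_one E (inv_mem hb) e hyC))
  obtain ⟨c'', hc'', hc1⟩ := D.U_dual_line E hwC hwB (C' := C1) hne (by
    intro x hx hxB
    rw [hC1, ← D.inv b, smul_inv_smul, E.fam.le B hb.1 x hxB]
    exact hx)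
  -- `c'' B = C1`
  refine ⟨c''⁻¹, inv_mem hc'', fun g hg => ?_⟩
  have hb' : b⁻¹ • z = z := by rw [inv_smul_eq_iff, hbz]
  have h1 : b⁻¹ * g * b⁻¹⁻¹ ∈ U I N z C1 := D.U_conj E.fam hb' rfl hg
  have hcz : c''⁻¹ • z = z := E.fam.le C (inv_mem hc''.1) z hzC
  have hcB : c''⁻¹ • C1 = B := by rw [← hc1, inv_smul_smul]
  have h2 := D.U_conj E.fam hcz hcB h1
  set u0 := c''⁻¹ * (b⁻¹ * g * b⁻¹⁻¹) * c''⁻¹⁻¹ with hu0
  have h3 : ⁅u0, c''⁻¹⁆ ∈ U I N z C := D.comm_mem E hzC h2 (inv_mem hc''.1)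
  have h4 : ⁅g, b⁆ ∈ U I N z B := D.comm_mem E hzB hg hb.1
  -- `b⁻¹ g b = ⁅g,b⁆ g`
  have h5 : b⁻¹ * g * b = ⁅g, b⁆ * g := by
    have h6 : b⁻¹ * ⁅g, b⁆ = ⁅g, b⁆ * b⁻¹ := E.ab B _ (inv_mem hb.1) _ h4.1
    calc b⁻¹ * g * b = b⁻¹ * ⁅g, b⁆ * b * g := by rw [commutatorElement_def]; group
      _ = ⁅g, b⁆ * g := by rw [h6]; group
  have h6 : b⁻¹ * g * b = ⁅u0, c''⁻¹⁆ * u0 := by
    have h7 : c'' * ⁅u0, c''⁻¹⁆ = ⁅u0, c''⁻¹⁆ * c'' := E.ab C _ hc''.1 _ h3.1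
    have h8 : b⁻¹ * g * b = c'' * u0 * c''⁻¹ := by rw [hu0]; group
    calc b⁻¹ * g * b = c'' * u0 * c''⁻¹ := h8
      _ = c'' * ⁅u0, c''⁻¹⁆ * c''⁻¹ * u0 := by rw [commutatorElement_def]; group
      _ = _ := by rw [h7]; group
  have hcomm : ∀ a ∈ U I N z B, ∀ d ∈ U I N z C, a * d = d * a := fun a ha d hd =>
    (D.U_commute E hBC hzB hzC hd ha).symm
  have h7 : ⁅g, b⁆ * g = u0 * ⁅u0, c''⁻¹⁆ := by
    rw [← h5, h6, hcomm u0 h2 _ h3]
  have h8 : u0⁻¹ * ⁅g, b⁆ = ⁅u0, c''⁻¹⁆ * g⁻¹ := by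
    rw [inv_mul_eq_iff_eq_mul, ← mul_assoc, ← h7, mul_inv_cancel_right]
  have h9 : u0⁻¹ * ⁅g, b⁆ = 1 := by
    apply D.ker_inf hBC
    · exact U_le_ker E (mul_mem (inv_mem h2) h4)
    · rw [h8]
      exact U_le_ker E (mul_mem h3 (inv_mem hg))
  rw [h9] at h8
  have h10 := inv_mul_eq_one.mp h9
  have h11 := mul_inv_eq_one.mp h8.symm
  rw [← h10, h11]

/-- Monodromy. -/
theorem exists_mono (D : Des G P Q I v k l) (E : Ela I N v k l q c) {i j j' : P} {B : Q}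
    (hi : I i B) (hj : I j B) (hj' : I j' B) (hjj' : j ≠ j') (hL : j' ∉ Ln I i j) (hij : i ≠ j) :
    ∃ g : G, g • B = B ∧ g • j = j' ∧ ∀ w ∈ U I N i B, g * w * g⁻¹ = w := by
  -- a third point on the line
  obtain ⟨x, hx, hxj, hxj'⟩ : ∃ x ∈ Ln I j j', x ≠ j ∧ x ≠ j' := by
    have h1 := (D.line_main E hjj').1
    have h2 := E.q2
    have h3 : 0 < (Ln I j j' \ {j, j'}).ncard := by
      rw [Set.ncard_diff]
      · rw [Set.ncard_pair hjj', h1]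
        omega
      · intro a ha
        rcases ha with rfl | rfl
        · exact left_mem_Ln _ _
        · exact right_mem_Ln _ _
    obtain ⟨x, hx, hx2⟩ := (Set.ncard_pos (Set.toFinite _)).mp h3
    simp only [Set.mem_insert_iff, Set.mem_singleton_iff, not_or] at hx2
    exact ⟨x, hx, hx2.1, hx2.2⟩
  have hxB : I x B := hx B hj hj'
  have hix : i ≠ x := by
    rintro rfl
    apply hL
    rw [D.Ln_eq hjj' hij hx (left_mem_Ln _ _)]
    exact right_mem_Ln _ _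
  -- a block through `i`, `x` and not `j`
  obtain ⟨C, hiC, hxC, hjC⟩ : ∃ C, I i C ∧ I x C ∧ ¬ I j C := by
    by_contra hc
    push Not at hc
    have hjL : j ∈ Ln I i x := hc
    apply hL
    rw [D.Ln_eq hix hij (left_mem_Ln _ _) hjL]
    intro C' h1 h2
    have h3 := hc C' h1 h2
    have h4 := D.Ln_eq hjj' hxj.symm (left_mem_Ln _ _) hx
    have h5 : j' ∈ Ln I j x := by rw [h4]; exact right_mem_Ln _ _
    exact h5 C' h3 h2
  have hj'L : j' ∈ Ln I x j := by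
    rw [D.Ln_eq hjj' hxj hx (left_mem_Ln _ _)]
    exact right_mem_Ln _ _
  obtain ⟨g, hg, hgj⟩ := D.U_line E hxC hjC hj'L hxj'.symm
  refine ⟨g, hg.2 B hxB, hgj, fun w hw => ?_⟩
  have hBC : B ≠ C := fun e => hjC (e ▸ hj)
  have := D.U_commute E hBC hxB hiC hg hw
  rw [this, mul_inv_cancel_right]

end Des

end Cfsg.Agent.Ito
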