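import Cfsg.Agent.Ito.Spread

/-!
# The kernel field of a spread and coordinates
-/

set_option autoImplicit false
set_option linter.unusedSectionVars false

namespace Cfsg.Agent.Ito

namespace Spread

variable {ι V : Type*} [AddCommGroup V] {W : ι → AddSubgroup V} {q : ℕ} [Finite V]

/-- The kernel. -/
def kern (W : ι → AddSubgroup V) : Subring (AddMonoid.End V) where
  carrier := {Φ | ∀ t, ∀ x ∈ W t, Φ x ∈ W t}
  mul_mem' := fun {a b} ha hb t x hx => ha t _ (hb t x hx)
  one_mem' := fun t x hx => hx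
  add_mem' := fun {a b} ha hb t x hx => add_mem (ha t x hx) (hb t x hx)
  zero_mem' := fun t x _ => zero_mem _
  neg_mem' := fun {a} ha t x hx => neg_mem (ha t x hx)

theorem kern_inj (S : Spread W q) {i j : ι} (hij : i ≠ j) {Φ : AddMonoid.End V}
    (hΦ : Φ ∈ kern W) {u : V} (hu0 : u ≠ 0) (h : Φ u = 0) : Φ = 0 := by
  have h1 : Kr W ⊤ Φ := ⟨fun v _ w _ => map_add Φ v w, fun v _ t ht => hΦ t v ht⟩
  have h2 : Kr W ⊤ (fun _ => (0 : V)) :=
    ⟨fun v _ w _ => (add_zero _).symm, fun v _ t _ => zero_mem _⟩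
  have h3 := S.uniq h1 h2 (u := u) trivial hu0 h ⟨i, j, hij, le_top, le_top⟩
  ext v
  exact h3 v trivial

theorem exists_field (S : Spread W q) {i j : ι} (hij : i ≠ j)
    (htr : ∀ t, ∀ u ∈ W t, u ≠ 0 → ∀ u' ∈ W t, ∃ Φ : V →+ V,
      (∀ t, ∀ x ∈ W t, Φ x ∈ W t) ∧ Φ u = u') :
    ∃ (F : Type) (_ : Field F) (_ : Fintype F) (m : ℕ) (e : V ≃+ (Fin m → F)),
      Fintype.card F = q ∧ 2 ≤ m ∧
      ∀ t, ∀ u ∈ W t, u ≠ 0 → ∀ x, x ∈ W t ↔ ∃ a : F, e x = a • e u := by
  classical
  haveI : Finite (AddMonoid.End V) := DFunLike.finite _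
  obtain ⟨u0, hu0, hu00⟩ := S.exists_ne_zero i
  haveI : Nontrivial (kern W) := ⟨⟨1, 0, fun e => hu00 (by
    have := DFunLike.congr_fun (congrArg Subtype.val e) u0
    exact this)⟩⟩
  haveI : NoZeroDivisors (kern W) := ⟨by
    rintro ⟨a, ha⟩ ⟨b, hb⟩ hab
    have h1 : a (b u0) = 0 := DFunLike.congr_fun (congrArg Subtype.val hab) u0
    by_cases hb0 : b u0 = 0
    · right
      exact Subtype.ext (S.kern_inj hij hb hu00 hb0)
    · left
      exact Subtype.ext (S.kern_inj hij ha hb0 h1)⟩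
  haveI : IsDomain (kern W) := NoZeroDivisors.to_isDomain _
  have hF : IsField (kern W) := Finite.isDomain_to_isField _
  letI : Field (kern W) := hF.toField
  haveI : Small.{0} (kern W) := Countable.toSmall _
  let F := Shrink.{0} (kern W)
  let re : F ≃+* kern W := Shrink.ringEquiv _
  letI : Module F V :=
    { smul := fun a x => ((re a : kern W) : AddMonoid.End V) x
      one_smul := fun x => by
        change ((re 1 : kern W) : AddMonoid.End V) x = x
        rw [map_one]; rfl
      mul_smul := fun a b x => by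
        change ((re (a * b) : kern W) : AddMonoid.End V) x = _
        rw [map_mul]; rfl
      smul_zero := fun a => map_zero _
      smul_add := fun a x y => map_add _ x y
      add_smul := fun a b x => by
        change ((re (a + b) : kern W) : AddMonoid.End V) x = _
        rw [map_add]; rfl
      zero_smul := fun x => by
        change ((re 0 : kern W) : AddMonoid.End V) x = 0
        rw [map_zero]; rfl }
  have hsm : ∀ (a : F) x, a • x = ((re a : kern W) : AddMonoid.End V) x := fun a x => rfl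
  haveI : Fintype F := Fintype.ofFinite _
  haveI : Module.Finite F V := Module.Finite.of_finite
  have hW : ∀ t, ∀ u ∈ W t, u ≠ 0 → ∀ x, x ∈ W t ↔ ∃ a : F, x = a • u := by
    intro t u hu hu0 x
    constructor
    · intro hx
      obtain ⟨Φ, h1, h2⟩ := htr t u hu hu0 x hx
      refine ⟨re.symm ⟨Φ, h1⟩, ?_⟩
      rw [hsm, RingEquiv.apply_symm_apply]
      exact h2.symm
    · rintro ⟨a, rfl⟩
      rw [hsm]
      exact (re a).2 t u hu
  have hcard : Fintype.card F = q := by
    rw [← S.card i, ← Nat.card_eq_fintype_card]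
    refine Nat.card_congr (Equiv.ofBijective (fun a => ⟨a • u0, (hW i u0 hu0 hu00 _).mpr ⟨a, rfl⟩⟩)
      ⟨?_, ?_⟩)
    · intro a b hab
      exact smul_left_injective F hu00 (congrArg Subtype.val hab)
    · rintro ⟨x, hx⟩
      obtain ⟨a, rfl⟩ := (hW i u0 hu0 hu00 x).mp hx
      exact ⟨a, rfl⟩
  let bs := Module.finBasis F V
  refine ⟨F, inferInstance, inferInstance, Module.finrank F V, bs.equivFun.toAddEquiv, hcard, ?_,
    ?_⟩
  · obtain ⟨u1, hu1, hu10⟩ := S.exists_ne_zero j
    by_contra hlt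
    have h1 : Module.finrank F V ≤ 1 := by omega
    rw [finrank_le_one_iff] at h1
    obtain ⟨w, hw⟩ := h1
    obtain ⟨a, ha⟩ := hw u0
    obtain ⟨b, hb⟩ := hw u1
    have hb0 : b ≠ 0 := by
      rintro rfl
      rw [zero_smul] at hb
      exact hu10 hb.symm
    have h2 : u0 = (a * b⁻¹) • u1 := by
      rw [← hb, smul_smul, mul_assoc, inv_mul_cancel₀ hb0, mul_one, ha]
    have h3 : u0 ∈ W j := (hW j u1 hu1 hu10 u0).mpr ⟨_, h2⟩
    exact hu00 (S.disj i j u0 hij hu0 h3)
  · intro t u hu hu0 x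
    rw [hW t u hu hu0 x]
    constructor
    · rintro ⟨a, rfl⟩
      exact ⟨a, bs.equivFun.map_smul a u⟩
    · rintro ⟨a, ha⟩
      refine ⟨a, bs.equivFun.injective ?_⟩
      rw [bs.equivFun.map_smul]
      exact ha

end Spread

end Cfsg.Agent.Ito
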