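import Cfsg.Agent.Ito.Arith

/-!
# Lines and elations
-/

set_option autoImplicit false
set_option linter.unusedSectionVars false

namespace Cfsg.Agent.Ito

open MulAction Cfsg

/-- The line through `x` and `y`. -/
def Ln {P Q : Type*} (I : P → Q → Prop) (x y : P) : Set P := {z | ∀ C, I x C → I y C → I z C}

namespace Des

variable {G : Type*} {P Q : Type*} [Group G] [MulAction G P] [MulAction G Q]
  {I : P → Q → Prop} {v k l q c : ℕ} [Finite P] [Finite Q] {N : Q → Subgroup G}

theorem mem_Ln {x y z : P} : z ∈ Ln I x y ↔ ∀ C, I x C → I y C → I z C := Iff.rfl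

theorem left_mem_Ln (x y : P) : x ∈ Ln I x y := fun _ h _ => h

theorem right_mem_Ln (x y : P) : y ∈ Ln I x y := fun _ _ h => h

theorem Ln_comm (x y : P) : Ln I x y = Ln I y x := by
  ext z
  exact ⟨fun h C h1 h2 => h C h2 h1, fun h C h1 h2 => h C h2 h1⟩

theorem Ln_blocks (D : Des G P Q I v k l) {x y a b : P} (hxy : x ≠ y) (hab : a ≠ b)
    (ha : a ∈ Ln I x y) (hb : b ∈ Ln I x y) : ∀ C, (I x C ∧ I y C) ↔ (I a C ∧ I b C) :=
  D.pair_eq hxy hab (fun C h1 h2 => ⟨ha C h1 h2, hb C h1 h2⟩)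

theorem Ln_eq (D : Des G P Q I v k l) {x y a b : P} (hxy : x ≠ y) (hab : a ≠ b)
    (ha : a ∈ Ln I x y) (hb : b ∈ Ln I x y) : Ln I a b = Ln I x y := by
  have h := D.Ln_blocks hxy hab ha hb
  ext z
  constructor
  · intro hz C h1 h2
    obtain ⟨h3, h4⟩ := (h C).mp ⟨h1, h2⟩
    exact hz C h3 h4
  · intro hz C h1 h2
    obtain ⟨h3, h4⟩ := (h C).mpr ⟨h1, h2⟩
    exact hz C h3 h4

theorem exists_block_two (D : Des G P Q I v k l) (x y : P) : ∃ B, I x B ∧ I y B := by
  by_cases hxy : x = y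
  · subst hxy
    have h1 := D.kQ x
    have h2 := D.k2
    obtain ⟨B, hB⟩ := (Set.ncard_pos (Set.toFinite _)).mp (by omega : 0 < Set.ncard {B | I x B})
    exact ⟨B, hB, hB⟩
  · have h1 := D.lP x y hxy
    have h2 := D.l_pos
    obtain ⟨B, hB⟩ := (Set.ncard_pos (Set.toFinite _)).mp
      (by omega : 0 < Set.ncard {B | I x B ∧ I y B})
    exact ⟨B, hB⟩

theorem exists_sep (D : Des G P Q I v k l) {x y : P} (hxy : x ≠ y) : ∃ C, I x C ∧ ¬ I y C := by
  by_contra hc
  push Not at hc
  exact hxy (D.point_eq hc)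

theorem U_le_ker (E : Ela I N v k l q c) {z : P} {B : Q} {h : G} (hh : h ∈ U I N z B) :
    h ∈ ker G I B := E.fam.le B hh.1

theorem U_eq_one (D : Des G P Q I v k l) (E : Ela I N v k l q c) {z : P} {B C : Q} {h : G}
    (hh : h ∈ U I N z B) (hC : h • C = C) (hz : ¬ I z C) : h = 1 := by
  by_contra h1
  obtain ⟨w, -, hw⟩ := E.cen B h hh.1 h1
  have e : z = w := D.point_eq (fun C hC => (hw C).mp (hh.2 C hC))
  subst e
  exact hz ((hw C).mp hC)

theorem U_inf (D : Des G P Q I v k l) (E : Ela I N v k l q c) {z y : P} {B : Q} {h : G}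
    (hzy : z ≠ y) (h1 : h ∈ U I N z B) (h2 : h ∈ U I N y B) : h = 1 := by
  obtain ⟨C, hC, hC'⟩ := D.exists_sep hzy.symm
  exact D.U_eq_one E h1 (h2.2 C hC) hC'

theorem cen_unique (D : Des G P Q I v k l) (E : Ela I N v k l q c) {z y : P} {B : Q} {h : G}
    (hne : h ≠ 1) (h1 : h ∈ U I N z B) (h2 : h ∈ U I N y B) : z = y := by
  by_contra hzy
  exact hne (D.U_inf E hzy h1 h2)

theorem exists_cen (E : Ela I N v k l q c) {B : Q} {h : G} (hh : h ∈ N B) (h1 : h ≠ 1) :
    ∃ z, I z B ∧ h ∈ U I N z B := by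
  obtain ⟨z, hz, hz2⟩ := E.cen B h hh h1
  exact ⟨z, hz, hh, fun C hC => (hz2 C).mpr hC⟩

theorem smul_U (E : Ela I N v k l q c) {z : P} {B : Q} {h : G} (hB : I z B)
    (hh : h ∈ U I N z B) : h • z = z := E.fam.le B hh.1 z hB

/-- `N B` is regular off `B`. -/
theorem reg [Finite G] (D : Des G P Q I v k l) (E : Ela I N v k l q c) {B : Q} {x y : P}
    (hx : ¬ I x B) (hy : ¬ I y B) : ∃ h ∈ N B, h • x = y := by
  have h1 : (fun h : G => h • x) '' (N B : Set G) = {y | ¬ I y B} := by
    apply Set.eq_of_subset_of_ncard_le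
    · rintro _ ⟨h, hh, rfl⟩
      exact D.not_inc_smul (D.fam_smul E.fam hh) hx
    · rw [D.ncard_compl, Set.ncard_image_of_injOn]
      · have h2 := E.hv
        have h3 : (N B : Set G).ncard = q * c := E.num.cardN B
        rw [h3]
        omega
      · intro a ha b hb hab
        have h2 : (b⁻¹ * a) • x = x := by
          rw [mul_smul, inv_smul_eq_iff]
          exact hab
        have h3 := E.fam.semi B _ (mul_mem (inv_mem hb) ha) x hx h2
        exact (inv_mul_eq_one.mp h3).symm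
    · exact Set.toFinite _
  have h2 : y ∈ {y | ¬ I y B} := hy
  rw [← h1] at h2
  obtain ⟨h, hh, e⟩ := h2
  exact ⟨h, hh, e⟩

open Classical in
/-- A line has `q+1` points, every block meets every line, and the "geometric" property. -/
theorem line_main [Finite G] (D : Des G P Q I v k l) (E : Ela I N v k l q c) {x y : P}
    (hxy : x ≠ y) : (Ln I x y).ncard = q + 1 ∧ (∀ C, ∃ z ∈ Ln I x y, I z C) ∧
      ∀ B, I x B → I y B → ∀ z ∈ Ln I x y, ∀ h ∈ U I N z B,
        ∃ a ∈ U I N x B, ∃ b ∈ U I N y B, h = a * b := by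
  haveI := Fintype.ofFinite P
  haveI := Fintype.ofFinite Q
  haveI := Fintype.ofFinite G
  have hq := E.q2
  have hc := E.c2
  have hv := E.hv
  have hk := E.hk
  set L := Ln I x y with hL
  -- blocks
  have hdisj : ∀ z ∈ L, ∀ z' ∈ L, z ≠ z' →
      Disjoint {C | I z C ∧ ¬ (I x C ∧ I y C)} {C | I z' C ∧ ¬ (I x C ∧ I y C)} := by
    intro z hz z' hz' hne
    rw [Set.disjoint_left]
    rintro C ⟨h1, h2⟩ ⟨h3, -⟩
    exact h2 ((D.Ln_blocks hxy hne hz hz' C).mpr ⟨h1, h3⟩)
  have hterm : ∀ z ∈ L, Set.ncard {C | I z C ∧ ¬ (I x C ∧ I y C)} = c := by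
    intro z hz
    have h1 : {C | I z C ∧ ¬ (I x C ∧ I y C)} = {C | I z C} \ {C | I x C ∧ I y C} := rfl
    have h2 : {C | I x C ∧ I y C} ⊆ {C | I z C} := fun C hC => hz C hC.1 hC.2
    rw [h1, Set.ncard_diff h2 (Set.toFinite _), D.kQ, D.lP x y hxy]
    omega
  have hbU : ∑ z ∈ L.toFinset, Set.ncard {C | I z C ∧ ¬ (I x C ∧ I y C)} = L.ncard * c := by
    rw [Finset.sum_congr rfl (fun z hz => hterm z (by simpa using hz)), Finset.sum_const,
      smul_eq_mul, ← Set.ncard_eq_toFinset_card']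
  let Bu : Finset Q := L.toFinset.biUnion (fun z => {C | I z C ∧ ¬ (I x C ∧ I y C)}.toFinset)
  have hBu : Bu.card = L.ncard * c := by
    rw [← hbU, Finset.card_biUnion]
    · refine Finset.sum_congr rfl fun z _ => ?_
      rw [Set.ncard_eq_toFinset_card']
    · intro z hz z' hz' hne
      have := hdisj z (by simpa using hz) z' (by simpa using hz') hne
      rwa [← Set.disjoint_toFinset] at this
  have hsub : Bu ⊆ {C | ¬ (I x C ∧ I y C)}.toFinset := by
    intro C hC
    simp only [Bu, Finset.mem_biUnion, Set.mem_toFinset, Set.mem_setOf_eq] at hC ⊢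
    obtain ⟨z, -, -, h⟩ := hC
    exact h
  have hcc : ({C | ¬ (I x C ∧ I y C)}.toFinset).card = (q + 1) * c := by
    rw [← Set.ncard_eq_toFinset_card']
    have h1 : {C | ¬ (I x C ∧ I y C)} = {C | I x C ∧ I y C}ᶜ := rfl
    rw [h1, Set.ncard_compl, D.lP x y hxy, D.cardQ, hv, hk]
    have : l + c + q * c - l = q * c + c := by omega
    rw [this]; ring
  have hup : L.ncard ≤ q + 1 := by
    have h1 := Finset.card_le_card hsub
    rw [hBu, hcc] at h1
    exact Nat.le_of_mul_le_mul_right h1 (by omega)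
  -- group side
  have hgrp : ∀ B, I x B → I y B → L.ncard = q + 1 ∧ ∀ z ∈ L, ∀ h ∈ U I N z B,
        ∃ a ∈ U I N x B, ∃ b ∈ U I N y B, h = a * b := by
    intro B hxB hyB
    let Z : P → Finset G := fun z => (Finset.univ.filter (fun h => h ∈ U I N z B)).erase 1
    have hZ : ∀ z ∈ L, (Z z).card = q - 1 := by
      intro z hz
      have h1 := E.cardU z B (hz B hxB hyB)
      rw [Nat.card_eq_fintype_card, Fintype.card_subtype] at h1
      simp only [Z]
      rw [Finset.card_erase_of_mem, h1]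
      simp [one_mem]
    have hcardU : ∀ z, I z B → (Finset.univ.filter (fun h => h ∈ U I N z B)).card = q := by
      intro z hz
      rw [← E.cardU z B hz, Nat.card_eq_fintype_card, Fintype.card_subtype]
    let PP : Finset G := ((Finset.univ.filter (fun h => h ∈ U I N x B)) ×ˢ
      (Finset.univ.filter (fun h => h ∈ U I N y B))).image (fun p => p.1 * p.2)
    have hPP : PP.card = q * q := by
      rw [Finset.card_image_of_injOn, Finset.card_product, hcardU x hxB, hcardU y hyB]
      rintro ⟨a, b⟩ hab ⟨a', b'⟩ hab' he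
      simp only [Finset.coe_product, Finset.coe_filter, Finset.mem_univ, true_and, Set.mem_prod,
        Set.mem_setOf_eq] at hab hab' he
      have h1 : a'⁻¹ * a = b' * b⁻¹ := by
        rw [inv_mul_eq_iff_eq_mul, ← mul_assoc, ← he]
        simp
      have h2 : a'⁻¹ * a = 1 := by
        apply D.U_inf E hxy (mul_mem (inv_mem hab'.1) hab.1)
        rw [h1]
        exact mul_mem hab'.2 (inv_mem hab.2)
      rw [h2] at h1
      have h3 := (inv_mul_eq_one.mp h2).symm
      have h4 := (mul_inv_eq_one.mp h1.symm).symm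
      rw [h3, h4]
    have hsub2 : PP.erase 1 ⊆ L.toFinset.biUnion Z := by
      intro h hh
      simp only [PP, Finset.mem_erase, Finset.mem_image, Finset.mem_product, Finset.mem_filter,
        Finset.mem_univ, true_and] at hh
      obtain ⟨h1, ⟨a, b⟩, ⟨ha, hb⟩, rfl⟩ := hh
      simp only at ha hb h1
      obtain ⟨z, hz, hz2⟩ := E.cen B (a * b) (mul_mem ha.1 hb.1) h1
      simp only [Finset.mem_biUnion, Set.mem_toFinset, Z, Finset.mem_erase, Finset.mem_filter,
        Finset.mem_univ, true_and]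
      refine ⟨z, ?_, h1, mul_mem ha.1 hb.1, fun C hC => (hz2 C).mpr hC⟩
      intro C h2 h3
      rw [← hz2, mul_smul, hb.2 C h3, ha.2 C h2]
    have hbZ : (L.toFinset.biUnion Z).card = L.ncard * (q - 1) := by
      rw [Finset.card_biUnion]
      · rw [Finset.sum_congr rfl (fun z hz => hZ z (by simpa using hz)), Finset.sum_const,
          smul_eq_mul, ← Set.ncard_eq_toFinset_card']
      · intro z hz z' hz' hne
        rw [Function.onFun, Finset.disjoint_left]
        intro h hh hh'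
        simp only [Z, Finset.mem_filter, Finset.mem_univ, true_and, Finset.mem_erase] at hh hh'
        exact hh.1 (D.U_inf E hne hh.2 hh'.2)
    have h1P : (1 : G) ∈ PP := by
      simp only [PP, Finset.mem_image, Finset.mem_product, Finset.mem_filter,
        Finset.mem_univ, true_and]
      exact ⟨(1, 1), ⟨one_mem _, one_mem _⟩, by simp⟩
    have hPPe : (PP.erase 1).card = q * q - 1 := by
      rw [Finset.card_erase_of_mem h1P, hPP]
    have hle := Finset.card_le_card hsub2
    rw [hPPe, hbZ] at hle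
    have hL1 : L.ncard = q + 1 := by
      refine le_antisymm hup ?_
      obtain ⟨r, rfl⟩ : ∃ r, q = r + 1 := ⟨q - 1, by omega⟩
      simp only [Nat.add_sub_cancel] at hle
      have e : (r + 1) * (r + 1) - 1 = (r + 1 + 1) * r := by
        have : (r + 1) * (r + 1) = (r + 1 + 1) * r + 1 := by ring
        omega
      rw [e] at hle
      exact Nat.le_of_mul_le_mul_right hle (by omega)
    refine ⟨hL1, fun z hz h hh => ?_⟩
    by_cases h1 : h = 1
    · exact ⟨1, one_mem _, 1, one_mem _, by rw [h1, one_mul]⟩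
    have heq : PP.erase 1 = L.toFinset.biUnion Z := by
      apply Finset.eq_of_subset_of_card_le hsub2
      rw [hPPe, hbZ, hL1]
      obtain ⟨r, rfl⟩ : ∃ r, q = r + 1 := ⟨q - 1, by omega⟩
      simp only [Nat.add_sub_cancel]
      have : (r + 1) * (r + 1) = (r + 1 + 1) * r + 1 := by ring
      omega
    have hm : h ∈ L.toFinset.biUnion Z := by
      simp only [Finset.mem_biUnion, Set.mem_toFinset, Z, Finset.mem_erase, Finset.mem_filter,
        Finset.mem_univ, true_and]
      exact ⟨z, hz, h1, hh⟩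
    rw [← heq] at hm
    simp only [PP, Finset.mem_erase, Finset.mem_image, Finset.mem_product, Finset.mem_filter,
      Finset.mem_univ, true_and] at hm
    obtain ⟨-, ⟨a, b⟩, ⟨ha, hb⟩, he⟩ := hm
    exact ⟨a, ha, b, hb, he.symm⟩
  obtain ⟨B0, hx0, hy0⟩ := D.exists_block_two x y
  have hL1 := (hgrp B0 hx0 hy0).1
  refine ⟨hL1, ?_, fun B hx hy => (hgrp B hx hy).2⟩
  intro C
  by_cases hC : I x C ∧ I y C
  · exact ⟨x, left_mem_Ln x y, hC.1⟩
  · have heq : Bu = {C | ¬ (I x C ∧ I y C)}.toFinset := by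
      apply Finset.eq_of_subset_of_card_le hsub
      rw [hcc, hBu, hL1]
    have hm : C ∈ {C | ¬ (I x C ∧ I y C)}.toFinset := by
      simpa using hC
    rw [← heq] at hm
    simp only [Bu, Finset.mem_biUnion, Set.mem_toFinset, Set.mem_setOf_eq] at hm
    obtain ⟨z, hz, h, -⟩ := hm
    exact ⟨z, hz, h⟩

/-- `[U z C, N B] ≤ U z B`. -/
theorem comm_mem (D : Des G P Q I v k l) (E : Ela I N v k l q c) {z : P} {B C : Q} {g n : G}
    (hB : I z B) (hg : g ∈ U I N z C) (hn : n ∈ N B) : g * n * g⁻¹ * n⁻¹ ∈ U I N z B := by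
  have hgB : g • B = B := hg.2 B hB
  refine ⟨mul_mem (fam_conj E.fam hgB hn) (inv_mem hn), fun C' hC' => ?_⟩
  have h1 : I z (n⁻¹ • C') := by
    rw [← E.fam.le B (inv_mem hn) z hB, D.inv]
    exact hC'
  rw [mul_smul, mul_smul, mul_smul, (inv_mem hg).2 _ h1, smul_inv_smul, hg.2 _ hC']

/-- `U z C` commutes with `U y B` if `z ∈ B`, `y ∈ C`. -/
theorem U_commute [FaithfulSMul G P] (D : Des G P Q I v k l) (E : Ela I N v k l q c)
    {z y : P} {B C : Q} {g n : G} (hBC : B ≠ C) (hzB : I z B) (hyC : I y C)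
    (hg : g ∈ U I N z C) (hn : n ∈ U I N y B) : g * n = n * g :=
  (D.ker_comm hBC (U_le_ker E hn) (hn.2 C hyC) (U_le_ker E hg) (hg.2 B hzB)).symm

theorem U_comm_eq_one [FaithfulSMul G P] (D : Des G P Q I v k l) (E : Ela I N v k l q c)
    {z y : P} {B C : Q} {g n : G} (hyC : ¬ I y C)
    (hg : g ∈ U I N z C) (hn : n ∈ U I N y B) (h : g * n * g⁻¹ * n⁻¹ = 1) : g = 1 ∨ n = 1 := by
  have h1 : g * n = n * g := by
    rw [mul_inv_eq_one] at h
    exact mul_inv_eq_iff_eq_mul.mp h
  by_cases hnC : n • C = C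
  · right
    exact D.U_eq_one E hn hnC hyC
  · left
    have h2 : n * g * n⁻¹ ∈ ker G I (n • C) := D.conj_mem_ker (U_le_ker E hg) n
    rw [← h1, mul_inv_cancel_right] at h2
    exact D.ker_inf (fun e => hnC e.symm) (U_le_ker E hg) h2

/-- `U z C` is transitive on the points `≠ z` of a line through `z` not in `C`. -/
theorem U_line [Finite G] (D : Des G P Q I v k l) (E : Ela I N v k l q c) {z y x : P} {C : Q}
    (hzC : I z C) (hyC : ¬ I y C) (hx : x ∈ Ln I z y) (hxz : x ≠ z) :
    ∃ g ∈ U I N z C, g • y = x := by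
  have hzy : z ≠ y := fun e => hyC (e ▸ hzC)
  have h1 : (fun g : G => g • y) '' (U I N z C : Set G) = Ln I z y \ {z} := by
    apply Set.eq_of_subset_of_ncard_le
    · rintro _ ⟨g, hg, rfl⟩
      refine ⟨?_, ?_⟩
      · intro C' h2 h3
        exact D.inc_smul (hg.2 C' h2) h3
      · intro h2
        have h3 : g • y = z := h2
        rw [← smul_U E hzC hg] at h3
        exact hzy (MulAction.injective g h3).symm
    · rw [Set.ncard_diff (by simpa using left_mem_Ln z y) (Set.toFinite _),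
        (D.line_main E hzy).1, Set.ncard_singleton, Set.ncard_image_of_injOn]
      · have h3 : (U I N z C : Set G).ncard = q := E.cardU z C hzC
        rw [h3]
        omega
      · intro a ha b hb hab
        have h2 : (b⁻¹ * a) • y = y := by
          rw [mul_smul, inv_smul_eq_iff]
          exact hab
        have h3 := E.fam.semi C _ (mul_mem (inv_mem hb) ha).1 y hyC h2
        exact (inv_mul_eq_one.mp h3).symm
    · exact Set.toFinite _
  have h2 : x ∈ Ln I z y \ {z} := ⟨hx, hxz⟩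
  rw [← h1] at h2
  obtain ⟨h, hh, e⟩ := h2
  exact ⟨h, hh, e⟩

/-- `U y B` is transitive on the blocks `≠ B` containing `B ∩ C`, if `y ∉ C`. -/
theorem U_dual_line [Finite G] (D : Des G P Q I v k l) (E : Ela I N v k l q c) {y : P}
    {B C C' : Q} (hyB : I y B) (hyC : ¬ I y C) (hC' : C' ≠ B)
    (hs : ∀ x, I x B → I x C → I x C') : ∃ g ∈ U I N y B, g • C = C' := by
  have hBC : B ≠ C := fun e => hyC (e ▸ hyB)
  have h1 : (fun g : G => g • C) '' (U I N y B : Set G) = {E | ∃ h ∈ N B, h • C = E} := by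
    apply Set.eq_of_subset_of_ncard_le
    · rintro _ ⟨g, hg, rfl⟩
      exact ⟨g, hg.1, rfl⟩
    · rw [E.num.cardO B C hBC, Set.ncard_image_of_injOn]
      · exact (E.cardU y B hyB).ge
      · intro a ha b hb hab
        have h2 : (b⁻¹ * a) • C = C := by
          rw [mul_smul, inv_smul_eq_iff]
          exact hab
        have h3 := D.U_eq_one E (mul_mem (inv_mem hb) ha) h2 hyC
        exact (inv_mul_eq_one.mp h3).symm
    · exact Set.toFinite _
  have h2 : C' ∈ {E | ∃ h ∈ N B, h • C = E} := D.dual_line E.fam E.num hBC hC'.symm hs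
  rw [← h1] at h2
  obtain ⟨h, hh, e⟩ := h2
  exact ⟨h, hh, e⟩

end Des

end Cfsg.Agent.Ito
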