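import Cfsg.Agent.Ito.Semi

/-!
# The groups `N B` are `p`-groups; existence of an abelian family
-/

set_option autoImplicit false
set_option linter.unusedSectionVars false

namespace Cfsg.Agent.Ito

open MulAction Cfsg

namespace Des

variable {G : Type*} {P Q : Type*} [Group G] [MulAction G P] [MulAction G Q]
  {I : P → Q → Prop} {v k l : ℕ} [Finite P] [Finite Q] {N : Q → Subgroup G}

theorem fixedBy_fam (D : Des G P Q I v k l) (F : Fam I N) {B : Q} {h : G} (hh : h ∈ N B)
    (h1 : h ≠ 1) : Set.ncard (fixedBy Q h) = k := by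
  rw [← D.fix, ← D.kP B]
  congr 1
  ext x
  simp only [mem_fixedBy, Set.mem_setOf_eq]
  constructor
  · intro hx
    by_contra hxB
    exact h1 (F.semi B h hh x hxB hx)
  · intro hx
    exact F.le B hh x hx

theorem fam_smul (D : Des G P Q I v k l) (F : Fam I N) {B : Q} {h : G} (hh : h ∈ N B) :
    h • B = B := D.smul_eq_of_ker (F.le B hh)

open Classical in
theorem sum_fix (D : Des G P Q I v k l) [Fintype Q] (F : Fam I N) (B : Q) (T : Finset G)
    (hT : ∀ h ∈ T, h ∈ N B ∧ h ≠ 1) :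
    ∑ C ∈ Finset.univ.erase B, (T.filter (fun h => h • C = C)).card = T.card * (k - 1) := by
  simp only [Finset.card_filter]
  rw [Finset.sum_comm]
  rw [Finset.sum_congr rfl (g := fun _ => k - 1), Finset.sum_const, smul_eq_mul]
  intro h hh
  obtain ⟨hN, h1⟩ := hT h hh
  have h2 := D.fixedBy_fam F hN h1
  rw [Set.ncard_eq_toFinset_card'] at h2
  rw [← Finset.card_filter, ← h2]
  have h3 : (Finset.univ.erase B).filter (fun C => h • C = C)
      = (fixedBy Q h).toFinset.erase B := by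
    ext C
    simp [mem_fixedBy]
  rw [h3, Finset.card_erase_of_mem]
  simp only [Set.mem_toFinset, mem_fixedBy]
  exact D.fam_smul F hN

theorem fam_conj (F : Fam I N) {B C : Q} {g h : G} (hg : g • B = C) (hh : h ∈ N B) :
    g * h * g⁻¹ ∈ N C := hg ▸ F.conj g B h hh

theorem fam_conj_iff (F : Fam I N) {B C : Q} {g h : G} (hg : g • B = C) :
    g * h * g⁻¹ ∈ N C ↔ h ∈ N B := by
  constructor
  · intro hh
    have := F.conj g⁻¹ C _ hh
    rw [← hg, inv_smul_smul] at this
    simpa [mul_assoc] using this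
  · exact fam_conj F hg

/-- `|N B|` does not depend on `B`. -/
theorem fam_card (D : Des G P Q I v k l) (F : Fam I N) (B C : Q) :
    Nat.card (N B) = Nat.card (N C) := by
  obtain ⟨x, hx⟩ := D.exists_antiflag B
  obtain ⟨y, hy⟩ := D.exists_antiflag C
  obtain ⟨g, -, hg⟩ := D.tA x B y C hx hy
  have hg' : g⁻¹ • C = B := by rw [← hg, inv_smul_smul]
  refine Nat.card_congr ⟨fun h => ⟨g * h * g⁻¹, fam_conj F hg h.2⟩,
    fun h => ⟨g⁻¹ * h * g, ?_⟩, ?_, ?_⟩
  · have := fam_conj F hg' h.2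
    simpa using this
  · intro h
    apply Subtype.ext
    simp [mul_assoc]
  · intro h
    apply Subtype.ext
    simp [mul_assoc]

/-- `|(N B)_C|` does not depend on `B ≠ C`. -/
theorem fam_card_stab (D : Des G P Q I v k l) (F : Fam I N) {B C B' C' : Q} (h : B ≠ C)
    (h' : B' ≠ C') :
    Nat.card {h : N B // (h : G) • C = C} = Nat.card {h : N B' // (h : G) • C' = C'} := by
  obtain ⟨g, hg, hg1⟩ := D.tQ B C B' C' h h'
  have hg' : g⁻¹ • B' = B := by rw [← hg, inv_smul_smul]
  have hg1' : g⁻¹ • C' = C := by rw [← hg1, inv_smul_smul]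
  have m1 : ∀ h : {h : N B // (h : G) • C = C}, (g * (h.1 : G) * g⁻¹) ∈ N B' ∧
      (g * (h.1 : G) * g⁻¹) • C' = C' := by
    intro h
    refine ⟨fam_conj F hg h.1.2, ?_⟩
    rw [mul_smul, mul_smul, hg1', h.2, hg1]
  have m2 : ∀ h : {h : N B' // (h : G) • C' = C'}, (g⁻¹ * (h.1 : G) * g) ∈ N B ∧
      (g⁻¹ * (h.1 : G) * g) • C = C := by
    intro h
    refine ⟨by simpa using fam_conj F hg' h.1.2, ?_⟩
    rw [mul_smul, mul_smul, hg1, h.2, hg1']
  refine Nat.card_congr ⟨fun h => ⟨⟨_, (m1 h).1⟩, (m1 h).2⟩, fun h => ⟨⟨_, (m2 h).1⟩, (m2 h).2⟩,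
    ?_, ?_⟩
  · intro h
    apply Subtype.ext
    apply Subtype.ext
    simp [mul_assoc]
  · intro h
    apply Subtype.ext
    apply Subtype.ext
    simp [mul_assoc]

/-- Numerical data of a family. -/
structure Num (I : P → Q → Prop) (N : Q → Subgroup G) (b c : ℕ) : Prop where
  cardN : ∀ B, Nat.card (N B) = b * c
  cardS : ∀ B C, B ≠ C → Nat.card {h : N B // (h : G) • C = C} = c
  cardO : ∀ B C, B ≠ C → Set.ncard {C' | ∃ h ∈ N B, h • C = C'} = b

theorem exists_ne_block (D : Des G P Q I v k l) (B : Q) : ∃ C, C ≠ B := by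
  by_contra hc
  push Not at hc
  have h1 := D.cardQ
  have h2 := D.kv
  haveI : Subsingleton Q := ⟨fun a b => by rw [hc a, hc b]⟩
  haveI : Nonempty Q := ⟨B⟩
  have : Nat.card Q = 1 := Nat.card_unique
  omega

theorem orbit_card (B C : Q) :
    Set.ncard {C' | ∃ h ∈ N B, h • C = C'} * Nat.card {h : N B // (h : G) • C = C}
      = Nat.card (N B) := by
  have h1 : {C' | ∃ h ∈ N B, h • C = C'} = orbit (N B) C := by
    ext C'
    constructor
    · rintro ⟨h, hh, rfl⟩
      exact ⟨⟨h, hh⟩, rfl⟩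
    · rintro ⟨h, rfl⟩
      exact ⟨h, h.2, rfl⟩
  rw [h1]
  have h2 := Nat.card_congr (orbitProdStabilizerEquivGroup (N B) C)
  rw [Nat.card_prod] at h2
  exact h2

theorem exists_num [Finite G] (D : Des G P Q I v k l) (F : Fam I N) :
    ∃ b c, Num I N b c := by
  have hQ : Nonempty Q := by
    by_contra h
    rw [not_nonempty_iff] at h
    have h1 := D.cardQ
    rw [Nat.card_of_isEmpty] at h1
    have := D.kv
    omega
  obtain ⟨B0⟩ := hQ
  obtain ⟨C0, hC0⟩ := D.exists_ne_block B0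
  refine ⟨Set.ncard {C' | ∃ h ∈ N B0, h • C0 = C'}, Nat.card {h : N B0 // (h : G) • C0 = C0},
    ?_, ?_, ?_⟩
  · intro B
    rw [orbit_card, D.fam_card F B B0]
  · intro B C h
    exact D.fam_card_stab F h hC0.symm
  · intro B C h
    have h1 := orbit_card (N := N) B C
    have h2 := orbit_card (N := N) B0 C0
    rw [D.fam_card_stab F h hC0.symm, D.fam_card F B B0, ← h2] at h1
    refine Nat.eq_of_mul_eq_mul_right ?_ h1
    haveI : Nonempty {h : N B0 // (h : G) • C0 = C0} := ⟨⟨1, by simp⟩⟩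
    exact Nat.card_pos

open Classical in
/-- `(n - 1) (k - 1) = (v - 1) (c - 1)`. -/
theorem num_eq [Finite G] (D : Des G P Q I v k l) (F : Fam I N) {b c : ℕ} (M : Num I N b c) :
    (b * c - 1) * (k - 1) = (v - 1) * (c - 1) := by
  haveI := Fintype.ofFinite G
  haveI := Fintype.ofFinite Q
  obtain ⟨B⟩ : Nonempty Q := by
    by_contra h
    rw [not_nonempty_iff] at h
    have h1 := D.cardQ
    rw [Nat.card_of_isEmpty] at h1
    have := D.kv
    omega
  let T : Finset G := (Finset.univ.filter (fun h => h ∈ N B)).erase 1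
  have h1 := D.sum_fix F B T (by
    intro h hh
    simp only [T, Finset.mem_erase, Finset.mem_filter, Finset.mem_univ, true_and] at hh
    exact ⟨hh.2, hh.1⟩)
  have hT : T.card = b * c - 1 := by
    have e : (Finset.univ.filter (fun h => h ∈ N B)).card = b * c := by
      rw [← M.cardN B, Nat.card_eq_fintype_card, Fintype.card_subtype]
    rw [Finset.card_erase_of_mem, e]
    simp [one_mem]
  rw [hT] at h1
  rw [← h1]
  rw [Finset.sum_congr rfl (g := fun _ => c - 1), Finset.sum_const, smul_eq_mul,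
    Finset.card_erase_of_mem (Finset.mem_univ _), Finset.card_univ, ← Nat.card_eq_fintype_card,
    D.cardQ]
  intro C hC
  have hC' : B ≠ C := (Finset.ne_of_mem_erase hC).symm
  have e : ((Finset.univ.filter (fun h => h ∈ N B)).filter (fun h => h • C = C)).card = c := by
    rw [← M.cardS B C hC', Nat.card_eq_fintype_card, Fintype.card_subtype]
    symm
    apply Finset.card_bij (fun (h : N B) _ => (h : G))
    · intro h hh
      simpa using hh
    · intro a _ b _ hab
      exact Subtype.ext hab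
    · intro h hh
      simp only [Finset.mem_filter, Finset.mem_univ, true_and] at hh
      exact ⟨⟨h, hh.1⟩, by simpa using hh.2, rfl⟩
  have e2 : T.filter (fun h => h • C = C)
      = ((Finset.univ.filter (fun h => h ∈ N B)).filter (fun h => h • C = C)).erase 1 := by
    ext h
    simp only [T, Finset.mem_erase, Finset.mem_filter, Finset.mem_univ, true_and]
    tauto
  rw [e2, Finset.card_erase_of_mem, e]
  simp [one_mem]

/-- Frattini. -/
theorem frattini [Finite G] (F : Fam I N) (B : Q) (p : ℕ) [Fact p.Prime]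
    (S : Sylow p (N B)) (g : G) (hg : g • B = B) :
    ∃ m : N B, ∀ h : N B, ∃ hh : (g * m) * h * (g * m : G)⁻¹ ∈ N B,
      (h ∈ S ↔ (⟨_, hh⟩ : N B) ∈ S) := by
  have hg' : g⁻¹ • B = B := by rw [inv_smul_eq_iff, hg]
  let α : MulAut (N B) :=
    { toFun := fun h => ⟨g * h * g⁻¹, fam_conj F hg h.2⟩
      invFun := fun h => ⟨g⁻¹ * h * g, by simpa using fam_conj F hg' h.2⟩
      left_inv := fun h => Subtype.ext (by simp [mul_assoc])
      right_inv := fun h => Subtype.ext (by simp [mul_assoc])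
      map_mul' := fun a b => Subtype.ext (by simp [mul_assoc]) }
  obtain ⟨m, hm⟩ := MulAction.exists_smul_eq (N B) S (α⁻¹ • S)
  refine ⟨m, fun h => ?_⟩
  have e : (g * m) * h * (g * m : G)⁻¹ = α (m * h * m⁻¹) := by
    simp only [α, MulEquiv.coe_mk, Equiv.coe_fn_mk, Subgroup.coe_mul, Subgroup.coe_inv]
    group
  have hh : (g * m) * h * (g * m : G)⁻¹ ∈ N B := by
    rw [e]; exact (α (m * h * m⁻¹)).2
  refine ⟨hh, ?_⟩
  have e' : (⟨_, hh⟩ : N B) = α (m * h * m⁻¹) := Subtype.ext e
  rw [e']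
  have h1 : m * h * m⁻¹ ∈ (m • S : Sylow p (N B)) ↔ h ∈ S := by
    rw [Sylow.smul_def]
    change m * h * m⁻¹ ∈ (MulAut.conj m • S : Sylow p (N B)).toSubgroup ↔ _
    rw [Sylow.pointwise_smul_def, Subgroup.mem_pointwise_smul_iff_inv_smul_mem]
    have : (MulAut.conj m)⁻¹ • (m * h * m⁻¹) = h := by
      rw [← map_inv]
      simp [MulAut.smul_def, mul_assoc]
    rw [this]
    rfl
  have h2 : m * h * m⁻¹ ∈ (α⁻¹ • S : Sylow p (N B)) ↔ α (m * h * m⁻¹) ∈ S := by
    change m * h * m⁻¹ ∈ (α⁻¹ • S : Sylow p (N B)).toSubgroup ↔ _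
    rw [Sylow.pointwise_smul_def, Subgroup.mem_pointwise_smul_iff_inv_smul_mem, inv_inv]
    rfl
  rw [← h1, hm, h2]

end Des

end Cfsg.Agent.Ito
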