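import Cfsg.Agent.Ito.PGroup

/-!
# The groups `N B` are `p`-groups; existence of an abelian family, part 2
-/

set_option autoImplicit false
set_option linter.unusedSectionVars false

namespace Cfsg.Agent.Ito

open MulAction Cfsg

theorem num_bound {b c w : ℕ} (hb : 2 ≤ b) (hc : 2 ≤ c) (hw : 2 ≤ w)
    (hd : (b * c - 1) ∣ (w - 1) * (c - 1)) : b * c < b * w ∧ b * c < c * w := by
  obtain ⟨b', rfl⟩ : ∃ b', b = b' + 1 := ⟨b - 1, by omega⟩
  obtain ⟨c', rfl⟩ : ∃ c', c = c' + 1 := ⟨c - 1, by omega⟩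
  obtain ⟨w', rfl⟩ : ∃ w', w = w' + 1 := ⟨w - 1, by omega⟩
  simp only [Nat.add_sub_cancel] at hd
  have hn : (b' + 1) * (c' + 1) - 1 = (b' + 1) * c' + b' := by
    have : (b' + 1) * (c' + 1) = (b' + 1) * c' + b' + 1 := by ring
    omega
  rw [hn] at hd
  set g := Nat.gcd ((b' + 1) * c' + b') c' with hg
  have hg1 : g ∣ c' := Nat.gcd_dvd_right _ _
  have hg2 : g ∣ b' := by
    have h1 : g ∣ (b' + 1) * c' + b' := Nat.gcd_dvd_left _ _
    have h2 : g ∣ (b' + 1) * c' := hg1.mul_left _
    exact (Nat.dvd_add_right h2).mp h1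
  have hgc : g ≤ c' := Nat.le_of_dvd (by omega) hg1
  have hgb : g ≤ b' := Nat.le_of_dvd (by omega) hg2
  have hgpos : 0 < g := Nat.pos_of_dvd_of_pos hg1 (by omega)
  have h3 : ((b' + 1) * c' + b') ∣ w' * g := by
    have h4 : ((b' + 1) * c' + b') ∣ w' * ((b' + 1) * c' + b') := Dvd.intro_left _ rfl
    have h5 := Nat.dvd_gcd h4 hd
    rw [Nat.gcd_mul_left] at h5
    exact h5
  have h4 : (b' + 1) * c' + b' ≤ w' * g := Nat.le_of_dvd (Nat.mul_pos (by omega) hgpos) h3
  have h5 : w' * g ≤ w' * b' := Nat.mul_le_mul_left _ hgb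
  have h6 : w' * g ≤ w' * c' := Nat.mul_le_mul_left _ hgc
  constructor
  · nlinarith
  · nlinarith

theorem num_unique {n b c p r : ℕ} (hn : n = b * c) (hb : 2 ≤ b) (hc : 2 ≤ c) (hp : p.Prime)
    (hr : r.Prime) (hpn : p ∣ n) (hrn : r ∣ n)
    (h : ∀ q : ℕ, q.Prime → q ∣ n → (n - 1) ∣ (q ^ n.factorization q - 1) * (c - 1)) : p = r := by
  by_contra hpr
  have hn0 : n ≠ 0 := by
    rw [hn]; positivity
  have e1 : 2 ≤ p ^ n.factorization p := by
    have h1 : n.factorization p ≠ 0 := (hp.factorization_pos_of_dvd hn0 hpn).ne'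
    calc 2 ≤ p := hp.two_le
      _ = p ^ 1 := (pow_one p).symm
      _ ≤ p ^ n.factorization p := Nat.pow_le_pow_right hp.pos (by omega)
  have e2 : 2 ≤ r ^ n.factorization r := by
    have h1 : n.factorization r ≠ 0 := (hr.factorization_pos_of_dvd hn0 hrn).ne'
    calc 2 ≤ r := hr.two_le
      _ = r ^ 1 := (pow_one r).symm
      _ ≤ r ^ n.factorization r := Nat.pow_le_pow_right hr.pos (by omega)
  have h1 := (num_bound hb hc e1 (by rw [← hn]; exact h p hp hpn)).1
  have h2 := (num_bound hb hc e2 (by rw [← hn]; exact h r hr hrn)).2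
  have h3 : p ^ n.factorization p * r ^ n.factorization r ∣ n := by
    apply Nat.Coprime.mul_dvd_of_dvd_of_dvd
    · exact Nat.Coprime.pow _ _ ((Nat.coprime_primes hp hr).mpr hpr)
    · exact Nat.ordProj_dvd n p
    · exact Nat.ordProj_dvd n r
  have h4 : p ^ n.factorization p * r ^ n.factorization r ≤ n :=
    Nat.le_of_dvd (Nat.pos_of_ne_zero hn0) h3
  set w1 := p ^ n.factorization p
  set w2 := r ^ n.factorization r
  have h5 : (b * c) * (b * c) < (b * w1) * (c * w2) := by
    apply Nat.mul_lt_mul'' h1 h2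
  have h6 : (b * w1) * (c * w2) = (b * c) * (w1 * w2) := by ring
  rw [h6, ← hn] at h5
  have h7 := Nat.mul_le_mul_left n h4
  omega

namespace Des

variable {G : Type*} {P Q : Type*} [Group G] [MulAction G P] [MulAction G Q]
  {I : P → Q → Prop} {v k l : ℕ} [Finite P] [Finite Q] {N : Q → Subgroup G}

theorem num_two [Finite G] (D : Des G P Q I v k l) (F : Fam I N) {b c : ℕ}
    (M : Num I N b c) (B : Q) : 2 ≤ b ∧ 2 ≤ c := by
  have h1 := D.num_eq F M
  have h2 := D.k2
  have h3 := D.kv
  have h4 : 1 < b * c := by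
    rw [← M.cardN B]
    obtain ⟨h, hh, h1⟩ := F.nt B
    rw [Finite.one_lt_card_iff_nontrivial]
    exact ⟨⟨h, hh⟩, 1, fun e => h1 (congrArg Subtype.val e)⟩
  have h5 : c ≠ 0 := by
    rintro rfl
    simp at h4
  have h6 : b ≠ 0 := by
    rintro rfl
    simp at h4
  have h7 : 0 < (b * c - 1) * (k - 1) := Nat.mul_pos (by omega) (by omega)
  constructor
  · by_contra hb
    have hb1 : b = 1 := by omega
    subst hb1
    rw [one_mul, mul_comm] at h1
    rcases Nat.eq_zero_or_pos (c - 1) with h8 | h8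
    · rw [h8] at h1
      omega
    · have := Nat.eq_of_mul_eq_mul_right h8 h1
      omega
  · by_contra hc
    have hc1 : c = 1 := by omega
    subst hc1
    simp only [Nat.sub_self, mul_zero] at h1
    omega

open Classical in
theorem sylow_dvd [Finite G] (D : Des G P Q I v k l) (F : Fam I N) {b c : ℕ}
    (M : Num I N b c) (B : Q) (p : ℕ) [Fact p.Prime] (S : Sylow p (N B)) :
    (b * c - 1) ∣ (Nat.card S - 1) * (c - 1) := by
  haveI := Fintype.ofFinite G
  haveI := Fintype.ofFinite Q
  obtain ⟨hb, hc⟩ := D.num_two F M B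
  obtain ⟨C0, hC0⟩ := D.exists_ne_block B
  let T0 : Finset G := Finset.univ.filter (fun h => ∃ hh : h ∈ N B, (⟨h, hh⟩ : N B) ∈ S)
  let T : Finset G := T0.erase 1
  have memT : ∀ h, h ∈ T ↔ h ≠ 1 ∧ ∃ hh : h ∈ N B, (⟨h, hh⟩ : N B) ∈ S := by
    intro h
    simp only [T, T0, Finset.mem_erase, Finset.mem_filter, Finset.mem_univ, true_and]
  have hTN : ∀ h ∈ T, h ∈ N B ∧ h ≠ 1 := by
    intro h hh
    obtain ⟨h1, h2, -⟩ := (memT h).mp hh
    exact ⟨h2, h1⟩
  have hT0 : T0.card = Nat.card S := by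
    rw [Nat.card_eq_fintype_card, ← Finset.card_univ]
    symm
    apply Finset.card_bij (fun (h : S) _ => ((h : N B) : G))
    · intro h _
      simp only [T0, Finset.mem_filter, Finset.mem_univ, true_and]
      exact ⟨h.1.2, h.2⟩
    · intro a _ b _ hab
      exact Subtype.ext (Subtype.ext hab)
    · intro h hh
      simp only [T0, Finset.mem_filter, Finset.mem_univ, true_and] at hh
      obtain ⟨h1, h2⟩ := hh
      exact ⟨⟨⟨h, h1⟩, h2⟩, Finset.mem_univ _, rfl⟩
  have hTc : T.card = Nat.card S - 1 := by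
    rw [Finset.card_erase_of_mem, hT0]
    simp only [T0, Finset.mem_filter, Finset.mem_univ, true_and]
    exact ⟨one_mem _, one_mem S⟩
  let φ : Q → ℕ := fun C => (T.filter (fun h => h • C = C)).card
  let NB : Finset G := Finset.univ.filter (fun h => h ∈ N B)
  have hNB : NB.card = b * c := by
    rw [← M.cardN B, Nat.card_eq_fintype_card, Fintype.card_subtype]
  let Fc : Q → ℕ := fun C => ∑ n ∈ NB, φ (n • C)
  -- `Fc` as a number of pairs
  let W : Q → Finset (G × G) := fun C =>
    (NB ×ˢ T).filter (fun q => q.2 • q.1 • C = q.1 • C)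
  have hW : ∀ C, Fc C = (W C).card := by
    intro C
    simp only [Fc, φ, W, Finset.card_filter, Finset.sum_product]
  -- constancy
  have hconst : ∀ C, C ≠ B → Fc C = Fc C0 := by
    intro C hC
    obtain ⟨g, hg, hgC⟩ := D.tQ B C0 B C hC0.symm hC.symm
    have hg' : g⁻¹ • B = B := by rw [inv_smul_eq_iff, hg]
    obtain ⟨m, hm⟩ := frattini F B p S g hg
    set t : G := g * m with ht
    have htB : t • B = B := by
      rw [ht, mul_smul, D.fam_smul F m.2, hg]
    have htB' : t⁻¹ • B = B := by rw [inv_smul_eq_iff, htB]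
    have hTt : ∀ h : G, t * h * t⁻¹ ∈ T ↔ h ∈ T := by
      intro h
      rw [memT, memT]
      constructor
      · rintro ⟨h1, h2, h3⟩
        refine ⟨fun e => h1 (by rw [e]; simp), (fam_conj_iff F htB).mp h2, ?_⟩
        obtain ⟨h4, h5⟩ := hm ⟨h, (fam_conj_iff F htB).mp h2⟩
        exact h5.mpr h3
      · rintro ⟨h1, h2, h3⟩
        obtain ⟨h4, h5⟩ := hm ⟨h, h2⟩
        exact ⟨fun e => h1 (conj_eq_one_iff.mp e), h4, h5.mp h3⟩
    rw [hW, hW]
    symm
    apply Finset.card_bij (fun (q : G × G) _ => (t * q.1 * g⁻¹, t * q.2 * t⁻¹))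
    · rintro ⟨n, h⟩ hq
      simp only [W, Finset.mem_filter, Finset.mem_product, NB, Finset.mem_univ, true_and] at hq ⊢
      obtain ⟨⟨h1, h2⟩, h3⟩ := hq
      refine ⟨⟨?_, (hTt h).mpr h2⟩, ?_⟩
      · have e : t * n * g⁻¹ = g * (m * n) * g⁻¹ := by rw [ht]; group
        rw [e]
        exact fam_conj F hg (mul_mem m.2 h1)
      · rw [← hgC]
        simp only [mul_smul, inv_smul_smul]
        rw [h3]
    · rintro ⟨n, h⟩ _ ⟨n', h'⟩ _ he
      simp only [Prod.mk.injEq, mul_left_inj, mul_right_inj] at he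
      rw [he.1, he.2]
    · rintro ⟨n, h⟩ hq
      simp only [W, Finset.mem_filter, Finset.mem_product, NB, Finset.mem_univ, true_and] at hq
      obtain ⟨⟨h1, h2⟩, h3⟩ := hq
      refine ⟨(t⁻¹ * n * g, t⁻¹ * h * t), ?_, ?_⟩
      · simp only [W, Finset.mem_filter, Finset.mem_product, NB, Finset.mem_univ, true_and]
        refine ⟨⟨?_, ?_⟩, ?_⟩
        · have e : t⁻¹ * n * g = (m : G)⁻¹ * (g⁻¹ * n * g) := by rw [ht]; group
          rw [e]
          refine mul_mem (inv_mem m.2) ?_
          have := fam_conj F hg' h1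
          simpa using this
        · rw [← hTt]
          simpa [mul_assoc] using h2
        · rw [← hgC] at h3
          simp only [mul_smul, smul_inv_smul]
          rw [h3]
      · simp [mul_assoc]
  -- divisibility by `c`
  obtain ⟨s, hs⟩ : c ∣ Fc C0 := by
    have h1 := Finset.sum_comp (s := NB) φ (fun n : G => n • C0)
    change ∑ n ∈ NB, φ (n • C0) = _ at h1
    change c ∣ ∑ n ∈ NB, φ (n • C0)
    rw [h1]
    apply Finset.dvd_sum
    intro C' hC'
    rw [Finset.mem_image] at hC'
    obtain ⟨n0, hn0, rfl⟩ := hC'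
    have hn0' : n0 ∈ N B := by simpa [NB] using hn0
    have e : (NB.filter (fun a => a • C0 = n0 • C0)).card = c := by
      rw [← M.cardS B C0 hC0.symm, Nat.card_eq_fintype_card, Fintype.card_subtype]
      symm
      apply Finset.card_bij (fun (h : N B) _ => n0 * (h : G))
      · intro h hh
        simp only [Finset.mem_filter, Finset.mem_univ, true_and, NB] at hh ⊢
        exact ⟨mul_mem hn0' h.2, by rw [mul_smul, hh]⟩
      · intro a _ b _ hab
        exact Subtype.ext (mul_left_cancel hab)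
      · intro h hh
        simp only [Finset.mem_filter, Finset.mem_univ, true_and, NB] at hh
        refine ⟨⟨n0⁻¹ * h, mul_mem (inv_mem hn0') hh.1⟩, ?_, by simp⟩
        simp only [Finset.mem_filter, Finset.mem_univ, true_and]
        rw [mul_smul, hh.2, inv_smul_smul]
    rw [e, smul_eq_mul]
    exact Dvd.intro _ rfl
  -- the total
  have htot : ∑ C ∈ Finset.univ.erase B, Fc C = (b * c) * (T.card * (k - 1)) := by
    simp only [Fc]
    rw [Finset.sum_comm, ← hNB, ← smul_eq_mul, ← Finset.sum_const]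
    refine Finset.sum_congr rfl fun n hn => ?_
    have hn' : n ∈ N B := by simpa [NB] using hn
    have hnB := D.fam_smul F hn'
    rw [← D.sum_fix F B T hTN]
    refine Finset.sum_equiv (MulAction.toPerm n) ?_ ?_
    · intro C
      simp only [Finset.mem_erase, Finset.mem_univ, and_true, MulAction.toPerm_apply, ne_eq]
      rw [not_iff_not]
      constructor
      · intro e
        rw [e, hnB]
      · intro e
        exact MulAction.injective n (e.trans hnB.symm)
    · intro C _
      rfl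
  have htot2 : ∑ C ∈ Finset.univ.erase B, Fc C = (v - 1) * (c * s) := by
    rw [Finset.sum_congr rfl (g := fun _ => c * s), Finset.sum_const, smul_eq_mul,
      Finset.card_erase_of_mem (Finset.mem_univ _), Finset.card_univ, ← Nat.card_eq_fintype_card,
      D.cardQ]
    intro C hC
    rw [hconst C (Finset.ne_of_mem_erase hC), hs]
  rw [htot, hTc] at htot2
  have h1 : (v - 1) * s = b * ((Nat.card S - 1) * (k - 1)) := by
    have h2 : c * (b * ((Nat.card S - 1) * (k - 1))) = c * ((v - 1) * s) := by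
      rw [← mul_assoc c b, mul_comm c b, htot2]; ring
    exact (Nat.eq_of_mul_eq_mul_left (by omega) h2).symm
  have h2 := D.num_eq F M
  have hv := D.kv
  have h3 : s * (b * c - 1) = b * (Nat.card S - 1) * (c - 1) := by
    have h4 : (v - 1) * (s * (b * c - 1)) = (v - 1) * (b * (Nat.card S - 1) * (c - 1)) := by
      calc (v - 1) * (s * (b * c - 1)) = ((v - 1) * s) * (b * c - 1) := by ring
        _ = b * (Nat.card S - 1) * ((b * c - 1) * (k - 1)) := by rw [h1]; ring
        _ = b * (Nat.card S - 1) * ((v - 1) * (c - 1)) := by rw [h2]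
        _ = _ := by ring
    exact Nat.eq_of_mul_eq_mul_left (by omega) h4
  have h4 : (b * c - 1) ∣ b * ((Nat.card S - 1) * (c - 1)) := by
    rw [← mul_assoc, ← h3]
    exact Dvd.intro_left _ rfl
  refine Nat.Coprime.dvd_of_dvd_mul_left ?_ h4
  have h5 : b * c - 1 + 1 = b * c := by
    have : 0 < b * c := by positivity
    omega
  have h6 : Nat.Coprime (b * c - 1) (b * c) := by
    rw [← h5]
    simp
  exact Nat.Coprime.coprime_mul_right_right h6

/-- There is an abelian family. -/
theorem exists_comm_fam [Finite G] [FaithfulSMul G P] (D : Des G P Q I v k l) {B0 : Q} {h0 : G}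
    (hh0 : h0 ∈ ker G I B0) (h01 : h0 ≠ 1) :
    ∃ N : Q → Subgroup G, Fam I N ∧ ∀ B, ∀ g ∈ N B, ∀ h ∈ N B, g * h = h * g := by
  obtain ⟨N, F⟩ := D.exists_fam hh0 h01
  obtain ⟨b, c, M⟩ := D.exists_num F
  -- nontrivial centre
  have hcen : ∀ B, ∃ z : N B, z ∈ Subgroup.center (N B) ∧ z ≠ 1 := by
    intro B
    obtain ⟨hb, hc⟩ := D.num_two F M B
    have hcard := M.cardN B
    have h1 : ∀ p r : ℕ, p.Prime → r.Prime → p ∣ Nat.card (N B) → r ∣ Nat.card (N B) → p = r := by
      intro p r hp hr hpn hrn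
      refine num_unique hcard hb hc hp hr hpn hrn ?_
      intro q hq hqn
      haveI : Fact q.Prime := ⟨hq⟩
      have := D.sylow_dvd F M B q (default : Sylow q (N B))
      rw [Sylow.card_eq_multiplicity, ← hcard] at this
      exact this
    have hne : Nat.card (N B) ≠ 1 := by
      rw [hcard]
      nlinarith
    set p := Nat.minFac (Nat.card (N B)) with hp
    have hpp : p.Prime := Nat.minFac_prime hne
    have hpg : IsPGroup p (N B) := by
      have h2 := Nat.eq_prime_pow_of_unique_prime_dvd (n := Nat.card (N B)) (p := p)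
        Nat.card_pos.ne' (fun {d} hd hdn => (h1 d p hd hpp hdn (Nat.minFac_dvd _)))
      exact IsPGroup.of_card h2
    haveI : Fact p.Prime := ⟨hpp⟩
    haveI : Nontrivial (N B) := by
      rw [← Finite.one_lt_card_iff_nontrivial]
      have : 0 < Nat.card (N B) := Nat.card_pos
      omega
    haveI := hpg.center_nontrivial
    obtain ⟨z, hz⟩ := exists_ne (1 : Subgroup.center (N B))
    exact ⟨z, z.2, fun e => hz (Subtype.ext e)⟩
  have mem : ∀ B h, h ∈ (Subgroup.center (N B)).map (N B).subtype ↔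
      h ∈ N B ∧ ∀ g ∈ N B, g * h = h * g := by
    intro B h
    constructor
    · rintro ⟨z, hz, rfl⟩
      refine ⟨z.2, fun g hg => ?_⟩
      have := Subgroup.mem_center_iff.mp hz ⟨g, hg⟩
      exact congrArg Subtype.val this
    · rintro ⟨h1, h2⟩
      refine ⟨⟨h, h1⟩, ?_, rfl⟩
      rw [SetLike.mem_coe, Subgroup.mem_center_iff]
      intro g
      exact Subtype.ext (h2 g g.2)
  refine ⟨fun B => (Subgroup.center (N B)).map (N B).subtype, ⟨?_, ?_, ?_, ?_⟩, ?_⟩
  · intro B h hh
    exact F.le B ((mem B h).mp hh).1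
  · intro g B h hh
    rw [mem] at hh ⊢
    refine ⟨F.conj g B h hh.1, fun x hx => ?_⟩
    have hx' : g⁻¹ * x * g ∈ N B := by
      have := F.conj g⁻¹ _ x hx
      rw [inv_smul_smul, inv_inv] at this
      exact this
    have h2 := hh.2 _ hx'
    calc x * (g * h * g⁻¹) = g * ((g⁻¹ * x * g) * h) * g⁻¹ := by group
      _ = g * (h * (g⁻¹ * x * g)) * g⁻¹ := by rw [h2]
      _ = _ := by group
  · intro B
    obtain ⟨z, hz, hz1⟩ := hcen B
    exact ⟨z, ⟨z, hz, rfl⟩, fun e => hz1 (Subtype.ext e)⟩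
  · intro B h hh
    exact F.semi B h ((mem B h).mp hh).1
  · intro B g hg h hh
    exact ((mem B h).mp hh).2 g ((mem B g).mp hg).1

end Des

end Cfsg.Agent.Ito
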