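import Cfsg.Agent.Ito.Lines

/-!
# Rigidity of central collineations
-/

set_option autoImplicit false
set_option linter.unusedSectionVars false

namespace Cfsg.Agent.Ito

open MulAction Cfsg

namespace Des

variable {G P Q : Type*} [Group G] [MulAction G P] [MulAction G Q] {I : P → Q → Prop}
  {v k l q c : ℕ} [Finite P] [Finite Q] {N : Q → Subgroup G}
  [Finite G] [FaithfulSMul G P]

theorem rigid (D : Des G P Q I v k l) (E : Ela I N v k l q c) (π : Equiv.Perm P)
    (hπ : ∀ C, ∃ C', ∀ x, I x C ↔ I (π x) C') {z0 x0 : P} {C0 : Q} (hz0 : I z0 C0)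
    (hfix : ∀ x, I x C0 → π x = x) (hbl : ∀ C, I z0 C → ∀ x, I x C → I (π x) C)
    (hx0 : ¬ I x0 C0) (hx0f : π x0 = x0) : π = 1 := by
  -- blocks through a fixed point off `C0` are fixed
  have key : ∀ x1, ¬ I x1 C0 → π x1 = x1 → ∀ C, I x1 C → ∀ x, I x C → I (π x) C := by
    intro x1 hx1 hf C hC x hx
    obtain ⟨C', hC'⟩ := hπ C
    have hne : C ≠ C0 := fun e => hx1 (e ▸ hC)
    have hCC : C = C' := by
      refine D.block_eq (S := insert x1 {y | I y C ∧ I y C0}) ?_ ?_
      · intro y hy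
        rcases hy with rfl | ⟨hy1, hy2⟩
        · refine ⟨hC, ?_⟩
          have := (hC' y).mp hC
          rwa [hf] at this
        · refine ⟨hy1, ?_⟩
          have := (hC' y).mp hy1
          rwa [hfix y hy2] at this
      · rw [Set.ncard_insert_of_notMem, D.lQ C C0 hne]
        · omega
        · intro h1
          exact hx1 h1.2
    rw [hCC]
    exact (hC' x).mp hx
  have step : ∀ x1, ¬ I x1 C0 → π x1 = x1 → ∀ y, ¬ I y C0 → y ∉ Ln I x1 z0 → π y = y := by
    intro x1 hx1 hf y hy hyL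
    by_contra hne
    have h1 : π y ∈ Ln I x1 y := fun C h2 h3 => key x1 hx1 hf C h2 y h3
    have h2 : π y ∈ Ln I z0 y := fun C h2 h3 => hbl C h2 y h3
    have hx1y : x1 ≠ y := by
      rintro rfl
      exact hne hf
    have hz0y : z0 ≠ y := fun e => hy (e ▸ hz0)
    have hx1z : x1 ≠ z0 := fun e => hx1 (e ▸ hz0)
    have e1 := D.Ln_eq hx1y (Ne.symm hne) (right_mem_Ln x1 y) h1
    have e2 := D.Ln_eq hz0y (Ne.symm hne) (right_mem_Ln z0 y) h2
    have h3 : x1 ∈ Ln I z0 y := by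
      rw [← e2, e1]
      exact left_mem_Ln _ _
    have e3 := D.Ln_eq hz0y hx1z h3 (left_mem_Ln _ _)
    apply hyL
    rw [e3]
    exact right_mem_Ln _ _
  ext y
  change π y = y
  by_cases hy : I y C0
  · exact hfix y hy
  by_cases hyL : y ∈ Ln I x0 z0
  swap
  · exact step x0 hx0 hx0f y hy hyL
  have hx0z : x0 ≠ z0 := fun e => hx0 (e ▸ hz0)
  -- another fixed point
  obtain ⟨x1, hx1, hx1L⟩ : ∃ x1, ¬ I x1 C0 ∧ x1 ∉ Ln I x0 z0 := by
    by_contra hcon
    push Not at hcon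
    have h1 : {x | ¬ I x C0} ⊆ Ln I x0 z0 \ {z0} := by
      intro x hx
      exact ⟨hcon x hx, fun e => hx (by rw [e]; exact hz0)⟩
    have h2 := Set.ncard_le_ncard h1 (Set.toFinite _)
    rw [D.ncard_compl, Set.ncard_diff (by simpa using right_mem_Ln x0 z0) (Set.toFinite _),
      (D.line_main E hx0z).1, Set.ncard_singleton] at h2
    have h3 := E.hv
    have h4 := E.c2
    have h5 := E.q2
    have h6 : q * 2 ≤ q * c := Nat.mul_le_mul_left _ h4
    omega
  have hx1f := step x0 hx0 hx0f x1 hx1 hx1L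
  apply step x1 hx1 hx1f y hy
  intro h
  apply hx1L
  have hx1z : x1 ≠ z0 := fun e => hx1 (e ▸ hz0)
  have hyz : y ≠ z0 := fun e => hy (e ▸ hz0)
  have e1 := D.Ln_eq hx1z hyz h (right_mem_Ln _ _)
  have e2 := D.Ln_eq hx0z hyz hyL (right_mem_Ln _ _)
  rw [← e2, e1]
  exact left_mem_Ln _ _

end Des

end Cfsg.Agent.Ito
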