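import Cfsg.Agent.Ito.Proj
import Cfsg.Agent.Ito.Rigid
import Cfsg.Agent.H40.SLGen

/-!
# Identification of the group generated by the elations with `PSL`
-/

set_option autoImplicit false
set_option linter.unusedSectionVars false

namespace Cfsg.Agent.Ito

open MulAction Cfsg Matrix
open scoped LinearAlgebra.Projectivization

section Tv

variable {F : Type} [Field F] {n : ℕ}

/-- The transvection `1 + a bᵀ`. -/
def tv (a b : Fin n → F) (h : b ⬝ᵥ a = 0) : SpecialLinearGroup (Fin n) F :=
  ⟨1 + vecMulVec a b, by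
    have h1 := Matrix.det_one_add_replicateCol_mul_replicateRow (ι := Unit) a b
    rw [vecMulVec_eq Unit, h1, h, add_zero]⟩

theorem tv_mulVec (a b : Fin n → F) (h : b ⬝ᵥ a = 0) (w : Fin n → F) :
    ((tv a b h : SpecialLinearGroup (Fin n) F) : Matrix (Fin n) (Fin n) F) *ᵥ w
      = w + (b ⬝ᵥ w) • a := by
  change (1 + vecMulVec a b) *ᵥ w = _
  rw [add_mulVec, one_mulVec, vecMulVec_mulVec]
  congr 1
  ext i
  simp [mul_comm]

theorem sl_smul_mk (g : SpecialLinearGroup (Fin n) F) (w : Fin n → F) (hw : w ≠ 0)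
    (hw' : (g : Matrix (Fin n) (Fin n) F) *ᵥ w ≠ 0) :
    g • Projectivization.mk F w hw = Projectivization.mk F ((g : Matrix (Fin n) (Fin n) F) *ᵥ w) hw'
    := rfl

theorem sl_inv_mul (g : SpecialLinearGroup (Fin n) F) :
    ((g⁻¹ : SpecialLinearGroup (Fin n) F) : Matrix (Fin n) (Fin n) F) *
      (g : Matrix (Fin n) (Fin n) F) = 1 :=
  congrArg Subtype.val (inv_mul_cancel g)

theorem sl_mulVec_ne (g : SpecialLinearGroup (Fin n) F) {w : Fin n → F} (hw : w ≠ 0) :
    (g : Matrix (Fin n) (Fin n) F) *ᵥ w ≠ 0 := by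
  intro h
  apply hw
  have h1 := congrArg (fun u => ((g⁻¹ : SpecialLinearGroup (Fin n) F) :
    Matrix (Fin n) (Fin n) F) *ᵥ u) h
  simp only [mulVec_mulVec, mulVec_zero] at h1
  rwa [sl_inv_mul, one_mulVec] at h1

/-- a vector annihilated by all functionals vanishing on `x`, `y` is in their span -/
theorem mem_span_of_dual {x y w : Fin n → F}
    (h : ∀ b : Fin n → F, b ≠ 0 → b ⬝ᵥ x = 0 → b ⬝ᵥ y = 0 → b ⬝ᵥ w = 0) :
    ∃ α β : F, w = α • x + β • y := by
  classical
  have h1 : w ∈ Submodule.span F {x, y} := by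
    by_contra hw
    obtain ⟨f, hf, hle⟩ := Submodule.exists_le_ker_of_notMem hw
    have h5 : ∀ w, f w = (fun i => f (Pi.single i 1)) ⬝ᵥ w := by
      intro w
      rw [LinearMap.pi_apply_eq_sum_univ f w]
      simp only [dotProduct, smul_eq_mul]
      refine Finset.sum_congr rfl fun i _ => ?_
      rw [mul_comm]
      congr 2
      ext j
      simp [Pi.single_apply, eq_comm]
    apply hf
    rw [h5]
    apply h
    · intro h0
      apply hf
      rw [h5, h0, zero_dotProduct]
    · rw [← h5]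
      exact hle (Submodule.subset_span (by simp))
    · rw [← h5]
      exact hle (Submodule.subset_span (by simp))
  obtain ⟨α, β, hab⟩ := Submodule.mem_span_pair.mp h1
  exact ⟨α, β, hab.symm⟩

end Tv

variable {G P Q : Type*} [Group G] [MulAction G P] [MulAction G Q] {I : P → Q → Prop}
  {v k l q c : ℕ} [Finite P] [Finite Q] {N : Q → Subgroup G}
  [Finite G] [FaithfulSMul G P]

section Rep

variable {F : Type} [Field F] [Fintype F] {n : ℕ} (φ : P ≃ ℙ F (Fin n → F))
  (ψ : Q ≃ ℙ F (Fin n → F)) (hI : ∀ x C, I x C ↔ (ψ C).rep ⬝ᵥ (φ x).rep = 0)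

include hI

theorem inc_mk (C : Q) (w : Fin n → F) (hw : w ≠ 0) :
    I (φ.symm (Projectivization.mk F w hw)) C ↔ (ψ C).rep ⬝ᵥ w = 0 := by
  rw [hI, Equiv.apply_symm_apply]
  obtain ⟨a, ha⟩ := Projectivization.exists_smul_eq_mk_rep F w hw
  rw [← ha]
  change _ ⬝ᵥ ((a : F) • w) = 0 ↔ _
  rw [dotProduct_smul, smul_eq_mul, mul_eq_zero]
  simp

theorem inc_mk' (x : P) (b : Fin n → F) (hb : b ≠ 0) :
    I x (ψ.symm (Projectivization.mk F b hb)) ↔ b ⬝ᵥ (φ x).rep = 0 := by
  rw [hI, Equiv.apply_symm_apply]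
  obtain ⟨a, ha⟩ := Projectivization.exists_smul_eq_mk_rep F b hb
  rw [← ha]
  change ((a : F) • b) ⬝ᵥ _ = 0 ↔ _
  rw [smul_dotProduct, smul_eq_mul, mul_eq_zero]
  simp

/-- Every elation is a transvection. -/
theorem elation_eq (D : Des G P Q I v k l) (E : Ela I N v k l q c) {z : P} {C : Q} (hzC : I z C)
    {h : G} (hh : h ∈ U I N z C) :
    ∃ (s : F) (hs : (ψ C).rep ⬝ᵥ (s • (φ z).rep) = 0),
      ∀ x, φ (h • x) = tv (s • (φ z).rep) (ψ C).rep hs • φ x := by
  classical
  have hz0 : (ψ C).rep ⬝ᵥ (φ z).rep = 0 := (hI z C).mp hzC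
  by_cases h1 : h = 1
  · refine ⟨0, by simp, fun x => ?_⟩
    subst h1
    rw [one_smul]
    have : tv ((0 : F) • (φ z).rep) (ψ C).rep (by simp) = 1 := by
      apply Subtype.ext
      change 1 + vecMulVec ((0 : F) • (φ z).rep) (ψ C).rep = 1
      rw [zero_smul, zero_vecMulVec, add_zero]
    rw [this, one_smul]
  obtain ⟨x, hx⟩ := D.exists_antiflag C
  set y := h • x with hy
  have hyx : y ≠ x := fun e => h1 (E.fam.semi C h hh.1 x hx e)
  have hzx : z ≠ x := fun e => hx (e ▸ hzC)
  have hyz : y ≠ z := by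
    intro e
    rw [hy, ← Des.smul_U E hzC hh] at e
    exact hzx (MulAction.injective h e).symm
  have hyL : y ∈ Ln I z x := fun C' h2 h3 => D.inc_smul (hh.2 C' h2) h3
  obtain ⟨α, β, hab⟩ : ∃ α β : F, (φ y).rep = α • (φ x).rep + β • (φ z).rep := by
    apply mem_span_of_dual
    intro b hb hbx hbz
    rw [← inc_mk' φ ψ hI _ b hb] at hbx hbz ⊢
    exact hyL _ hbz hbx
  have hα : α ≠ 0 := by
    rintro rfl
    apply hyz
    apply φ.injective
    rw [← (φ y).mk_rep, ← (φ z).mk_rep, Projectivization.mk_eq_mk_iff']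
    exact ⟨β, by rw [hab, zero_smul, zero_add]⟩
  have hcx : (ψ C).rep ⬝ᵥ (φ x).rep ≠ 0 := fun e => hx ((hI x C).mpr e)
  set s : F := β / (α * ((ψ C).rep ⬝ᵥ (φ x).rep)) with hs
  have hs0 : (ψ C).rep ⬝ᵥ (s • (φ z).rep) = 0 := by rw [dotProduct_smul, hz0, smul_zero]
  refine ⟨s, hs0, ?_⟩
  set T := tv (s • (φ z).rep) (ψ C).rep hs0 with hT
  have hTx : T • φ x = φ y := by
    rw [← (φ x).mk_rep, sl_smul_mk _ _ _ (sl_mulVec_ne _ (φ x).rep_nonzero), ← (φ y).mk_rep,
      Projectivization.mk_eq_mk_iff']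
    refine ⟨α⁻¹, ?_⟩
    rw [hT, tv_mulVec, hab, smul_add, smul_smul, smul_smul, smul_smul, inv_mul_cancel₀ hα,
      one_smul]
    congr 2
    rw [hs]
    field_simp
  -- the permutation
  let ρ : Equiv.Perm P := (φ.trans (MulAction.toPerm T)).trans φ.symm
  have hρ : ∀ x, ρ x = φ.symm (T • φ x) := fun x => rfl
  let π : Equiv.Perm P := (MulAction.toPerm h : Equiv.Perm P)⁻¹ * ρ
  have hπ : ∀ x, π x = h⁻¹ • ρ x := fun x => rfl
  have hρmk : ∀ x, ∃ hne, ρ x = φ.symm (Projectivization.mk F
      ((T : Matrix (Fin n) (Fin n) F) *ᵥ (φ x).rep) hne) := by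
    intro x
    refine ⟨sl_mulVec_ne T (φ x).rep_nonzero, ?_⟩
    rw [hρ]
    congr 1
    conv_lhs => rw [← (φ x).mk_rep]
    rfl
  have hkey : π = 1 := by
    apply D.rigid E π (z0 := z) (x0 := x) (C0 := C) ?_ hzC ?_ ?_ hx ?_
    · intro C1
      have hTi : ((T⁻¹ : SpecialLinearGroup (Fin n) F) : Matrix (Fin n) (Fin n) F) *
          (T : Matrix (Fin n) (Fin n) F) = 1 := sl_inv_mul T
      set b2 : Fin n → F := (ψ C1).rep ᵥ* ((T⁻¹ : SpecialLinearGroup (Fin n) F) :
        Matrix (Fin n) (Fin n) F) with hb2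
      have hb2T : b2 ᵥ* (T : Matrix (Fin n) (Fin n) F) = (ψ C1).rep := by
        rw [hb2, vecMul_vecMul, hTi, vecMul_one]
      have hb20 : b2 ≠ 0 := by
        intro e
        rw [e, zero_vecMul] at hb2T
        exact (ψ C1).rep_nonzero hb2T.symm
      refine ⟨h⁻¹ • ψ.symm (Projectivization.mk F b2 hb20), fun x' => ?_⟩
      rw [hπ, D.inv]
      obtain ⟨hne, e⟩ := hρmk x'
      rw [e, inc_mk' φ ψ hI, Equiv.apply_symm_apply]
      obtain ⟨a, ha⟩ := Projectivization.exists_smul_eq_mk_rep F _ hne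
      rw [← ha]
      change _ ↔ b2 ⬝ᵥ ((a : F) • _) = 0
      rw [dotProduct_smul, smul_eq_mul, mul_eq_zero, dotProduct_mulVec, hb2T, hI]
      simp
    · intro x' hx'
      have h2 : ρ x' = x' := by
        rw [hρ, Equiv.symm_apply_eq]
        conv_lhs => rw [← (φ x').mk_rep]
        conv_rhs => rw [← (φ x').mk_rep]
        rw [sl_smul_mk _ _ _ (sl_mulVec_ne _ (φ x').rep_nonzero), Projectivization.mk_eq_mk_iff']
        refine ⟨1, ?_⟩
        rw [hT, tv_mulVec, (hI x' C).mp hx', zero_smul, add_zero, one_smul]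
      rw [hπ, h2, inv_smul_eq_iff]
      exact (E.fam.le C hh.1 x' hx').symm
    · intro C1 hC1 x' hx'
      have hC1h : h⁻¹ • C1 = C1 := by rw [inv_smul_eq_iff, hh.2 C1 hC1]
      rw [hπ]
      apply D.inc_smul hC1h
      obtain ⟨hne, e⟩ := hρmk x'
      rw [e, inc_mk φ ψ hI, hT, tv_mulVec, dotProduct_add, (hI x' C1).mp hx', dotProduct_smul,
        dotProduct_smul, (hI z C1).mp hC1, smul_zero, smul_zero, add_zero]
    · rw [hπ, hρ, hTx, Equiv.symm_apply_apply, hy, inv_smul_smul]
  intro x'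
  have h2 : π x' = x' := by rw [hkey]; rfl
  rw [hπ, inv_smul_eq_iff, hρ, Equiv.symm_apply_eq] at h2
  exact h2.symm

end Rep

open Classical in
/-- Identification with `PSL`. -/
theorem final (D : Des G P Q I v k l) (E : Ela I N v k l q c) :
    ∃ (m : ℕ) (F : Type) (_ : Field F) (_ : Fintype F), 2 ≤ m ∧
      Nat.card P = (Fintype.card F ^ (m + 1) - 1) / (Fintype.card F - 1) ∧
      ∃ N : Subgroup G, N.Normal ∧
        Nonempty (N ≃* Matrix.ProjectiveSpecialLinearGroup (Fin (m + 1)) F) ∧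
        Subgroup.centralizer (N : Set G) = ⊥ := by
  haveI : AbFam N := ⟨E.ab⟩
  obtain ⟨F, _, _, m, φ, ψ, hFq, hm, hI⟩ := D.coord E
  have hcard : Nat.card P = (Fintype.card F ^ (m + 1) - 1) / (Fintype.card F - 1) := by
    rw [Nat.card_congr φ, Projectivization.card'']
    simp
  refine ⟨m, F, inferInstance, inferInstance, hm, hcard, ?_⟩
  let f : G →* Equiv.Perm (ℙ F (Fin (m + 1) → F)) :=
    φ.permCongrHom.toMonoidHom.comp (MulAction.toPermHom G P)
  have hf : ∀ g p, f g p = φ (g • φ.symm p) := fun g p => rfl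
  have hfinj : Function.Injective f := by
    intro a b hab
    apply FaithfulSMul.eq_of_smul_eq_smul (α := P)
    intro x
    have h1 := DFunLike.congr_fun hab (φ x)
    rw [hf, hf, Equiv.symm_apply_apply] at h1
    exact φ.injective h1
  let τ : SpecialLinearGroup (Fin (m + 1)) F →* Equiv.Perm (ℙ F (Fin (m + 1) → F)) :=
    MulAction.toPermHom _ _
  have hτ : ∀ g p, τ g p = g • p := fun g p => rfl
  let G0 : Subgroup G := Subgroup.closure {g | ∃ C, g ∈ N C}
  -- elations act as transvections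
  have hel : ∀ z C, I z C → ∀ h ∈ U I N z C, ∃ (s : F)
      (hs : (ψ C).rep ⬝ᵥ (s • (φ z).rep) = 0), f h = τ (tv (s • (φ z).rep) (ψ C).rep hs) := by
    intro z C hzC h hh
    obtain ⟨s, hs, h1⟩ := elation_eq φ ψ hI D E hzC hh
    refine ⟨s, hs, ?_⟩
    ext p
    rw [hf, hτ, h1, Equiv.apply_symm_apply]
  have hle : G0.map f ≤ τ.range := by
    rw [Subgroup.map_le_iff_le_comap, Subgroup.closure_le]
    rintro h ⟨C, hC⟩
    by_cases h1 : h = 1
    · subst h1
      exact one_mem _
    · obtain ⟨z, hz, hzU⟩ := Des.exists_cen E hC h1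
      obtain ⟨s, hs, he⟩ := hel z C hz h hzU
      exact ⟨_, he.symm⟩
  have hge : τ.range ≤ G0.map f := by
    have h1 : (G0.map f).comap τ = ⊤ := by
      apply H40.sl_eq_top_of_transvections
      intro i j hij t
      -- the flag
      have hei : (Pi.single i 1 : Fin (m + 1) → F) ≠ 0 := by
        intro h
        have := congrFun h i
        simp at this
      have hej : (Pi.single j 1 : Fin (m + 1) → F) ≠ 0 := by
        intro h
        have := congrFun h j
        simp at this
      set z := φ.symm (Projectivization.mk F _ hei) with hz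
      set C := ψ.symm (Projectivization.mk F _ hej) with hC
      obtain ⟨a, ha⟩ := Projectivization.exists_smul_eq_mk_rep F _ hei
      obtain ⟨b, hb⟩ := Projectivization.exists_smul_eq_mk_rep F _ hej
      have hzr : (φ z).rep = (a : F) • Pi.single i 1 := by
        rw [hz, Equiv.apply_symm_apply, ← ha]; rfl
      have hCr : (ψ C).rep = (b : F) • Pi.single j 1 := by
        rw [hC, Equiv.apply_symm_apply, ← hb]; rfl
      have hzC : I z C := by
        rw [hI, hzr, hCr]
        simp [hij.symm]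
      have hzC0 : ∀ s : F, (ψ C).rep ⬝ᵥ (s • (φ z).rep) = 0 := by
        intro s
        rw [dotProduct_smul, (hI z C).mp hzC, smul_zero]
      -- the map `U z C → F`
      choose! sf hs hsf using hel z C hzC
      have hbij : Function.Bijective (fun h : U I N z C => sf h) := by
        rw [Nat.bijective_iff_injective_and_card]
        refine ⟨?_, ?_⟩
        · intro h h' hhh
          have h1 := hsf h h.2
          have h2 := hsf h' h'.2
          simp only at hhh
          apply Subtype.ext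
          apply hfinj
          rw [h1, h2]
          congr 1
          apply Subtype.ext
          change 1 + vecMulVec (sf h • (φ z).rep) (ψ C).rep = 1 + vecMulVec (sf h' • (φ z).rep) _
          rw [hhh]
        · rw [E.cardU z C hzC, Nat.card_eq_fintype_card, hFq]
      obtain ⟨⟨h, hh⟩, hht⟩ := hbij.2 (t * (a : F)⁻¹ * (b : F)⁻¹)
      simp only at hht
      have h1 := hsf h hh
      refine ⟨h, Subgroup.subset_closure ⟨C, hh.1⟩, ?_⟩
      rw [h1]
      congr 1
      apply Subtype.ext
      change 1 + vecMulVec (sf h • (φ z).rep) (ψ C).rep = Matrix.transvection i j t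
      rw [hht, hzr, hCr, Matrix.transvection]
      congr 1
      ext i' j'
      simp only [vecMulVec_apply, Pi.smul_apply, smul_eq_mul, Pi.single_apply, Matrix.single_apply]
      by_cases h3 : i' = i
      · by_cases h4 : j' = j
        · subst h3 h4
          have ha0 : (a : F) ≠ 0 := a.ne_zero
          have hb0 : (b : F) ≠ 0 := b.ne_zero
          simp
          field_simp
        · simp [h4, Ne.symm h4]
      · simp [h3, Ne.symm h3]
    intro p hp
    obtain ⟨g, rfl⟩ := hp
    have : g ∈ (G0.map f).comap τ := by rw [h1]; trivial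
    exact this
  have heq : G0.map f = τ.range := le_antisymm hle hge
  refine ⟨G0, ⟨?_⟩, ⟨?_⟩, ?_⟩
  · intro n hn g
    induction hn using Subgroup.closure_induction with
    | mem x hx =>
      obtain ⟨C, hC⟩ := hx
      exact Subgroup.subset_closure ⟨g • C, E.fam.conj g C x hC⟩
    | one => simp [one_mem]
    | mul x y _ _ hx hy =>
      have : g * (x * y) * g⁻¹ = (g * x * g⁻¹) * (g * y * g⁻¹) := by group
      rw [this]
      exact mul_mem hx hy
    | inv x _ hx =>
      have : g * x⁻¹ * g⁻¹ = (g * x * g⁻¹)⁻¹ := by group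
      rw [this]
      exact inv_mem hx
  · have e1 : G0 ≃* G0.map f := G0.equivMapOfInjective f hfinj
    have e2 : G0.map f ≃* τ.range := MulEquiv.subgroupCongr heq
    have e3 : SpecialLinearGroup (Fin (m + 1)) F ⧸ τ.ker ≃* τ.range :=
      QuotientGroup.quotientKerEquivRange τ
    have e4 : SpecialLinearGroup (Fin (m + 1)) F ⧸ τ.ker ≃*
        SpecialLinearGroup (Fin (m + 1)) F ⧸
          Subgroup.center (SpecialLinearGroup (Fin (m + 1)) F) :=
      QuotientGroup.quotientMulEquivOfEq Projectivization.SL_mulAction_ker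
    exact e1.trans (e2.trans (e3.symm.trans e4))
  · rw [eq_bot_iff]
    intro g hg
    rw [Subgroup.mem_centralizer_iff] at hg
    have hgC : ∀ C : Q, g • C = C := by
      intro C
      obtain ⟨h, hh, h1⟩ := E.fam.nt C
      have h2 := hg h (Subgroup.subset_closure ⟨C, hh⟩)
      by_contra hne
      apply h1
      apply D.ker_inf (fun e => hne e.symm) (E.fam.le C hh)
      have h3 := E.fam.le _ (E.fam.conj g C h hh)
      rw [← h2, mul_inv_cancel_right] at h3
      exact h3
    rw [Subgroup.mem_bot]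
    apply FaithfulSMul.eq_of_smul_eq_smul (α := P)
    intro x
    rw [one_smul]
    symm
    apply D.point_eq
    intro C hC
    rw [← D.inv g, hgC] at hC
    exact hC

end Cfsg.Agent.Ito
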