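import Cfsg.Agent.Ito.Coord
import Cfsg.Agent.Ito.Field

/-!
# Projective coordinates
-/

set_option autoImplicit false
set_option linter.unusedSectionVars false

namespace Cfsg.Agent.Ito

open MulAction Cfsg Matrix
open scoped LinearAlgebra.Projectivization

variable {G P Q : Type*} [Group G] [MulAction G P] [MulAction G Q] {I : P → Q → Prop}
  {v k l q c : ℕ} [Finite P] [Finite Q] {N : Q → Subgroup G}
  [Finite G] [FaithfulSMul G P]

namespace Des

theorem reg_stab (D : Des G P Q I v k l) (E : Ela I N v k l q c) {B C : Q} (hBC : B ≠ C)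
    {x y : P} (hx : ¬ I x B) (hy : ¬ I y B) (hxC : I x C) (hyC : I y C) :
    ∃ h ∈ N B, h • C = C ∧ h • x = y := by
  have h1 : (fun h : G => h • x) '' {h | h ∈ N B ∧ h • C = C} = {y | I y C ∧ ¬ I y B} := by
    apply Set.eq_of_subset_of_ncard_le
    · rintro _ ⟨h, hh, rfl⟩
      exact ⟨D.inc_smul hh.2 hxC, D.not_inc_smul (D.fam_smul E.fam hh.1) hx⟩
    · rw [D.ncard_diff hBC, Set.ncard_image_of_injOn]
      · have h2 := E.hk
        have h3 : Set.ncard {h : G | h ∈ N B ∧ h • C = C} = c := by
          rw [← E.num.cardS B C hBC]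
          exact Nat.card_congr ⟨fun h => ⟨⟨h, h.2.1⟩, h.2.2⟩, fun h => ⟨h.1, h.1.2, h.2⟩,
            fun h => rfl, fun h => rfl⟩
        rw [h3]
        omega
      · intro a ha b hb hab
        have h2 : (b⁻¹ * a) • x = x := by
          rw [mul_smul, inv_smul_eq_iff]
          exact hab
        have h3 := E.fam.semi B _ (mul_mem (inv_mem hb.1) ha.1) x hx h2
        exact (inv_mul_eq_one.mp h3).symm
    · exact Set.toFinite _
  have h2 : y ∈ {y | I y C ∧ ¬ I y B} := ⟨hyC, hy⟩
  rw [← h1] at h2
  obtain ⟨h, hh, e⟩ := h2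
  exact ⟨h, hh.1, hh.2, e⟩

variable [AbFam N]

theorem exists_normal_vec {F : Type} [Field F] [Fintype F] {m : ℕ} (S : Submodule F (Fin m → F))
    {c : ℕ} (hc : Nat.card S = c) (hm : Fintype.card F * c = Fintype.card F ^ m) :
    ∃ b : Fin m → F, b ≠ 0 ∧ ∀ w, w ∈ S ↔ b ⬝ᵥ w = 0 := by
  classical
  have hq : 1 < Fintype.card F := Fintype.one_lt_card
  have h1 : Nat.card S = Fintype.card F ^ Module.finrank F S := by
    rw [Nat.card_eq_fintype_card, Module.card_eq_pow_finrank (K := F)]
  have h2 : m = Module.finrank F S + 1 := by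
    rw [← hc, h1, ← pow_succ'] at hm
    exact (Nat.pow_right_injective hq hm).symm
  have h3 : S ≠ ⊤ := by
    rintro rfl
    rw [finrank_top, Module.finrank_fin_fun] at h2
    omega
  obtain ⟨f, hf, hSf⟩ := Submodule.exists_le_ker_of_lt_top S (lt_top_iff_ne_top.mpr h3)
  have h4 : S = LinearMap.ker f := by
    apply Submodule.eq_of_le_of_finrank_le hSf
    have h5 := f.finrank_range_add_finrank_ker
    rw [Module.finrank_fin_fun] at h5
    have h6 : 0 < Module.finrank F (LinearMap.range f) := by
      rw [Module.finrank_pos_iff_exists_ne_zero]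
      obtain ⟨w, hw⟩ : ∃ w, f w ≠ 0 := by
        by_contra hcon
        push Not at hcon
        exact hf (LinearMap.ext hcon)
      exact ⟨⟨f w, ⟨w, rfl⟩⟩, fun e => hw (congrArg Subtype.val e)⟩
    omega
  have h5 : ∀ w, f w = (fun i => f (Pi.single i 1)) ⬝ᵥ w := by
    intro w
    rw [LinearMap.pi_apply_eq_sum_univ f w]
    simp only [dotProduct, smul_eq_mul]
    refine Finset.sum_congr rfl fun i _ => ?_
    rw [mul_comm]
    congr 2
    ext j
    simp [Pi.single_apply, eq_comm]
  refine ⟨fun i => f (Pi.single i 1), ?_, ?_⟩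
  · intro h
    apply hf
    ext w
    rw [LinearMap.comp_apply, h5, h, zero_dotProduct]
    rfl
  · intro w
    rw [← h5, h4, LinearMap.mem_ker]

theorem cons_dot {F : Type} [Field F] {m : ℕ} (a b : F) (x y : Fin m → F) :
    (Fin.cons a x : Fin (m + 1) → F) ⬝ᵥ Fin.cons b y = a * b + x ⬝ᵥ y := by
  simp [dotProduct, Fin.sum_univ_succ]

/-- Projective coordinates. -/
theorem coord (D : Des G P Q I v k l) (E : Ela I N v k l q c) :
    ∃ (F : Type) (_ : Field F) (_ : Fintype F) (m : ℕ) (φ : P ≃ ℙ F (Fin (m + 1) → F))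
      (ψ : Q ≃ ℙ F (Fin (m + 1) → F)), Fintype.card F = q ∧ 2 ≤ m ∧
      ∀ x C, I x C ↔ (ψ C).rep ⬝ᵥ (φ x).rep = 0 := by
  classical
  obtain ⟨B⟩ := D.nonempty_block
  obtain ⟨o, ho⟩ := D.exists_antiflag B
  have S := D.spread E B
  have hq2 := E.q2
  have hc2 := E.c2
  -- two points of `B`
  obtain ⟨z0, z1, hz01⟩ : ∃ z0 z1 : {z : P // I z B}, z0 ≠ z1 := by
    have h1 := D.kP B
    have h2 := D.k2
    have h3 : 1 < Set.ncard {x | I x B} := by omega
    obtain ⟨a, ha, b, hb, hab⟩ := (Set.one_lt_ncard (Set.toFinite _)).mp h3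
    exact ⟨⟨a, ha⟩, ⟨b, hb⟩, fun e => hab (congrArg Subtype.val e)⟩
  obtain ⟨F, _, _, m, e, hFq, hm, he⟩ := S.exists_field hz01
    (fun t u hu hu0 u' hu' => D.ker_trans E t hu hu0 hu')
  -- the order of `V`
  have hcardV : q * c = q ^ m := by
    have h1 : Nat.card (Additive (N B)) = q * c := E.num.cardN B
    rw [← h1, Nat.card_congr e.toEquiv, Nat.card_eq_fintype_card, Fintype.card_fun, hFq,
      Fintype.card_fin]
  -- representatives
  have hW0 : ∀ t : {z : P // I z B}, ∃ u ∈ Wz I N B t, u ≠ 0 := S.exists_ne_zero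
  choose ub hub hub0 using hW0
  have hreg : ∀ x : P, ¬ I x B → ∃ h : Additive (N B), ((Additive.toMul h : N B) : G) • o = x := by
    intro x hx
    obtain ⟨h, hh, hx⟩ := D.reg E ho hx
    exact ⟨mkN N h hh, hx⟩
  choose! hr hhr using hreg
  have hruniq : ∀ h : Additive (N B), hr (((Additive.toMul h : N B) : G) • o) = h := by
    intro h
    have h1 : ¬ I (((Additive.toMul h : N B) : G) • o) B :=
      D.not_inc_smul (D.fam_smul E.fam (Additive.toMul h).2) ho
    have h2 := hhr _ h1
    set h' := hr (((Additive.toMul h : N B) : G) • o)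
    have h3 : (((Additive.toMul h : N B) : G)⁻¹ * ((Additive.toMul h' : N B) : G)) • o = o := by
      rw [mul_smul, h2, inv_smul_smul]
    have h4 := E.fam.semi B _ (mul_mem (inv_mem (Additive.toMul h).2) (Additive.toMul h').2) o ho h3
    have h5 := inv_mul_eq_one.mp h4
    exact congrArg Additive.ofMul (Subtype.ext h5.symm)
  let vec : P → (Fin (m + 1) → F) := fun x =>
    if hx : I x B then Fin.cons 0 (e (ub ⟨x, hx⟩)) else Fin.cons 1 (e (hr x))
  have vecB : ∀ x (hx : I x B), vec x = Fin.cons 0 (e (ub ⟨x, hx⟩)) := fun x hx => by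
    simp only [vec, dif_pos hx]
  have vecO : ∀ x (_ : ¬ I x B), vec x = Fin.cons 1 (e (hr x)) := fun x hx => by
    simp only [vec, dif_neg hx]
  have hvec0 : ∀ x, vec x ≠ 0 := by
    intro x h
    by_cases hx : I x B
    · rw [vecB x hx] at h
      have h1 : e (ub ⟨x, hx⟩) = 0 := by
        ext i
        have := congrFun h i.succ
        simpa using this
      rw [AddEquiv.map_eq_zero_iff] at h1
      exact hub0 _ h1
    · rw [vecO x hx] at h
      have := congrFun h 0
      simp at this
  -- covectors
  have hcov : ∀ C : Q, ∃ a : Fin (m + 1) → F, a ≠ 0 ∧ ∀ x, I x C ↔ a ⬝ᵥ vec x = 0 := by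
    intro C
    by_cases hBC : B = C
    · subst hBC
      refine ⟨Fin.cons 1 0, ?_, ?_⟩
      · intro h
        have := congrFun h 0
        simp at this
      · intro x
        by_cases hx : I x B
        · rw [vecB x hx, cons_dot]
          simp [hx]
        · rw [vecO x hx, cons_dot]
          simp [hx]
    · -- the stabilizer of `C`
      let VC : AddSubgroup (Additive (N B)) :=
        { carrier := {x | ((Additive.toMul x : N B) : G) • C = C}
          zero_mem' := one_smul G C
          add_mem' := fun {a b} ha hb => by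
            change (((Additive.toMul a : N B) : G) * ((Additive.toMul b : N B) : G)) • C = C
            rw [mul_smul, hb, ha]
          neg_mem' := fun {a} ha => by
            change (((Additive.toMul a : N B) : G))⁻¹ • C = C
            rw [inv_smul_eq_iff]
            exact ha.symm }
      have hVCW : ∀ (t : {z : P // I z B}) x, x ∈ Wz I N B t → x ≠ 0 → (x ∈ VC ↔ I t.1 C) := by
        intro t x hx hx0
        constructor
        · intro h
          by_contra hcon
          apply hx0
          obtain ⟨h, hh, rfl⟩ := exists_mk x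
          rw [mk_eq_zero]
          exact D.U_eq_one E hx (by assumption) hcon
        · intro h
          exact hx.2 C h
      have hVCs : ∀ x ∈ VC, ∀ (a : F) (y : Additive (N B)), e y = a • e x → y ∈ VC := by
        intro x hx a y hy
        by_cases hx0 : x = 0
        · rw [hx0, map_zero, smul_zero, AddEquiv.map_eq_zero_iff] at hy
          rw [hy]
          exact zero_mem _
        · obtain ⟨t, ht⟩ := S.cover x
          have h1 : y ∈ Wz I N B t := (he t x ht hx0 y).mpr ⟨a, hy⟩
          exact h1.2 C ((hVCW t x ht hx0).mp hx)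
      let SC : Submodule F (Fin m → F) :=
        { carrier := {w | e.symm w ∈ VC}
          zero_mem' := by
            change e.symm 0 ∈ VC
            rw [map_zero]; exact zero_mem _
          add_mem' := fun {a b} ha hb => by
            change e.symm (a + b) ∈ VC
            rw [map_add]; exact add_mem ha hb
          smul_mem' := fun a w hw => by
            apply hVCs _ hw a
            rw [AddEquiv.apply_symm_apply, AddEquiv.apply_symm_apply] }
      have hSC : Nat.card SC = c := by
        have h1 : Nat.card VC = c := by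
          rw [← E.num.cardS B C hBC]
          exact Nat.card_congr ⟨fun x => ⟨(Additive.toMul x.1 : N B), x.2⟩,
            fun h => ⟨Additive.ofMul h.1, h.2⟩, fun x => rfl, fun h => rfl⟩
        rw [← h1]
        exact Nat.card_congr ⟨fun w => ⟨e.symm w.1, w.2⟩, fun x => ⟨e x.1, by
          change e.symm (e x.1) ∈ VC
          rw [AddEquiv.symm_apply_apply]; exact x.2⟩,
          fun w => Subtype.ext (e.apply_symm_apply w.1),
          fun x => Subtype.ext (e.symm_apply_apply x.1)⟩
      obtain ⟨b, hb0, hb⟩ := exists_normal_vec SC hSC (by rw [hFq]; exact hcardV)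
      have hb' : ∀ x, x ∈ VC ↔ b ⬝ᵥ e x = 0 := by
        intro x
        rw [← hb]
        change _ ↔ e.symm (e x) ∈ VC
        rw [AddEquiv.symm_apply_apply]
      -- a point of `C` off `B`
      obtain ⟨o', -, -, ho'C, -, ho'B, -⟩ := D.exists_two hBC
      refine ⟨Fin.cons (-(b ⬝ᵥ e (hr o'))) b, ?_, ?_⟩
      · intro h
        apply hb0
        ext i
        have := congrFun h i.succ
        simpa using this
      · intro x
        by_cases hx : I x B
        · rw [vecB x hx, cons_dot, mul_zero, zero_add, ← hb']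
          exact (hVCW ⟨x, hx⟩ _ (hub _) (hub0 _)).symm
        · rw [vecO x hx, cons_dot, mul_one, neg_add_eq_zero, eq_comm, ← sub_eq_zero,
            ← dotProduct_sub, ← map_sub, ← hb']
          constructor
          · intro hxC
            obtain ⟨h, hh, hhC, hho⟩ := D.reg_stab E hBC ho'B hx ho'C hxC
            have h1 : mkN N h hh + hr o' = hr x := by
              rw [← hruniq (mkN N h hh + hr o')]
              congr 1
              change (h * ((Additive.toMul (hr o') : N B) : G)) • o = x
              rw [mul_smul, hhr o' ho'B, hho]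
            rw [← h1, add_sub_cancel_right]
            exact hhC
          · intro h
            have h1 : ((Additive.toMul (hr x - hr o') : N B) : G) • o' = x := by
              have h2 : hr x = (hr x - hr o') + hr o' := by abel
              have h3 : ((Additive.toMul (hr x) : N B) : G) =
                  ((Additive.toMul (hr x - hr o') : N B) : G) *
                    ((Additive.toMul (hr o') : N B) : G) := by
                conv_lhs => rw [h2]
                rfl
              exact ((hhr x hx).symm.trans (by rw [h3, mul_smul, hhr o' ho'B])).symm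
            rw [← h1]
            exact D.inc_smul h ho'C
  choose cov hcov0 hcovI using hcov
  -- the point map
  let φ0 : P → ℙ F (Fin (m + 1) → F) := fun x => Projectivization.mk F (vec x) (hvec0 x)
  have hφi : Function.Injective φ0 := by
    intro x y hxy
    obtain ⟨a, ha⟩ := (Projectivization.mk_eq_mk_iff F _ _ (hvec0 x) (hvec0 y)).mp hxy
    apply D.point_eq
    intro C hC
    rw [hcovI] at hC ⊢
    rw [← ha] at hC
    change cov C ⬝ᵥ ((a : F) • vec y) = 0 at hC
    rw [dotProduct_smul, smul_eq_mul] at hC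
    exact (mul_eq_zero.mp hC).resolve_left a.ne_zero
  have hφs : Function.Surjective φ0 := by
    intro p
    have hp := p.rep_nonzero
    by_cases hp0 : p.rep 0 = 0
    · have ht : (fun i : Fin m => p.rep i.succ) ≠ 0 := by
        intro h
        apply hp
        ext i
        refine Fin.cases hp0 (fun i => congrFun h i) i
      set w := e.symm (fun i : Fin m => p.rep i.succ) with hw
      have hw0 : w ≠ 0 := by
        intro h
        rw [hw, AddEquiv.map_eq_zero_iff] at h
        exact ht h
      obtain ⟨t, htw⟩ := S.cover w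
      obtain ⟨a, ha⟩ := (he t _ (hub t) (hub0 t) w).mp htw
      rw [hw, AddEquiv.apply_symm_apply] at ha
      have ha0 : a ≠ 0 := by
        rintro rfl
        rw [zero_smul] at ha
        exact ht ha
      refine ⟨t.1, ?_⟩
      rw [← p.mk_rep]
      simp only [φ0]
      rw [Projectivization.mk_eq_mk_iff]
      refine ⟨(Units.mk0 a ha0)⁻¹, ?_⟩
      rw [inv_smul_eq_iff, vecB t.1 t.2]
      ext i
      refine Fin.cases ?_ (fun i => ?_) i
      · change p.rep 0 = a * _
        simp [hp0]
      · have := congrFun ha i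
        change p.rep i.succ = a * _
        simpa using this
    · set h := e.symm (fun i : Fin m => (p.rep 0)⁻¹ * p.rep i.succ) with hh
      refine ⟨((Additive.toMul h : N B) : G) • o, ?_⟩
      have h1 : ¬ I (((Additive.toMul h : N B) : G) • o) B :=
        D.not_inc_smul (D.fam_smul E.fam (Additive.toMul h).2) ho
      rw [← p.mk_rep]
      simp only [φ0]
      rw [Projectivization.mk_eq_mk_iff]
      refine ⟨(Units.mk0 (p.rep 0) hp0)⁻¹, ?_⟩
      rw [inv_smul_eq_iff, vecO _ h1, hruniq, hh, AddEquiv.apply_symm_apply]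
      ext i
      refine Fin.cases ?_ (fun i => ?_) i
      · change p.rep 0 = p.rep 0 * _
        simp
      · change p.rep i.succ = p.rep 0 * _
        simp [mul_inv_cancel_left₀ hp0]
  let φ : P ≃ ℙ F (Fin (m + 1) → F) := Equiv.ofBijective φ0 ⟨hφi, hφs⟩
  -- the block map
  let ψ0 : Q → ℙ F (Fin (m + 1) → F) := fun C => Projectivization.mk F (cov C) (hcov0 C)
  have hψi : Function.Injective ψ0 := by
    intro C C' hCC
    obtain ⟨a, ha⟩ := (Projectivization.mk_eq_mk_iff F _ _ (hcov0 C) (hcov0 C')).mp hCC
    apply D.dual.point_eq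
    intro x hx
    rw [hcovI] at hx ⊢
    rw [← ha] at hx
    change ((a : F) • cov C') ⬝ᵥ vec x = 0 at hx
    rw [smul_dotProduct, smul_eq_mul] at hx
    exact (mul_eq_zero.mp hx).resolve_left a.ne_zero
  have hψb : Function.Bijective ψ0 := by
    rw [Nat.bijective_iff_injective_and_card]
    exact ⟨hψi, by rw [D.cardQ, ← D.cardP, Nat.card_congr φ]⟩
  let ψ : Q ≃ ℙ F (Fin (m + 1) → F) := Equiv.ofBijective ψ0 hψb
  refine ⟨F, inferInstance, inferInstance, m, φ, ψ, hFq, hm, fun x C => ?_⟩
  obtain ⟨a, ha⟩ := Projectivization.exists_smul_eq_mk_rep F (vec x) (hvec0 x)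
  obtain ⟨b, hb⟩ := Projectivization.exists_smul_eq_mk_rep F (cov C) (hcov0 C)
  change I x C ↔ (Projectivization.mk F (cov C) (hcov0 C)).rep ⬝ᵥ
    (Projectivization.mk F (vec x) (hvec0 x)).rep = 0
  rw [← ha, ← hb, hcovI]
  change _ ↔ ((b : F) • cov C) ⬝ᵥ ((a : F) • vec x) = 0
  rw [smul_dotProduct, dotProduct_smul, smul_eq_mul, smul_eq_mul]
  constructor
  · intro h
    rw [h, mul_zero, mul_zero]
  · intro h
    exact (mul_eq_zero.mp ((mul_eq_zero.mp h).resolve_left b.ne_zero)).resolve_left a.ne_zero

end Des

end Cfsg.Agent.Ito
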