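import Cfsg.Agent.Ito.Base
import Cfsg.Agent.Frob.Kernel

/-!
# A family of subgroups fixing blocks pointwise and semiregular off them
-/

set_option autoImplicit false
set_option linter.unusedSectionVars false

namespace Cfsg.Agent.Ito

open MulAction Cfsg

/-- A `G`-invariant family of nontrivial subgroups `N B` fixing the block `B` pointwise and acting
semiregularly off `B`. -/
structure Fam {G P Q : Type*} [Group G] [MulAction G P] [MulAction G Q] (I : P → Q → Prop)
    (N : Q → Subgroup G) : Prop where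
  le : ∀ B, N B ≤ ker G I B
  conj : ∀ (g : G) B h, h ∈ N B → g * h * g⁻¹ ∈ N (g • B)
  nt : ∀ B, ∃ h ∈ N B, h ≠ 1
  semi : ∀ B, ∀ h ∈ N B, ∀ x, ¬ I x B → h • x = x → h = 1

namespace Des

universe u
variable {G : Type u} {P Q : Type*} [Group G] [MulAction G P] [MulAction G Q]
  {I : P → Q → Prop} {v k l : ℕ} [Finite P] [Finite Q]

theorem exists_antiflag (D : Des G P Q I v k l) (B : Q) : ∃ x, ¬ I x B := by
  by_contra hc
  push Not at hc
  have h1 := D.ncard_compl B
  have : {x | ¬ I x B} = ∅ := by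
    ext x; simp [hc x]
  rw [this, Set.ncard_empty] at h1
  have := D.kv
  omega

theorem exists_antiflag2 (D : Des G P Q I v k l) {B : Q} (x : P) :
    ∃ y, y ≠ x ∧ ¬ I y B := by
  have h1 := D.ncard_compl B
  have h2 := D.kv
  have h3 : 1 < Set.ncard {x | ¬ I x B} := by omega
  obtain ⟨y, hy, z, hz, hyz⟩ := (Set.one_lt_ncard (Set.toFinite _)).mp h3
  by_cases h : y = x
  · exact ⟨z, fun e => hyz (by rw [h, e]), hz⟩
  · exact ⟨y, h, hy⟩

open Classical in
theorem frob_mul [Finite G] [FaithfulSMul G P] (D : Des G P Q I v k l)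
    (hns : ∀ B x, ¬ I x B → ∃ h ∈ ker G I B, h • x = x ∧ h ≠ 1) (B : Q) {a b : G}
    (ha : a ∈ ker G I B) (ha' : a = 1 ∨ ∀ x, ¬ I x B → a • x ≠ x)
    (hb : b ∈ ker G I B) (hb' : b = 1 ∨ ∀ x, ¬ I x B → b • x ≠ x) :
    (a * b = 1 ∨ ∀ x, ¬ I x B → (a * b) • x ≠ x) ∧
      (∃ c ∈ ker G I B, c ≠ 1 ∧ ∀ x, ¬ I x B → c • x ≠ x) := by
  obtain ⟨x0, hx0⟩ := D.exists_antiflag B
  let K := ker G I B
  let H : Subgroup K := stabilizer K x0
  have mH : ∀ h : K, h ∈ H ↔ (h : G) • x0 = x0 := fun h => Iff.rfl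
  have hKB : ∀ h : K, (h : G) • B = B := fun h => D.smul_eq_of_ker h.2
  have hoff : ∀ (h : K) x, ¬ I x B → ¬ I ((h : G) • x) B :=
    fun h x hx => D.not_inc_smul (hKB h) hx
  have tf : ∀ (h : K) x y, ¬ I x B → ¬ I y B → x ≠ y → (h : G) • x = x → (h : G) • y = y →
      h = 1 := by
    intro h x y hx hy hxy fx fy
    exact Subtype.ext (D.two_fix h.2 hx hy hxy fx fy)
  obtain ⟨h0, h0K, h0x, h01⟩ := hns B x0 hx0
  have hbot : H ≠ ⊥ := by
    intro h
    have h1 : (⟨h0, h0K⟩ : K) ∈ H := h0x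
    rw [h, Subgroup.mem_bot] at h1
    exact h01 (congrArg Subtype.val h1)
  have hF : IsFrobeniusComplement H := by
    rw [Frob.isFrobeniusComplement_iff]
    refine ⟨hbot, ?_, ?_⟩
    · intro h
      obtain ⟨x1, h10, hx1⟩ := D.exists_antiflag2 (B := B) x0
      obtain ⟨h1, h1K, h1x, h11⟩ := hns B x1 hx1
      have h2 : (⟨h1, h1K⟩ : K) ∈ H := by rw [h]; trivial
      exact h11 (D.two_fix h1K hx0 hx1 h10.symm h2 h1x)
    · intro g h hh h1 hg
      by_contra hgH
      apply h1
      refine tf h x0 ((g⁻¹ : K) • x0) hx0 ?_ ?_ hh ?_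
      · exact hoff g⁻¹ x0 hx0
      · intro e
        apply hgH
        rw [mH, eq_comm]
        exact (inv_smul_eq_iff.mp e.symm)
      · have h2 : ((g * h * g⁻¹ : K) : G) • x0 = x0 := hg
        have h3 : (g : G) • (h : G) • ((g : G)⁻¹ • x0) = x0 := by
          simpa [mul_smul] using h2
        have h4 := (eq_inv_smul_iff.mpr h3)
        exact h4
  obtain ⟨N, hN, hNn, hNc⟩ := Frob.exists_normal_complement hF
  -- `K` is transitive off `B`
  have htr : ∀ x, ¬ I x B → ∃ g : K, (g : G) • x0 = x := by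
    intro x hx
    by_contra hc
    push Not at hc
    -- the stabilizer of `x` is contained in `N`
    have h1 : stabilizer K x ≤ N := by
      intro h hh
      have hh' : (h : G) • x = x := hh
      rw [← SetLike.mem_coe, hN, Frob.mem_frobeniusKernel_iff]
      by_cases h1 : h = 1
      · left; exact h1
      · right
        intro g hg
        apply h1
        refine tf h x ((g : G) • x0) hx (hoff g x0 hx0) (fun e => hc g e.symm) hh' ?_
        have h2 : ((g⁻¹ * h * g : K) : G) • x0 = x0 := hg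
        have h3 : (g : G)⁻¹ • (h : G) • ((g : G) • x0) = x0 := by
          simpa [mul_smul] using h2
        rw [inv_smul_eq_iff] at h3
        exact h3
    have h2 : Nat.card (stabilizer K x) ∣ Nat.card N := Subgroup.card_dvd_of_le h1
    have h3 : Nat.card N = H.index := by
      have e1 := hNc.card_mul
      have e2 := H.index_mul_card
      rw [← e2] at e1
      exact Nat.eq_of_mul_eq_mul_right Nat.card_pos e1
    obtain ⟨g, hg1, hg2⟩ := D.tA x0 B x B hx0 hx
    have h4 : Nat.card (stabilizer K x) = Nat.card H := by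
      have gk : ∀ h : G, h ∈ K → g * h * g⁻¹ ∈ K := by
        intro h hh
        have := D.conj_mem_ker hh g
        rw [hg2] at this
        exact this
      have hg2' : g⁻¹ • B = B := by rw [inv_smul_eq_iff, hg2]
      have gk' : ∀ h : G, h ∈ K → g⁻¹ * h * g ∈ K := by
        intro h hh
        have := D.conj_mem_ker hh g⁻¹
        rw [hg2', inv_inv] at this
        exact this
      have m1 : ∀ h : H, (⟨g * (h.1 : G) * g⁻¹, gk _ h.1.2⟩ : K) ∈ stabilizer K x := by
        intro h
        have h5 : ((h.1 : K) : G) • x0 = x0 := h.2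
        change (g * (h.1 : G) * g⁻¹) • x = x
        rw [← hg1, mul_smul, mul_smul, inv_smul_smul, h5]
      have m2 : ∀ h : stabilizer K x, (⟨g⁻¹ * (h.1 : G) * g, gk' _ h.1.2⟩ : K) ∈ H := by
        intro h
        have h5 : ((h.1 : K) : G) • x = x := h.2
        change (g⁻¹ * (h.1 : G) * g) • x0 = x0
        rw [mul_smul, mul_smul, hg1, h5, ← hg1, inv_smul_smul]
      refine (Nat.card_congr ⟨fun h => ⟨_, m1 h⟩, fun h => ⟨_, m2 h⟩, ?_, ?_⟩).symm
      · intro h
        apply Subtype.ext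
        apply Subtype.ext
        simp [mul_assoc]
      · intro h
        apply Subtype.ext
        apply Subtype.ext
        simp [mul_assoc]
    rw [h4, h3] at h2
    have h5 := Frob.coprime_card_index hF
    have h6 : Nat.card H = 1 := Nat.Coprime.eq_one_of_dvd h5 h2
    exact hbot ((Subgroup.eq_bot_iff_card H).mpr h6)
  have hel : ∀ c : K, c ∈ N ↔ ((c : G) = 1 ∨ ∀ x, ¬ I x B → (c : G) • x ≠ x) := by
    intro c
    rw [← SetLike.mem_coe, hN, Frob.mem_frobeniusKernel_iff]
    constructor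
    · rintro (h1 | h1)
      · left; rw [h1]; rfl
      · right
        intro x hx hcx
        obtain ⟨g, rfl⟩ := htr x hx
        apply h1 g
        change ((g⁻¹ * c * g : K) : G) • x0 = x0
        have : ((g⁻¹ * c * g : K) : G) = (g : G)⁻¹ * (c : G) * (g : G) := by simp
        rw [this, mul_smul, mul_smul, hcx, inv_smul_smul]
    · rintro (h1 | h1)
      · left; exact Subtype.ext h1
      · right
        intro g hg
        apply h1 ((g : G) • x0) (hoff g x0 hx0)
        have h2 : ((g⁻¹ * c * g : K) : G) • x0 = x0 := hg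
        have h3 : (g : G)⁻¹ • (c : G) • ((g : G) • x0) = x0 := by
          simpa [mul_smul] using h2
        rw [inv_smul_eq_iff] at h3
        exact h3
  constructor
  · exact (hel (⟨a, ha⟩ * ⟨b, hb⟩)).mp (mul_mem ((hel ⟨a, ha⟩).mpr ha') ((hel ⟨b, hb⟩).mpr hb'))
  · have hN1 : N ≠ ⊥ := by
      intro h
      have e1 := hNc.card_mul
      rw [h] at e1
      have e3 : Nat.card (⊥ : Subgroup K) = 1 := Subgroup.card_bot
      rw [e3, one_mul] at e1
      exact hF.2.1 ((Subgroup.card_eq_iff_eq_top H).mp e1)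
    obtain ⟨c, hc, hc1⟩ : ∃ c ∈ N, c ≠ 1 := by
      by_contra hcon
      push Not at hcon
      exact hN1 (eq_bot_iff.mpr fun c hc => hcon c hc)
    have hc2 := (hel c).mp hc
    refine ⟨(c : G), c.2, fun e => hc1 (Subtype.ext e), ?_⟩
    rcases hc2 with h | h
    · exact absurd (Subtype.ext h) hc1
    · exact h

/-- If some nonidentity element fixes a block pointwise, then there is a `Fam`. -/
theorem exists_fam [Finite G] [FaithfulSMul G P] (D : Des G P Q I v k l) {B0 : Q} {h0 : G}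
    (hh0 : h0 ∈ ker G I B0) (h01 : h0 ≠ 1) : ∃ N : Q → Subgroup G, Fam I N := by
  classical
  have hQ : ∀ B C : Q, ∃ g : G, g • B = C := by
    intro B C
    obtain ⟨x, hx⟩ := D.exists_antiflag B
    obtain ⟨y, hy⟩ := D.exists_antiflag C
    obtain ⟨g, -, hg⟩ := D.tA x B y C hx hy
    exact ⟨g, hg⟩
  by_cases hs : ∀ B, ∀ h ∈ ker G I B, ∀ x, ¬ I x B → h • x = x → h = 1
  · refine ⟨ker G I, fun B => le_rfl, fun g B h hh => D.conj_mem_ker hh g, ?_, hs⟩
    intro B
    obtain ⟨g, rfl⟩ := hQ B0 B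
    exact ⟨g * h0 * g⁻¹, D.conj_mem_ker hh0 g, by simpa using h01⟩
  · push Not at hs
    obtain ⟨B1, h1, hh1, x1, hx1, hf1, h11⟩ := hs
    have hns : ∀ B x, ¬ I x B → ∃ h ∈ ker G I B, h • x = x ∧ h ≠ 1 := by
      intro B x hx
      obtain ⟨g, rfl, rfl⟩ := D.tA x1 B1 x B hx1 hx
      refine ⟨g * h1 * g⁻¹, D.conj_mem_ker hh1 g, ?_, by simpa using h11⟩
      rw [mul_smul, mul_smul, inv_smul_smul, hf1]
    refine ⟨fun B => ⟨⟨⟨{h | h ∈ ker G I B ∧ (h = 1 ∨ ∀ x, ¬ I x B → h • x ≠ x)}, ?_⟩, ?_⟩, ?_⟩,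
      ?_, ?_, ?_, ?_⟩
    · rintro a b ⟨ha, ha'⟩ ⟨hb, hb'⟩
      exact ⟨mul_mem ha hb, (D.frob_mul hns B ha ha' hb hb').1⟩
    · exact ⟨one_mem _, Or.inl rfl⟩
    · rintro a ⟨ha, ha'⟩
      refine ⟨inv_mem ha, ?_⟩
      rcases ha' with rfl | ha'
      · left; simp
      · right
        intro x hx hc
        apply ha' x hx
        rw [inv_smul_eq_iff] at hc
        exact hc.symm
    · intro B h hh
      exact hh.1
    · rintro g B h ⟨hh, hh'⟩
      refine ⟨D.conj_mem_ker hh g, ?_⟩
      rcases hh' with rfl | hh'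
      · left; simp
      · right
        intro x hx hc
        have hx' : ¬ I (g⁻¹ • x) B := by
          intro h2
          apply hx
          rw [← D.inv g, smul_inv_smul] at h2
          exact h2
        apply hh' _ hx'
        rw [mul_smul, mul_smul] at hc
        rw [eq_inv_smul_iff]
        exact hc
    · intro B
      obtain ⟨c, hc, hc1, hc2⟩ := (D.frob_mul hns B (one_mem _) (Or.inl rfl) (one_mem _)
        (Or.inl rfl)).2
      exact ⟨c, ⟨hc, Or.inr hc2⟩, hc1⟩
    · rintro B h ⟨hh, hh'⟩ x hx hf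
      rcases hh' with rfl | hh'
      · rfl
      · exact absurd hf (hh' x hx)

end Des

end Cfsg.Agent.Ito
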